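import Mathlib
import Cfsg.Agent.H53.AhDefs
import Cfsg.Agent.H60.OddInv
import Cfsg.Agent.H83.Syl
import Cfsg.Agent.H3.Cores

/-!
# Extensions of a `3`-group by `S₄` do not have distinct class sizes (piece C4b of S4162)
-/

set_option autoImplicit false

namespace Cfsg.Agent.H14.AhC4b

open Subgroup Cfsg.Agent.H53.AH

universe u

/-- the symmetric group of degree four -/
abbrev S4 : Type := Equiv.Perm (Fin 4)
/-- four-cycles -/
def Is4 (c : S4) : Prop := c * c ≠ 1 ∧ c * c * (c * c) = 1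
/-- transpositions -/
def Is2 (c : S4) : Prop := c * c = 1 ∧ Equiv.Perm.sign c = -1
instance (c : S4) : Decidable (Is4 c) := by unfold Is4; infer_instance
instance (c : S4) : Decidable (Is2 c) := by unfold Is2; infer_instance

theorem card4 : (Finset.univ.filter Is4).card = 6 := by decide +kernel
theorem card2 : (Finset.univ.filter Is2).card = 6 := by decide +kernel
theorem cen0 : ∀ c : S4, Is4 c ∨ Is2 c →
    (Finset.univ.filter fun g : S4 => g * c = c * g).card = 4 := by decide +kernel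
theorem ex4 : ∀ τ : S4, Is2 τ → ∃ c, Is4 c ∧ τ * c * τ⁻¹ = c⁻¹ ∧ c * c ≠ τ ∧
    (∃ g, g * (c * c) * g⁻¹ = τ * c) ∧ ∃ g, g * (c * c) * g⁻¹ = c * c * (τ * c) := by
  decide +kernel
theorem conj4 : ∀ g c : S4, Is4 c → Is4 (g * c * g⁻¹) := by decide +kernel
theorem conj2 : ∀ g c : S4, Is2 c → Is2 (g * c * g⁻¹) := by decide +kernel

theorem cen (c : S4) (h : Is4 c ∨ Is2 c) : Nat.card (centralizer ({c} : Set S4)) = 4 := by
  refine Eq.trans ?_ (cen0 c h)
  rw [← Fintype.card_subtype, ← Nat.card_eq_fintype_card]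
  exact Nat.card_congr (Equiv.subtypeEquivRight fun g => mem_centralizer_singleton_iff)

theorem geo (c : ℕ) (hc : 0 < c) (T : Finset ℕ) (h : ∀ n ∈ T, ∃ i, n = c * 3 ^ i) :
    ∑ n ∈ T, (1 : ℚ) / n < 3 / (2 * c) := by
  have hc' : (0 : ℚ) < c := by exact_mod_cast hc
  have h1 : ∀ k, ∑ i ∈ Finset.range k, (1 : ℚ) / ((c * 3 ^ i : ℕ) : ℚ) =
      3 / (2 * c) - 3 / (2 * c * 3 ^ k) := fun k => by
    induction k with
    | zero => simp
    | succ k ih => rw [Finset.sum_range_succ, ih]; push_cast; field_simp; ring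
  have h2 : T ⊆ (Finset.range (T.sup id + 1)).image fun i => c * 3 ^ i := fun n hn => by
    obtain ⟨i, rfl⟩ := h n hn
    refine Finset.mem_image.2 ⟨i, Finset.mem_range.2 ?_, rfl⟩
    have h3 : c * 3 ^ i ≤ T.sup id := Finset.le_sup (f := id) hn
    have h4 : i < 3 ^ i := Nat.lt_pow_self (by norm_num)
    nlinarith
  calc _ ≤ ∑ n ∈ (Finset.range (T.sup id + 1)).image fun i => c * 3 ^ i, (1 : ℚ) / n :=
        Finset.sum_le_sum_of_subset_of_nonneg h2 fun _ _ _ => by positivity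
    _ ≤ ∑ i ∈ Finset.range (T.sup id + 1), (1 : ℚ) / ((c * 3 ^ i : ℕ) : ℚ) :=
        Finset.sum_image_le_of_nonneg fun _ _ => by positivity
    _ < _ := by rw [h1]; exact sub_lt_self _ (by positivity)

variable {G : Type*} [Group G] [Finite G]

theorem card_pre {φ : G →* S4} (hφ : Function.Surjective φ) (P : S4 → Prop) [DecidablePred P] :
    Nat.card {x | P (φ x)} * 24 = (Finset.univ.filter P).card * Nat.card G := by
  classical
  have := Fintype.ofFinite G
  have key : ∀ (Q : S4 → Prop) [DecidablePred Q], (Finset.univ.filter fun x => Q (φ x)).card =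
      (Finset.univ.filter Q).card * (Finset.univ.filter fun x => φ x = 1).card := fun Q _ => by
    rw [Finset.card_eq_sum_card_fiberwise (f := φ) (t := Finset.univ.filter Q)
      (fun x hx => by simpa using hx), ← smul_eq_mul, ← Finset.sum_const]
    refine Finset.sum_congr rfl fun c hc => ?_
    rw [← MonoidHom.card_fiber_eq_of_mem_range φ (hφ c) (hφ 1)]
    congr 1
    ext x
    simp only [Finset.mem_filter, Finset.mem_univ, true_and, and_iff_right_iff_imp]
    rintro rfl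
    simpa using hc
  have h1 := key P
  have h2 := key fun _ => True
  simp only [Finset.filter_true, Finset.card_univ, Fintype.card_perm, Fintype.card_fin] at h2
  rw [Nat.card_eq_fintype_card, Fintype.card_subtype, Nat.card_eq_fintype_card, h2]
  simp only [Set.mem_ofPred_eq]
  rw [h1, show Nat.factorial 4 = 24 from rfl]
  ring

theorem sum_eq (hs : SumStmt.{u}) {G : Type u} [Group G] [Finite G] (hG : Ah G) {φ : G →* S4}
    (hφ : Function.Surjective φ) (P : S4 → Prop) [DecidablePred P]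
    (hP : (Finset.univ.filter P).card = 6) (hc : ∀ g c, P c → P (g * c * g⁻¹)) :
    ∃ T : Finset ℕ, (∀ n, n ∈ T ↔ ∃ x, P (φ x) ∧ cc x = n) ∧ ∑ n ∈ T, (1 : ℚ) / n = 1 / 4 := by
  obtain ⟨T, h1, h2⟩ := hs G hG {x | P (φ x)} fun x hx g => by
    simpa [map_mul] using hc (φ g) _ hx
  refine ⟨T, h1, ?_⟩
  have h3 := card_pre hφ P
  rw [hP] at h3
  have h4 : (Nat.card {x | P (φ x)} : ℚ) * 24 = 6 * Nat.card G := by exact_mod_cast h3
  have h5 : (Nat.card G : ℚ) ≠ 0 := by exact_mod_cast Nat.card_pos.ne'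
  apply mul_left_cancel₀ h5
  rw [← h2]; linear_combination h4 / 24

theorem cc_eq {φ : G →* S4} (hk : IsPGroup 3 φ.ker) (y : G) (h : Is4 (φ y) ∨ Is2 (φ y)) :
    ∃ i, Nat.card ↥(φ.ker ⊓ centralizer {y}) = 3 ^ i ∧
      cc y = Nat.card ((centralizer {y}).map φ) * 3 ^ i ∧
      Nat.card ((centralizer {y}).map φ) ∣ 4 := by
  have : Fact (Nat.Prime 3) := ⟨Nat.prime_three⟩
  obtain ⟨i, hi⟩ := IsPGroup.iff_card.1 (hk.to_inf_left (K := centralizer {y}))
  refine ⟨i, hi, ?_, ?_⟩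
  · rw [← hi, ← relIndex_ker, mul_comm, H3.card_inf_mul_relIndex]
  · refine (card_dvd_of_le ?_).trans (cen _ h).dvd
    rintro _ ⟨x, hx, rfl⟩
    rw [mem_centralizer_singleton_iff, ← map_mul, ← map_mul, mem_centralizer_singleton_iff.1 hx]

theorem ord_dvd {φ : G →* S4} (y : G) : orderOf (φ y) ∣ Nat.card ((centralizer {y}).map φ) :=
  Subgroup.orderOf_dvd_natCard _ ⟨y, mem_centralizer_singleton_iff.2 rfl, rfl⟩

theorem ord4 {c : S4} (h : Is4 c) : orderOf c = 4 := by
  have : Fact (Nat.Prime 2) := ⟨Nat.prime_two⟩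
  refine orderOf_eq_prime_pow (p := 2) (n := 1) (by simpa [sq] using h.1) ?_
  rw [show 2 ^ (1 + 1) = 2 + 2 from rfl, pow_add, sq]; exact h.2

theorem ord2 {c : S4} (h : Is2 c) : orderOf c = 2 := by
  have : Fact (Nat.Prime 2) := ⟨Nat.prime_two⟩
  refine orderOf_eq_prime (by rw [sq]; exact h.1) ?_
  rintro rfl
  exact absurd h.2 (by decide)

theorem all4 (hs : SumStmt.{u}) {G : Type u} [Group G] [Finite G] (hG : Ah G) {φ : G →* S4}
    (hφ : Function.Surjective φ) (hk : IsPGroup 3 φ.ker) (y : G) (hy : Is4 (φ y)) : cc y = 4 := by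
  obtain ⟨T, h1, h2⟩ := sum_eq hs hG hφ Is4 card4 conj4
  have h3 : ∀ n ∈ T, ∃ i, n = 4 * 3 ^ i := fun n hn => by
    obtain ⟨x, hx, rfl⟩ := (h1 n).1 hn
    obtain ⟨i, -, h4, h5⟩ := cc_eq hk x (.inl hx)
    exact ⟨i, by rw [h4, Nat.dvd_antisymm h5 ((ord4 hx).symm.dvd.trans (ord_dvd x))]⟩
  have h4 : 4 ∈ T := by
    by_contra h4
    have := geo 12 (by norm_num) T fun n hn => by
      obtain ⟨i, rfl⟩ := h3 n hn
      cases i with
      | zero => exact absurd hn h4
      | succ i => exact ⟨i, by ring⟩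
    rw [h2] at this; norm_num at this
  by_contra hne
  have h5 : cc y ∈ T := (h1 _).2 ⟨y, hy, rfl⟩
  have h6 := Finset.sum_le_sum_of_subset_of_nonneg (f := fun n : ℕ => (1 : ℚ) / n)
    (show {cc y, 4} ⊆ T by simp [Finset.insert_subset_iff, h4, h5]) fun _ _ _ => by positivity
  rw [Finset.sum_pair hne, h2] at h6
  have h7 : (0 : ℚ) < cc y := by exact_mod_cast Nat.card_pos
  have h8 : (0 : ℚ) < 1 / cc y := by positivity
  rw [show ((4 : ℕ) : ℚ) = 4 from rfl] at h6
  linarith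

theorem ex6 (hs : SumStmt.{u}) {G : Type u} [Group G] [Finite G] (hG : Ah G)
    (h2 : ∀ x : G, cc x ≠ 2) {φ : G →* S4} (hφ : Function.Surjective φ) (hk : IsPGroup 3 φ.ker) :
    ∃ s : G, Is2 (φ s) ∧ cc s = 6 := by
  obtain ⟨T, h1, h3⟩ := sum_eq hs hG hφ Is2 card2 conj2
  by_contra hne
  have h4 : ∀ n ∈ T, (∃ i, n = 18 * 3 ^ i) ∨ ∃ i, n = 12 * 3 ^ i := fun n hn => by
    obtain ⟨x, hx, rfl⟩ := (h1 n).1 hn
    obtain ⟨i, -, h4, h5⟩ := cc_eq hk x (.inr hx)
    have h6 := ord2 hx ▸ ord_dvd (φ := φ) x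
    have h7 : Nat.card ((centralizer {x}).map φ) = 2 ∨ Nat.card ((centralizer {x}).map φ) = 4 := by
      have := Nat.le_of_dvd (by norm_num) h5
      interval_cases Nat.card ((centralizer {x}).map φ) <;> omega
    rcases h7 with h7 | h7 <;> rw [h7] at h4
    · match i with
      | 0 => exact absurd h4 (h2 x)
      | 1 => exact absurd ⟨x, hx, h4⟩ hne
      | i + 2 => exact .inl ⟨i, by rw [h4]; ring⟩
    · match i with
      | 0 =>
        obtain ⟨c, hc, -⟩ := ex4 _ hx
        obtain ⟨y, rfl⟩ := hφ c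
        obtain ⟨g, hg⟩ := isConj_iff.1 (hG y x ((all4 hs hG hφ hk y hc).trans h4.symm))
        have := conj4 (φ g) _ hc
        rw [← map_inv, ← map_mul, ← map_mul, hg] at this
        exact absurd hx.1 this.1
      | i + 1 => exact .inr ⟨i, by rw [h4]; ring⟩
  classical
  rw [← Finset.sum_filter_add_sum_filter_not T fun n => ∃ i, n = 18 * 3 ^ i] at h3
  have h5 := geo 18 (by norm_num) (T.filter fun n => ∃ i, n = 18 * 3 ^ i)
    fun n hn => (Finset.mem_filter.1 hn).2
  have h6 := geo 12 (by norm_num) (T.filter fun n => ¬ ∃ i, n = 18 * 3 ^ i)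
    fun n hn => (h4 n (Finset.mem_filter.1 hn).1).resolve_left (Finset.mem_filter.1 hn).2
  norm_num at h3 h5 h6
  linarith

theorem inverts {H : Subgroup G} {g : G} (h1 : ∀ x ∈ H, g * x * g⁻¹ ∈ H)
    (h2 : ∀ x ∈ H, g * g * x = x * (g * g)) (h3 : ∀ x ∈ H, g * x = x * g → x = 1) :
    ∀ x ∈ H, g * x * g⁻¹ = x⁻¹ := by
  let ψ : H →* H := MonoidHom.mk' (fun x => ⟨g * x * g⁻¹, h1 x x.2⟩) fun x y =>
    Subtype.ext (by simp [mul_assoc])
  have hf : MonoidHom.FixedPointFree ψ := fun x hx => Subtype.ext (h3 x x.2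
    (mul_inv_eq_iff_eq_mul.1 (congrArg Subtype.val hx)))
  have hi : Function.Involutive ψ := fun x => Subtype.ext (by
    show g * (g * x * g⁻¹) * g⁻¹ = x
    calc _ = g * g * x * (g * g)⁻¹ := by group
      _ = x := by rw [h2 x x.2]; group)
  intro x hx
  exact congrArg Subtype.val (congrFun (hf.coe_eq_inv_of_involutive hi) ⟨x, hx⟩)

omit [Finite G] in
theorem card_conj {O : Subgroup G} [O.Normal] {a b : G} (h : IsConj a b) :
    Nat.card ↥(O ⊓ centralizer {a}) = Nat.card ↥(O ⊓ centralizer {b}) := by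
  obtain ⟨g, rfl⟩ := isConj_iff.1 h
  refine Nat.card_congr ((MulAut.conj g).toEquiv.subtypeEquiv fun x => ?_)
  simp only [mem_inf, mem_centralizer_singleton_iff, MulEquiv.toEquiv_eq_coe, EquivLike.coe_coe,
    MulAut.conj_apply]
  refine and_congr ⟨fun h => Normal.conj_mem ‹_› x h g, fun h => ?_⟩ ⟨fun h => ?_, fun h => ?_⟩
  · simpa [mul_assoc] using Normal.conj_mem ‹_› _ h g⁻¹
  · calc _ = g * (x * a) * g⁻¹ := by group
      _ = _ := by rw [h]; group
  · calc x * a = g⁻¹ * (g * x * g⁻¹ * (g * a * g⁻¹)) * g := by group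
      _ = _ := by rw [h]; group

theorem lift {φ : G →* S4} (hφ : Function.Surjective φ) (hk : IsPGroup 3 φ.ker) {t : G}
    (ht : t * t = 1) {c : S4} (hc : Is4 c) (h : φ t * c * (φ t)⁻¹ = c⁻¹) :
    ∃ y, φ y = c ∧ y * y * (y * y) = 1 ∧ t * y * t⁻¹ = y⁻¹ := by
  have : Fact (Nat.Prime 2) := ⟨Nat.prime_two⟩
  have : Fact (Nat.Prime 3) := ⟨Nat.prime_three⟩
  have hD : IsPGroup 2 ↥(zpowers (φ t) ⊔ zpowers c) := by
    refine H83.isPGroup_sup
      (H83.isPGroup_zpowers (k := 1) (by rw [pow_one, sq, ← map_mul, ht, map_one]))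
      (H83.isPGroup_zpowers (k := 2) (orderOf_dvd_iff_pow_eq_one.1 (ord4 hc).dvd))
      (zpowers_le.2 (mem_normalizer_fintype ?_))
    rintro _ ⟨n, rfl⟩
    exact ⟨-n, by simp only [← conj_zpow, h, inv_zpow']⟩
  obtain ⟨P, hP, htP⟩ := H83.exists_isSylowIn_ge (p := 2) (P := zpowers t)
    (H := (zpowers (φ t) ⊔ zpowers c).comap φ)
    (zpowers_le.2 (mem_sup_left (mem_zpowers _)))
    (H83.isPGroup_zpowers (k := 1) (by rw [pow_one, sq, ht]))
  have h1 := hP.map φ
  rw [map_comap_eq_self_of_surjective hφ] at h1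
  have hy : c ∈ P.map φ := by rw [h1.eq_of_isPGroup hD]; exact mem_sup_right (mem_zpowers c)
  obtain ⟨y, hy, rfl⟩ := hy
  have hdis := IsPGroup.disjoint_of_ne 2 3 (by norm_num) P φ.ker hP.isPGroup hk
  have h2 : ∀ x ∈ P, φ x = 1 → x = 1 := fun x hx e => disjoint_def.1 hdis hx e
  have htP' : t ∈ P := htP (mem_zpowers t)
  refine ⟨y, rfl, h2 _ (mul_mem (mul_mem hy hy) (mul_mem hy hy)) (by simpa using hc.2),
    eq_inv_of_mul_eq_one_left (h2 _ (mul_mem (mul_mem (mul_mem htP' hy) (inv_mem htP')) hy) ?_)⟩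
  rw [map_mul, map_mul, map_mul, map_inv, h, inv_mul_cancel]

theorem c4b (hs : SumStmt.{u}) : C4bStmt.{u} := by
  intro G _ _ hG h2 φ hφ hk
  have : Fact (Nat.Prime 2) := ⟨Nat.prime_two⟩
  have : Fact (Nat.Prime 3) := ⟨Nat.prime_three⟩
  obtain ⟨s, hs2, hs6⟩ := ex6 hs hG h2 hφ hk
  obtain ⟨i, hi, h3, h4⟩ := cc_eq hk s (.inr hs2)
  have h5 : Nat.card ((centralizer {s}).map φ) = 2 ∧ 3 ^ i = 3 := by
    have h6 := ord2 hs2 ▸ ord_dvd (φ := φ) s
    have := Nat.le_of_dvd (by norm_num) h4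
    rw [hs6] at h3
    interval_cases Nat.card ((centralizer {s}).map φ) <;> omega
  rw [h5.2] at hi
  have hτ : ∀ x, x * s = s * x → φ x = 1 ∨ φ x = φ s := fun x hx => by
    have e : zpowers (φ s) = (centralizer {s}).map φ := by
      refine eq_of_le_of_card_ge (zpowers_le.2 ⟨s, mem_centralizer_singleton_iff.2 rfl, rfl⟩) ?_
      rw [h5.1, Nat.card_zpowers, ord2 hs2]
    have : φ x ∈ zpowers (φ s) := e ▸ ⟨x, mem_centralizer_singleton_iff.2 hx, rfl⟩
    rw [mem_zpowers_iff_mem_range_orderOf, ord2 hs2] at this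
    obtain ⟨n, hn, e⟩ := Finset.mem_image.1 this
    have := Finset.mem_range.1 hn
    interval_cases n
    · exact .inl (by simpa using e.symm)
    · exact .inr (by simpa using e.symm)
  have hs1 : s ^ 6 = 1 := by
    rw [← hs6]
    exact orderOf_dvd_iff_pow_eq_one.1
      (Subgroup.orderOf_dvd_natCard _ (mem_centralizer_singleton_iff.2 rfl))
  obtain ⟨t, htd⟩ : ∃ t, t = s ^ 3 := ⟨_, rfl⟩
  obtain ⟨o, hod⟩ : ∃ o, o = s ^ 2 := ⟨_, rfl⟩
  have ht : t * t = 1 := by rw [htd, ← pow_add]; exact hs1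
  have hφt : φ t = φ s := by rw [htd, map_pow, pow_succ, sq, hs2.1, one_mul]
  have hoO : o ∈ φ.ker := by rw [hod, MonoidHom.mem_ker, map_pow, sq, hs2.1]
  have hsto : s = t * o * o := by
    rw [htd, hod, ← pow_add, ← pow_add, pow_succ, hs1, one_mul]
  have hto : Commute o t := by rw [htd, hod]; exact Commute.pow_pow_self s 2 3
  have hos : o * s = s * o := by rw [hod]; exact (Commute.pow_self s 2).eq
  have hcs : ∀ x, Commute x t → Commute x o → x * s = s * x := fun x h1 h2 => by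
    rw [hsto]; exact ((h1.mul_right h2).mul_right h2).eq
  obtain ⟨c, hc, h6, h7, ⟨g1, hg1⟩, ⟨g2, hg2⟩⟩ := ex4 _ hs2
  obtain ⟨y, rfl, hy4, hty⟩ := lift hφ hk ht hc (hφt ▸ h6)
  have hti : t⁻¹ = t := inv_eq_of_mul_eq_one_right ht
  have hat : Commute (y * y) t := by
    have : t * (y * y) * t⁻¹ = y * y := by
      calc _ = t * y * t⁻¹ * (t * y * t⁻¹) := by group
        _ = (y * y)⁻¹ := by rw [hty, mul_inv_rev]
        _ = _ := inv_eq_of_mul_eq_one_right hy4
    exact (mul_inv_eq_iff_eq_mul.1 this).symm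
  have hao : ¬ Commute (y * y) o := fun h => by
    rcases hτ _ (hcs _ hat h) with e | e <;> rw [map_mul] at e
    · exact hc.1 e
    · exact h7 e
  have ho1 : o ≠ 1 := by rintro rfl; exact hao (Commute.one_right _)
  -- elements of the centralizer of `s` in the kernel
  have hE : ∀ x ∈ φ.ker, x * s = s * x → x ≠ 1 → o ∈ zpowers x := fun x hx h1 hx1 => by
    have := mem_zpowers_of_prime_card hi (g := ⟨x, hx, mem_centralizer_singleton_iff.2 h1⟩)
      (g' := ⟨o, hoO, mem_centralizer_singleton_iff.2 hos⟩) fun e => hx1 (congrArg Subtype.val e)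
    obtain ⟨n, hn⟩ := this
    exact ⟨n, congrArg Subtype.val hn⟩
  have hD : ∀ x ∈ φ.ker, Commute x t → Commute x o := fun x hx hxt => by
    let D := φ.ker ⊓ centralizer {t}
    have : Nontrivial D := ⟨⟨⟨o, hoO, mem_centralizer_singleton_iff.2 hto.eq⟩, 1,
      fun e => ho1 (congrArg Subtype.val e)⟩⟩
    have := (hk.to_inf_left (K := centralizer {t})).center_nontrivial
    obtain ⟨z, hz⟩ := exists_ne (1 : center D)
    have hz1 := mem_center_iff.1 z.2
    have hzo : Commute (z.1 : G) o :=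
      (congrArg Subtype.val (hz1 ⟨o, hoO, mem_centralizer_singleton_iff.2 hto.eq⟩)).symm
    obtain ⟨n, hn⟩ := hE z.1 z.1.2.1 (hcs _ (mem_centralizer_singleton_iff.1 z.1.2.2) hzo)
      fun e => hz (Subtype.ext (Subtype.ext e))
    have hxz : Commute x z.1 :=
      congrArg Subtype.val (hz1 ⟨x, hx, mem_centralizer_singleton_iff.2 hxt.eq⟩)
    rw [← hn]; exact hxz.zpow_right n
  have hn : ∀ g, Commute g (y * y) → ∀ x ∈ φ.ker ⊓ centralizer {y * y},
      g * x * g⁻¹ ∈ φ.ker ⊓ centralizer {y * y} := fun g hg x hx =>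
    ⟨Normal.conj_mem inferInstance x hx.1 g, mem_centralizer_singleton_iff.2
      ((hg.mul_left (mem_centralizer_singleton_iff.1 hx.2)).mul_left hg.inv_left).eq⟩
  have hiy := inverts (hn y ((Commute.refl y).mul_right (Commute.refl y)))
    (fun x hx => (mem_centralizer_singleton_iff.1 hx.2).symm) fun x hx h => by
      have hd := IsPGroup.disjoint_of_ne 2 3 (by norm_num) (centralizer {y}) φ.ker
        (IsPGroup.of_card (n := 2) (all4 hs hG hφ hk y hc)) hk
      exact disjoint_def.1 hd (mem_centralizer_singleton_iff.2 h.symm) hx.1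
  have hit := inverts (hn t hat.symm) (fun x _ => by rw [ht, one_mul, mul_one]) fun x hx h => by
    by_contra hx1
    obtain ⟨n, hn⟩ := hE x hx.1 (hcs _ h.symm (hD x hx.1 h.symm)) hx1
    have hxa : Commute (y * y) x := (mem_centralizer_singleton_iff.1 hx.2).symm
    exact hao (hn ▸ hxa.zpow_right n)
  have hb : t * y * (t * y) = 1 := by
    calc _ = t * y * t⁻¹ * y := by rw [hti]; group
      _ = 1 := by rw [hty, inv_mul_cancel]
  have hab : y * y * (t * y) = t * y * (y * y) :=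
    (hat.mul_right ((Commute.refl y).mul_left (Commute.refl y))).eq
  have hodd : Odd (Nat.card φ.ker) := by
    obtain ⟨k, hk⟩ := IsPGroup.iff_card.1 hk
    rw [hk]; exact Odd.pow (by decide)
  have hcj : ∀ (g : S4) (b : G), b * b = 1 → g * (φ y * φ y) * g⁻¹ = φ b → IsConj (y * y) b :=
    fun g b hb e => by
      obtain ⟨g, rfl⟩ := hφ g
      have h1 : g * (y * y) * g⁻¹ * (g * (y * y) * g⁻¹) = 1 := by
        calc _ = g * (y * y * (y * y)) * g⁻¹ := by group
          _ = 1 := by rw [hy4]; group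
      obtain ⟨k, -, hk⟩ := H60.exists_conj_of_odd hodd h1 hb (by
        rw [MonoidHom.mem_ker, map_mul, map_mul, map_mul, map_mul, map_inv, e, ← map_mul, hb,
          map_one])
      exact (isConj_iff.2 ⟨g, rfl⟩).trans (isConj_iff.2 ⟨k, hk⟩)
  have hinv : ∀ b : G, b * b = 1 → ∀ h ∈ φ.ker, b * h * b ∈ φ.ker := fun b hb h hh => by
    simpa [inv_eq_of_mul_eq_one_right hb] using Normal.conj_mem inferInstance h hh b
  have hbw := H60.brauer_wielandt hodd hy4 hb hab (hinv _ hy4) (hinv _ hb)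
  have e1 : φ.ker ⊓ centralizer {y * y, t * y} = φ.ker ⊓ centralizer {y * y} := by
    refine le_antisymm (inf_le_inf_left _ (centralizer_le (by simp))) fun x hx => ⟨hx.1, ?_⟩
    rintro _ (rfl | rfl)
    · exact (mem_centralizer_singleton_iff.1 hx.2).symm
    · apply mul_inv_eq_iff_eq_mul.1
      calc t * y * x * (t * y)⁻¹ = t * (y * x * y⁻¹) * t⁻¹ := by group
        _ = x := by rw [hiy x hx, hit _ (inv_mem hx), inv_inv]
  rw [e1, ← card_conj (hcj g1 _ hb (by rw [hg1, map_mul, hφt])),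
    ← card_conj (hcj g2 (y * y * (t * y)) (by
      calc _ = y * y * (t * y * (y * y)) * (t * y) := by group
        _ = y * y * (y * y) * (t * y * (t * y)) := by rw [← hab]; group
        _ = 1 := by rw [hy4, hb, one_mul]) (by rw [hg2, map_mul, map_mul, map_mul, hφt]))] at hbw
  have e2 : φ.ker ⊓ centralizer {y * y} = φ.ker := by
    refine eq_of_le_of_card_ge inf_le_left (le_of_eq ?_)
    apply mul_right_cancel₀ (pow_ne_zero 2 (Nat.card_pos (α := ↥(φ.ker ⊓ centralizer {y * y}))).ne')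
    rw [hbw]; ring
  rw [← e2] at hoO
  exact hao (mem_centralizer_singleton_iff.1 hoO.2).symm

end Cfsg.Agent.H14.AhC4b
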