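import Mathlib
import Cfsg.Agent.H45.IvDefs

/-! Project CY, chapter IV, piece SL1. -/

set_option autoImplicit false

namespace Cfsg.Agent.H14.CySl1

open Subgroup MulAction Cfsg.Agent.H11.Cy Cfsg.Agent.H45.Iv
open scoped commutatorElement

/-- **SL1** -/
theorem sl1 : Sl1Stmt := by
  intro G _ _ Ω _ _ p A h p2 k ls x y hxy _ hZ nb
  obtain ⟨la, lb, lc, ld⟩ := ls x y hxy
  have RF : Rl A x y ≤ Fl A x y := la.sup ▸ le_sup_left
  have AF : A x ≤ Fl A x y := le_sup_left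
  have cz : ∀ z ∈ Zl A x y, ∀ f ∈ Fl A x y, Commute z f := fun z hz f hf =>
    (mem_centralizer_iff.1 hz.2 f hf).symm
  have nR : ∀ f ∈ Fl A x y, ∀ r ∈ Rl A x y, f * r * f⁻¹ ∈ Rl A x y := fun f hf r hr => by
    have : f * r * f⁻¹ = ⁅f, r⁆ * r := by rw [commutatorElement_def]; group
    rw [this]
    exact mul_mem (commutator_mem_commutator hf (RF hr)) hr
  have zx : ∀ z ∈ Zl A x y, z • x = x := fun z hz => (k.fx x y hxy z hz).2.1 (k.ln x y).1
  simp only [Big, not_forall, not_exists, not_and, not_not] at nb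
  obtain ⟨r, hr, hr', nb⟩ := nb
  have key : ∀ b ∈ A x, b * r * b⁻¹ * r⁻¹ ∈ Zl A x y → b = 1 := fun b hb e => by
    refine (h.semi x (r • x) b hb ?_).resolve_right fun e1 => hr' (lb.stab r hr x (k.ln x y).1 e1)
    have e2 : b * r = r * (b * r * b⁻¹ * r⁻¹) * b := by
      rw [← (cz _ e r (RF hr)).eq]; group
    rw [← mul_smul, e2, mul_smul, mul_smul, h.fix x b hb, zx _ e]
  haveI := Fact.mk h.pp
  obtain ⟨a, ha, a1⟩ : ∃ a ∈ A x, a ≠ 1 := by
    by_contra c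
    push Not at c
    have := h.card x
    rw [(eq_bot_iff_forall _).2 c, card_bot] at this
    exact h.pp.one_lt.ne this
  have oa : orderOf a = p := by
    refine orderOf_eq_prime ?_ a1
    have := pow_card_eq_one' (x := (⟨a, ha⟩ : A x))
    rw [h.card] at this
    exact congrArg Subtype.val this
  have h1 := nR a (AF ha) r hr
  have h2 := nR a⁻¹ (inv_mem (AF ha)) r hr
  rw [inv_inv] at h2
  have c1 := lb.com r hr _ h2
  have c2 : ⁅a * r * a⁻¹, r⁆ = ⁅r, a⁻¹ * r * a⁆ := by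
    calc _ = a * ⁅r, a⁻¹ * r * a⁆ * a⁻¹ := by simp only [commutatorElement_def]; group
      _ = _ := by rw [← (cz _ c1 a (AF ha)).eq]; group
  have c3 : r * (a * r * a⁻¹ * (a⁻¹ * r * a)) = a * r * a⁻¹ * (a⁻¹ * r * a) * r := by
    have e1 := (cz _ c1 _ (RF h1)).eq
    have e2 := (cz _ c1 _ (RF hr)).eq
    generalize a * r * a⁻¹ = u at c2 e1
    generalize a⁻¹ * r * a = v at c2 e1 e2
    calc r * (u * v) = ⁅u, r⁆⁻¹ * u * ⁅r, v⁆ * v * r := by
          simp only [commutatorElement_def]; group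
      _ = _ := by rw [c2, mul_assoc _ u, ← e1]; group
  have z1 : r * (a * r * a⁻¹ * (a⁻¹ * r * a)) ∈ Zl A x y := by
    refine nb _ (mul_mem h1 h2) c3 fun e => p2 ?_
    have e1 : a ^ 2 * r * (a ^ 2)⁻¹ * r⁻¹ =
        a * (a * r * a⁻¹ * (a⁻¹ * r * a)) * a⁻¹ * (r * r)⁻¹ := by rw [pow_two]; group
    rw [← (cz _ e a (AF ha)).eq, mul_inv_cancel_right] at e1
    have e2 := key _ (pow_mem ha 2) (e1 ▸ mul_mem e (inv_mem (lb.sq r hr)))
    exact (Nat.prime_dvd_prime_iff_eq h.pp Nat.prime_two).1 (oa ▸ orderOf_dvd_of_pow_eq_one e2)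
  have e3 : a * (a * r * a⁻¹) * a⁻¹ = a⁻¹ * r * a := by
    have e1 := (cz _ z1 a (AF ha)).eq
    have e2 := (cz _ z1 r (RF hr)).eq
    calc _ = (a * r * a⁻¹)⁻¹ * (a * (r * (a * r * a⁻¹ * (a⁻¹ * r * a))) * a⁻¹) * r⁻¹ := by group
      _ = (a * r * a⁻¹)⁻¹ * r⁻¹ * (r * (r * (a * r * a⁻¹ * (a⁻¹ * r * a))) * r⁻¹) := by
          rw [← e1]; group
      _ = _ := by rw [← e2]; group
  have p3 : p = 3 := by
    have e1 : a ^ 3 * r * (a ^ 3)⁻¹ * r⁻¹ = 1 := by
      calc _ = a * (a * (a * r * a⁻¹) * a⁻¹) * a⁻¹ * r⁻¹ := by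
            simp only [pow_succ, pow_zero]; group
        _ = _ := by rw [e3]; group
    have e2 := key _ (pow_mem ha 3) (e1 ▸ one_mem _)
    exact (Nat.prime_dvd_prime_iff_eq h.pp Nat.prime_three).1 (oa ▸ orderOf_dvd_of_pow_eq_one e2)
  have e4 : a * (a * r * a⁻¹) * a⁻¹ =
      (a * r * a⁻¹)⁻¹ * r⁻¹ * (r * (a * r * a⁻¹ * (a⁻¹ * r * a))) := by rw [e3]; group
  generalize r * (a * r * a⁻¹ * (a⁻¹ * r * a)) = z0 at z1 e4
  have e5 : a * r * a⁻¹ = a * r * a⁻¹ := rfl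
  generalize hu : a * r * a⁻¹ = u at h1 e4
  have sw : ∀ s ∈ Rl A x y, ∀ t ∈ Rl A x y, ∃ c ∈ Zl A x y, s * t = t * s * c :=
    fun s hs t ht => ⟨⁅s⁻¹, t⁻¹⁆, lb.com _ (inv_mem hs) _ (inv_mem ht), by
      rw [commutatorElement_def]; group⟩
  let W : Subgroup G :=
    { carrier := {w | ∃ i j : ℤ, ∃ z ∈ Zl A x y, w = r ^ i * u ^ j * z}
      one_mem' := ⟨0, 0, 1, one_mem _, by simp⟩
      mul_mem' := by
        rintro _ _ ⟨i, j, z, hz, rfl⟩ ⟨i', j', z', hz', rfl⟩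
        obtain ⟨c, hc, e⟩ := sw _ (zpow_mem h1 j) _ (zpow_mem hr i')
        refine ⟨i + i', j + j', c * z * z', mul_mem (mul_mem hc hz) hz', ?_⟩
        calc _ = r ^ i * u ^ j * (z * r ^ i') * u ^ j' * z' := by group
          _ = r ^ i * (u ^ j * r ^ i') * z * u ^ j' * z' := by
              rw [(cz z hz _ (RF (zpow_mem hr i'))).eq]; group
          _ = r ^ i * r ^ i' * u ^ j * (c * z * u ^ j') * z' := by rw [e]; group
          _ = _ := by rw [(cz _ (mul_mem hc hz) _ (RF (zpow_mem h1 j'))).eq]; group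
      inv_mem' := by
        rintro _ ⟨i, j, z, hz, rfl⟩
        obtain ⟨c, hc, e⟩ := sw _ (zpow_mem h1 (-j)) _ (zpow_mem hr (-i))
        refine ⟨-i, -j, c * z⁻¹, mul_mem hc (inv_mem hz), ?_⟩
        calc _ = z⁻¹ * (u ^ (-j) * r ^ (-i)) := by group
          _ = _ := by
            rw [(cz _ (inv_mem hz) _ (RF (mul_mem (zpow_mem h1 (-j)) (zpow_mem hr (-i))))).eq, e,
              mul_assoc] }
  have ZW : Zl A x y ≤ W := fun z hz => ⟨0, 0, z, hz, by simp⟩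
  have rW : r ∈ W := ⟨1, 0, 1, one_mem _, by simp⟩
  have uW : u ∈ W := ⟨0, 1, 1, one_mem _, by simp⟩
  have aW : ∀ w ∈ W, a * w * a⁻¹ ∈ W := by
    rintro _ ⟨i, j, z, hz, rfl⟩
    have : a * (r ^ i * u ^ j * z) * a⁻¹ = (a * r * a⁻¹) ^ i * (a * u * a⁻¹) ^ j * (a * z * a⁻¹) := by
      rw [conj_zpow, conj_zpow]; group
    rw [this, hu, e4, ← (cz z hz a (AF ha)).eq, mul_inv_cancel_right]
    exact mul_mem (mul_mem (zpow_mem uW _) (zpow_mem (mul_mem (mul_mem (inv_mem uW) (inv_mem rW))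
      (ZW z1)) _)) (ZW hz)
  have WR : W = Rl A x y := by
    refine (lc.irr W ZW ?_ fun b hb => ?_).resolve_left fun e => hr' (e ▸ rW)
    · rintro _ ⟨i, j, z, hz, rfl⟩
      exact mul_mem (mul_mem (zpow_mem hr i) (zpow_mem h1 j)) (la.zle hz)
    · rw [← eq_of_le_of_card_ge (zpowers_le.2 ha) (by rw [h.card, Nat.card_zpowers, oa]),
        ← mem_powers_iff_mem_zpowers] at hb
      obtain ⟨n, rfl⟩ := hb
      induction n with
      | zero => simp
      | succ n ih =>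
        intro w hw
        have := aW _ (ih w hw)
        simpa [pow_succ', mul_assoc] using this
  have red : ∀ s ∈ Rl A x y, ∀ i : ℤ, ∃ e : Fin 2, ∃ c ∈ Zl A x y, s ^ i = s ^ (e : ℕ) * c :=
    fun s hs i => by
      obtain ⟨n, e | e⟩ := Int.even_or_odd' i
      · exact ⟨0, (s * s) ^ n, zpow_mem (lb.sq s hs) n, by
          rw [e, ← pow_two, Fin.val_zero]; group⟩
      · exact ⟨1, (s * s) ^ n, zpow_mem (lb.sq s hs) n, by
          rw [e, ← pow_two, Fin.val_one]; group⟩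
  have le4 : Nat.card (Rl A x y) ≤ 4 * Nat.card (Zl A x y) := by
    have := Nat.card_le_card_of_surjective (fun t : (Fin 2 × Fin 2) × Zl A x y =>
      (⟨r ^ (t.1.1 : ℕ) * u ^ (t.1.2 : ℕ) * t.2, mul_mem (mul_mem (pow_mem hr _) (pow_mem h1 _))
        (la.zle t.2.2)⟩ : Rl A x y)) fun s => by
      obtain ⟨i, j, z, hz, e⟩ : s.1 ∈ W := WR.ge s.2
      obtain ⟨e1, c1, m1, q1⟩ := red r hr i
      obtain ⟨e2, c2, m2, q2⟩ := red u h1 j
      refine ⟨⟨⟨e1, e2⟩, ⟨c1 * c2 * z, mul_mem (mul_mem m1 m2) hz⟩⟩, Subtype.ext ?_⟩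
      rw [e, q1, q2]
      calc r ^ (e1 : ℕ) * u ^ (e2 : ℕ) * (c1 * c2 * z)
          = r ^ (e1 : ℕ) * (u ^ (e2 : ℕ) * c1) * c2 * z := by group
        _ = _ := by rw [← (cz c1 m1 _ (RF (pow_mem h1 _))).eq]; group
    simpa using this
  let φ : Rl A x y →* G := MonoidHom.mk' (fun s => ⁅r, s.1⁆) fun s t => by
    have := (cz _ (lb.com r hr _ t.2) _ (RF s.2)).eq
    calc ⁅r, s.1 * t.1⁆ = ⁅r, s.1⁆ * (s.1 * ⁅r, t.1⁆) * s.1⁻¹ := by
          simp only [commutatorElement_def]; group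
      _ = _ := by rw [← this]; group
  have rg : φ.range = Zl A x y := by
    ext z
    refine ⟨?_, fun hz => ?_⟩
    · rintro ⟨s, rfl⟩
      exact lb.com r hr _ s.2
    · obtain ⟨s, hs, e⟩ := ld.full r hr hr' z hz
      exact ⟨⟨s, hs⟩, e⟩
  have cZ : Nat.card ((Zl A x y).subgroupOf (Rl A x y)) = Nat.card (Zl A x y) :=
    Nat.card_congr (subgroupOfEquivOfLe la.zle).toEquiv
  have zk : (Zl A x y).subgroupOf (Rl A x y) ≤ φ.ker := fun s hs =>
    commutatorElement_eq_one_iff_commute.2 (cz _ hs r (RF hr)).symm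
  have i1 := φ.ker.card_mul_index
  rw [index_ker, rg] at i1
  obtain ⟨m, hm⟩ := card_dvd_of_le zk
  have m2 : 2 ≤ m := by
    by_contra c
    have : Nat.card φ.ker ≤ Nat.card ((Zl A x y).subgroupOf (Rl A x y)) := by
      rw [hm]; nlinarith
    exact hr' (show (⟨r, hr⟩ : Rl A x y) ∈ (Zl A x y).subgroupOf (Rl A x y) from
      eq_of_le_of_card_ge zk this ▸ commutatorElement_self r)
  have z2 : 1 < Nat.card (Zl A x y) := (one_lt_card_iff_ne_bot _).2 hZ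
  rw [hm, cZ] at i1
  have z3 : Nat.card (Zl A x y) = 2 := by
    by_contra c
    have t3 : 3 ≤ Nat.card (Zl A x y) := by omega
    have : Nat.card (Zl A x y) * (2 * 3) ≤ Nat.card (Zl A x y) * m * Nat.card (Zl A x y) := by
      rw [mul_assoc]; exact Nat.mul_le_mul_left _ (Nat.mul_le_mul m2 t3)
    omega
  have r8 : Nat.card (Rl A x y) = 8 := by rw [z3] at i1 le4; omega
  refine ⟨p3, z3, r8, ?_⟩
  have o1 : Ln A x y = orbit (Rl A x y) x := by
    ext c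
    constructor
    · intro hc
      obtain ⟨s, hs, e⟩ := la.tr c hc
      exact ⟨⟨s, hs⟩, e⟩
    · rintro ⟨s, rfl⟩ b hb
      have := h.eqv s.1⁻¹ _ b hb
      rw [show s.1⁻¹ • (fun m : Rl A x y => m • x) s = x from inv_smul_smul s.1 x] at this
      have e : b = s.1 * (s.1⁻¹ * b * s.1⁻¹⁻¹) * s.1⁻¹ := by group
      rw [e]
      exact mul_mem (mul_mem (RF s.2) (AF this)) (inv_mem (RF s.2))
  have o2 : stabilizer (Rl A x y) x = (Zl A x y).subgroupOf (Rl A x y) := by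
    ext s
    exact ⟨fun e => lb.stab _ s.2 x (k.ln x y).1 e, fun e => zx _ e⟩
  have i2 := (stabilizer (Rl A x y) x).card_mul_index
  rw [index_stabilizer, o2, cZ, z3, r8, ← o1] at i2
  omega

end Cfsg.Agent.H14.CySl1
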