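import Mathlib
import Cfsg.Agent.H53.DgKit

/-!
# Harish-Chandra induction of cuspidal characters: the degrees (piece DG-A)
-/

set_option autoImplicit false

namespace Cfsg.Agent.H14.DgA

open Cfsg Module Cfsg.Agent.H26 Cfsg.Agent.H78 Cfsg.Agent.H53.Dg
open scoped ComplexConjugate

theorem cd_mul (q : ℕ) {k : ℕ} (hk : 0 < k) :
    cd q k * (q ^ k - 1) = ∏ i ∈ Finset.range k, (q ^ (i + 1) - 1) := by
  rw [cd, ← Finset.prod_Ico_succ_top hk fun i => q ^ i - 1, Finset.prod_Ico_eq_prod_range]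
  simp only [Nat.add_sub_cancel, add_comm 1]

section Char

variable {G H : Type} [Group G] [Finite G] [Group H] [Finite H]

theorem ip_one : ip (fun _ : G => (1 : ℂ)) (fun _ => 1) = 1 := ip_irr H11.isIrrCharacter_one

theorem ip_le {a b : H → ℂ} {A B : G → ℂ} (ha : IsIrrCharacter H a) (hb : IsIrrCharacter H b)
    (hA : IsCharacter G A) (hB : IsCharacter G B) (h0 : A ≠ 0) (e : a = b → A = B) :
    ∃ m n : ℕ, ip a b = m ∧ ip A B = n ∧ m ≤ n := by
  by_cases h : a = b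
  · obtain rfl := e h
    obtain ⟨n, h1, h2⟩ := exists_pos_ip hA h0
    exact ⟨1, n, by rw [← h, ip_irr ha, Nat.cast_one], h2, h1⟩
  · have := Fintype.ofFinite H
    obtain ⟨n, h2⟩ := exists_nat_ip hA hB
    exact ⟨0, n, by rw [ip_eq, H11.classInner_irr_of_ne ha hb h, Nat.cast_zero], h2, n.zero_le⟩

/-- A map of characters that preserves the norm of a sum of three irreducible characters maps them
to irreducible characters. -/
theorem irr_of_map (T : (H → ℂ) → G → ℂ) {a b c : H → ℂ} (ha : IsIrrCharacter H a)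
    (hb : IsIrrCharacter H b) (hc : IsIrrCharacter H c)
    (hT : ∀ x, IsIrrCharacter H x → IsCharacter G (T x) ∧ T x ≠ 0)
    (h : ip (T a + T b + T c) (T a + T b + T c) = ip (a + b + c) (a + b + c)) :
    IsIrrCharacter G (T b) ∧ IsIrrCharacter G (T c) := by
  have key : ∀ {x y}, IsIrrCharacter H x → IsIrrCharacter H y →
      ∃ m n : ℕ, ip x y = m ∧ ip (T x) (T y) = n ∧ m ≤ n := fun hx hy =>
    ip_le hx hy (hT _ hx).1 (hT _ hy).1 (hT _ hx).2 (congrArg T)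
  obtain ⟨m1, n1, p1, q1, r1⟩ := key ha ha
  obtain ⟨m2, n2, p2, q2, r2⟩ := key ha hb
  obtain ⟨m3, n3, p3, q3, r3⟩ := key ha hc
  obtain ⟨m4, n4, p4, q4, r4⟩ := key hb ha
  obtain ⟨m5, n5, p5, q5, r5⟩ := key hb hb
  obtain ⟨m6, n6, p6, q6, r6⟩ := key hb hc
  obtain ⟨m7, n7, p7, q7, r7⟩ := key hc ha
  obtain ⟨m8, n8, p8, q8, r8⟩ := key hc hb
  obtain ⟨m9, n9, p9, q9, r9⟩ := key hc hc
  simp only [ip_add_left, ip_add_right, p1, p2, p3, p4, p5, p6, p7, p8, p9, q1, q2, q3, q4, q5, q6,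
    q7, q8, q9] at h
  have h' : n1 + n4 + n7 + (n2 + n5 + n8) + (n3 + n6 + n9) =
      m1 + m4 + m7 + (m2 + m5 + m8) + (m3 + m6 + m9) := by exact_mod_cast h
  have e5 : n5 = m5 := by omega
  have e9 : n9 = m9 := by omega
  exact ⟨irr_of_ip_one (hT _ hb).1 (by rw [q5, e5, ← p5, ip_irr hb]),
    irr_of_ip_one (hT _ hc).1 (by rw [q9, e9, ← p9, ip_irr hc])⟩

theorem sign_of_central {χ : G → ℂ} (h : IsIrrCharacter G χ) {z : G} (hz : z ∈ Subgroup.center G)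
    (h2 : z * z = 1) {s : ℂ} (hs : χ z = s * χ 1) : s = 1 ∨ s = -1 := by
  have h0 := H11.irr_apply_one_ne_zero h
  have h1 := H11.apply_mul_of_mem_charCenter h0 (H11.center_le_charCenter h hz) z
  rw [h2, hs, eq_div_iff h0] at h1
  refine mul_self_eq_one_iff.1 (mul_right_cancel₀ (mul_ne_zero h0 h0) ?_)
  linear_combination -h1

end Char

section Geo

variable {F V : Type} [Field F] [Finite F] [AddCommGroup V] [Module F V] [Finite V] {P : PForm F V}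
  {sp : Bool} {w e k : ℕ}

theorem no_orth (hW : WittStmt) (h : Ty P sp w e) (L : Lev P k) (hk : w < 2 * k) (x : P.isom)
    (h1 : mp x.1 L.X ≤ P.perp L.X) (h2 : L.X ⊓ mp x.1 L.X = ⊥) : False := by
  have h3 := (hW F V P sp w e h).1 _
    (L.ts.sup (L.ts.map (sim_of_isom x.2)) (PForm.le_perp_comm.1 h1))
  have h4 := Submodule.finrank_sup_add_finrank_inf_eq L.X (mp x.1 L.X)
  rw [h2, finrank_bot, finrank_mp, L.dim] at h4
  omega

theorem deg (hH : Hc1Stmt) (hC : CountStmt) (h : Ty P sp w e) (L : Lev P k) (hk : 0 < k)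
    {ψ : (L.X ≃ₗ[F] L.X) → ℂ} {sd : Bool} {s : ℂ} (hψ : CuspFn ψ sd s) {φ : L.PW.isom → ℂ}
    (hφ : IsCharacter _ φ) {n : ℕ} (hn : φ 1 = n) :
    ∃ d : ℕ, L.hc ψ φ 1 = d ∧ d * (Nat.card F ^ k - 1) = n * Nk (Nat.card F) w e k := by
  refine ⟨(stab P.isom L.X).index * cd (Nat.card F) k * n, ?_, ?_⟩
  · rw [(hH F V P k L ψ φ (H11.isCharacter_of_irr hψ.irr) hφ).2.1, hψ.deg, L.dim, hn]
    push_cast; rfl
  · have := hC F V P sp w e L.X h L.ts
    rw [L.dim, ← cd_mul _ hk] at this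
    rw [← this]; ring

omit [Finite F] in
theorem hc_add (L : Lev P k) (ψ : (L.X ≃ₗ[F] L.X) → ℂ) (φ φ' : L.PW.isom → ℂ) :
    L.hc ψ (φ + φ') = L.hc ψ φ + L.hc ψ φ' := by
  have := Fintype.ofFinite P.isom
  simp only [Lev.hc, ind_eq, ← H14.indFun_add]
  congr 1
  funext g
  simp only [Lev.xi, Pi.add_apply, mul_add]

end Geo

theorem aa (hL : LeviStmt) (h1 : Hc1Stmt) (h2 : Hc2Stmt) (hW : WittStmt) (hC : CountStmt) :
    AStmt := by
  intro F V _ _ _ _ _ P sp w e k c s t h hk hkw hw hψ hc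
  obtain ⟨L, hL'⟩ := hL F V P sp w e k h hkw
  obtain ⟨ψ, hψ⟩ := hψ L.X L.dim
  obtain ⟨n, hn, φ, i1, i2, i3⟩ := hc L.W L.PW hL'
  have c1 := H11.isCharacter_of_irr hψ.irr
  have c2 := H11.isCharacter_of_irr i1
  obtain ⟨d, d1, d2⟩ := deg h1 hC h L hk hψ c2 i2
  obtain ⟨a1, -, a3, -⟩ := h1 F V P k L ψ φ c1 c2
  refine ⟨n, d, hn, d2, L.hc ψ φ, irr_of_ip_one a1 ?_, d1, a3 s t hψ.sgn i3⟩
  rw [h2 F V P k L ψ ψ φ φ h.sig hk c1 c1 c2 c2 hψ.cusp fun x x1 x2 =>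
    (no_orth hW h L hw x x1 x2).elim, hψ.dual, ip_irr hψ.irr, ip_irr i1]
  simp

theorem sd (h1 : Hc1Stmt) (h2 : Hc2Stmt) (hW : WittStmt) (hC : CountStmt) : SdStmt := by
  intro F V _ _ _ _ _ P sp w e k s L ψ h hk hw hψ
  have c1 := H11.isCharacter_of_irr hψ.irr
  have c2 : IsCharacter L.PW.isom fun _ => (1 : ℂ) := H11.isCharacter_one
  obtain ⟨d, d1, d2⟩ := deg h1 hC h L hk hψ c2 (n := 1) (by simp)
  obtain ⟨a1, -, a3, -⟩ := h1 F V P k L ψ _ c1 c2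
  obtain ⟨χ, χ', i1, i2, -, e1⟩ := two_of_ip_two a1 (by
    rw [h2 F V P k L ψ ψ _ _ h.sig hk c1 c1 c2 c2 hψ.cusp fun x x1 x2 =>
      (no_orth hW h L hw x x1 x2).elim, hψ.dual, ip_irr hψ.irr, ip_one]
    norm_num)
  obtain ⟨n, hn⟩ := H11.exists_nat_degree (H11.isCharacter_of_irr i1)
  obtain ⟨n', hn'⟩ := H11.exists_nat_degree (H11.isCharacter_of_irr i2)
  have hs : s = 1 ∨ s = -1 := sign_of_central hψ.irr (z := LinearEquiv.neg F)
    (Subgroup.mem_center_iff.2 fun g => LinearEquiv.ext fun x => by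
      simp [PForm.mul_apply']) (LinearEquiv.ext fun x => by simp [PForm.mul_apply']) hψ.sgn
  have key : ∀ z : P.isom, z.1 = LinearEquiv.neg F → χ z = s * χ 1 ∧ χ' z = s * χ' 1 := fun z hz =>
    sgn_of_add (H11.isCharacter_of_irr i1) (H11.isCharacter_of_irr i2) hs (by
      rw [← e1, ← e1, a3 s 1 hψ.sgn (fun _ _ => by simp) z hz, mul_one])
  refine ⟨χ, χ', n, n', i1, i2, e1, hn, hn', ?_, fun z hz => (key z hz).1, fun z hz => (key z hz).2⟩
  have : n + n' = d := by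
    rw [e1, hn, hn'] at d1
    exact_mod_cast d1
  rw [this, d2, one_mul]

theorem ap (hL : LeviStmt) (h1 : Hc1Stmt) (h2 : Hc2Stmt) (hP : PerpStmt) (hR : RStmt)
    (hC : CountStmt) : ApStmt := by
  intro F V _ _ _ _ _ P sp w e k s h hk hkw hψ
  obtain ⟨L, hL'⟩ := hL F V P sp w e k h (by omega)
  obtain ⟨ψ, hψ⟩ := hψ L.X L.dim
  obtain ⟨χ, χ', i1, i2, e1, f, g, hf, hg, hfg⟩ := hR F L.W L.PW sp (w - k) e L.PW.isom
    L.PW.isom.subtype hL' (by omega) (fun x => sim_of_isom x.2) (.inl (Subgroup.range_subtype _).ge)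
  have c1 := H11.isCharacter_of_irr hψ.irr
  have c2 := H11.isCharacter_of_irr i1
  have c3 := H11.isCharacter_of_irr i2
  have c4 := H11.isCharacter_add (H11.isCharacter_one' (G := L.PW.isom)) c2
  have c5 := H11.isCharacter_add c4 c3
  have e2 : ∀ x : P.isom, x.1 ∈ stabSub L.X →
      L.xi ψ (1 + χ + χ') x = ψ (rs L.X x) * npt P L.X x := fun x hx => by
    rw [(h1 F V P k L ψ χ c1 c2).2.2.2 x hx]
    exact congrArg _ (e1 _).symm
  have e3 := h2 F V P k L ψ ψ _ _ h.sig hk c1 c1 c5 c5 hψ.cusp fun x x1 x2 => by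
    rw [← hP F V P P.isom L.X ψ ψ x h.sig le_rfl (fun _ => sim_of_isom) L.ts ?_ x1 x2]
    · exact finsum_congr fun y => by rw [e2 _ (mem_stab.1 y.2.1), e2 _ (mem_stab.1 y.2.2)]
    rw [L.dim]
    rcases (show 2 ≤ k ∨ k = 1 by omega) with hk2 | rfl
    · exact .inl ⟨hk2, hψ.cusp⟩
    refine .inr ⟨rfl, H11.map_mul_of_apply_one_eq_one c1 (by rw [hψ.deg, L.dim]; simp [cd]), ?_⟩
    by_contra! e4
    have e5 := hψ.dual
    obtain rfl : ψ = fun _ => 1 := funext e4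
    simp only [map_one, ip_one] at e5
    simp at e5
  rw [hψ.dual, ip_irr hψ.irr, hc_add, hc_add] at e3
  obtain ⟨j1, j2⟩ := irr_of_map (L.hc ψ) H11.isIrrCharacter_one' i1 i2 (fun x hx => by
    obtain ⟨a1, a2, -⟩ := h1 F V P k L ψ x c1 (H11.isCharacter_of_irr hx)
    refine ⟨a1, fun e4 => ?_⟩
    rw [e4] at a2
    exact mul_ne_zero (mul_ne_zero (Nat.cast_ne_zero.2 Subgroup.index_ne_zero_of_finite)
      (H11.irr_apply_one_ne_zero hψ.irr)) (H11.irr_apply_one_ne_zero hx) a2.symm)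
    (by rw [e3]; simp)
  have key : ∀ z : L.PW.isom, z.1 = LinearEquiv.neg F → χ z = 1 * χ 1 ∧ χ' z = 1 * χ' 1 := by
    intro z hz
    have e4 : npt L.PW ⊥ z.1 = npt L.PW ⊥ (1 : L.PW.isom).1 := by
      rw [hz, npt, npt]
      refine Nat.card_congr (Equiv.subtypeEquivRight fun Y => ?_)
      refine and_congr_right fun _ => and_congr_right fun _ => and_congr_right fun _ => ?_
      exact iff_of_true (fun y => by simp) (one_mem _)
    have e5 := e1 z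
    have e6 := e1 1
    rw [Subgroup.subtype_apply] at e5 e6
    rw [e4, e6] at e5
    exact sgn_of_add c2 c3 (.inl rfl) (by linear_combination -e5)
  obtain ⟨d, d1, d2⟩ := deg h1 hC h L hk hψ c2 hf
  obtain ⟨d', d3, d4⟩ := deg h1 hC h L hk hψ c3 hg
  refine ⟨f, g, d, d', hfg, d2, ⟨_, j1, d1, ?_⟩, d4, ⟨_, j2, d3, ?_⟩⟩
  · simpa using (h1 F V P k L ψ χ c1 c2).2.2.1 s 1 hψ.sgn fun z hz => (key z hz).1
  · simpa using (h1 F V P k L ψ χ' c1 c3).2.2.1 s 1 hψ.sgn fun z hz => (key z hz).2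

end Cfsg.Agent.H14.DgA
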