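import Mathlib
import Cfsg.Agent.H11.ElDefs

/-! A class of subgroups of order 11: passing to the central quotient. -/

set_option autoImplicit false

namespace Cfsg.Agent.H14.ElR2

open Subgroup Cfsg.Agent.H11.EL

universe u

variable {G : Type u} [Group G] [Finite G]

theorem inj (b : Base.{u}) {L : Subgroup G} (hL : IsL L ∨ IsJ L) {x y : G} (hx : x ∈ L) (hy : y ∈ L)
    (h : QuotientGroup.mk' (center G) x = QuotientGroup.mk' (center G) y) : x = y := by
  have h1 : x⁻¹ * y ∈ center G := QuotientGroup.eq.1 h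
  have h2 : x⁻¹ * y ∈ L := mul_mem (inv_mem hx) hy
  have h3 : x⁻¹ * y ∈ Ct L := center_le_centralizer _ h1
  rcases hL with hL | hL
  · exact inv_mul_eq_one.1 ((b.la L hL).ctr _ h2 h3)
  · exact inv_mul_eq_one.1 ((b.ja L hL).ctr _ h2 h3)

theorem eqv (b : Base.{u}) {L A : Subgroup G} (hL : IsL L ∨ IsJ L) (hA : A ≤ L) :
    Nonempty (A ≃* A.map (QuotientGroup.mk' (center G))) :=
  ⟨MulEquiv.ofBijective ((QuotientGroup.mk' (center G)).subgroupMap A)
    ⟨fun x y h => Subtype.ext (inj b hL (hA x.2) (hA y.2) (congrArg Subtype.val h)),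
      MonoidHom.subgroupMap_surjective _ _⟩⟩

omit [Finite G] in
theorem cj_map {H : Type u} [Group H] (f : G →* H) (g : G) (A : Subgroup G) :
    cj (f g) (A.map f) = (cj g A).map f := by
  rw [cj, cj, map_map, map_map]
  congr 1
  ext x
  simp

theorem r2 (b : Base.{u}) : R2Stmt.{u} := by
  intro G _ _ D h hD
  have hex : ∀ A ∈ D, ∃ B ∈ D, A ≠ B := by
    intro A hA
    obtain ⟨B, hB, C, hC, hBC⟩ := h.two
    by_cases e : A = B
    · exact ⟨C, hC, e ▸ hBC⟩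
    · exact ⟨B, hB, e⟩
  have hpair : ∀ A ∈ D, ∀ B ∈ D, A ≠ B →
      IsL ((A ⊔ B).map (QuotientGroup.mk' (center G))) ∨
        IsJ ((A ⊔ B).map (QuotientGroup.mk' (center G))) := by
    intro A hA B hB hAB
    obtain ⟨e⟩ := eqv b (h.pair A hA B hB hAB) le_rfl
    rcases h.pair A hA B hB hAB with ⟨⟨f⟩⟩ | ⟨⟨f⟩⟩
    · exact Or.inl ⟨e.symm.trans f⟩
    · exact Or.inr ⟨e.symm.trans f⟩
  have hC : Cls ((fun A => A.map (QuotientGroup.mk' (center G))) '' D) := by
    refine ⟨?_, ?_, ?_, ?_, ?_⟩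
    · rintro _ ⟨A, hA, rfl⟩
      obtain ⟨B, hB, hAB⟩ := hex A hA
      obtain ⟨e⟩ := eqv b (h.pair A hA B hB hAB) le_sup_left
      rw [← Nat.card_congr e.toEquiv, h.card A hA]
    · rintro _ ⟨A, hA, rfl⟩ g
      obtain ⟨g, rfl⟩ := QuotientGroup.mk'_surjective _ g
      exact ⟨_, h.conj A hA g, (cj_map _ g A).symm⟩
    · rintro _ ⟨A, hA, rfl⟩ _ ⟨B, hB, rfl⟩
      obtain ⟨g, rfl⟩ := h.tr A hA B hB
      exact ⟨_, cj_map _ g A⟩
    · rintro _ ⟨A, hA, rfl⟩ _ ⟨B, hB, rfl⟩ hne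
      have := hpair A hA B hB fun e => hne (by rw [e])
      rwa [Subgroup.map_sup] at this
    · obtain ⟨A, hA, B, hB, hAB⟩ := h.two
      refine ⟨_, ⟨A, hA, rfl⟩, _, ⟨B, hB, rfl⟩, fun e => hAB ?_⟩
      have hp := h.pair A hA B hB hAB
      have e' : A.map (QuotientGroup.mk' (center G)) = B.map (QuotientGroup.mk' (center G)) := e
      refine le_antisymm (fun x hx => ?_) fun x hx => ?_
      · obtain ⟨y, hy, hxy⟩ := e'.le (mem_map_of_mem _ hx)
        rwa [← inj b hp (mem_sup_right hy) (mem_sup_left hx) hxy]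
      · obtain ⟨y, hy, hxy⟩ := e'.ge (mem_map_of_mem _ hx)
        rwa [← inj b hp (mem_sup_left hy) (mem_sup_right hx) hxy]
  refine ⟨⟨hC, ?_⟩, ?_⟩
  · refine top_le_iff.1 fun x _ => ?_
    obtain ⟨g, rfl⟩ := QuotientGroup.mk'_surjective _ x
    have h1 : sSup D ≤ (sSup ((fun A : Subgroup G => A.map (QuotientGroup.mk' (center G))) '' D)).comap
        (QuotientGroup.mk' (center G)) :=
      sSup_le fun A hA => map_le_iff_le_comap.1 (le_sSup ⟨A, hA, rfl⟩)
    exact h1 (hD.ge (mem_top g))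
  have key : ∀ A ∈ D, ∀ B ∈ D, A ≠ B → (A ⊔ B).map (QuotientGroup.mk' (center G)) = ⊤ →
      center G = ⊥ := by
    intro A hA B hB hAB ht
    have h1 : A ⊔ B = ⊤ := by
      refine top_le_iff.1 (hD.ge.trans (sSup_le fun E hE => ?_))
      obtain ⟨g, rfl⟩ := h.tr A hA E hE
      obtain ⟨l, hl, hlg⟩ := ht.ge (mem_top (QuotientGroup.mk' (center G) g))
      have hz : l⁻¹ * g ∈ center G := QuotientGroup.eq.1 hlg
      rintro _ ⟨a, ha, rfl⟩
      have h2 : g * a * g⁻¹ = l * a * l⁻¹ := by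
        have := mem_center_iff.1 hz a
        calc g * a * g⁻¹ = l * (l⁻¹ * g * a) * g⁻¹ := by group
          _ = l * a * l⁻¹ := by rw [← this]; group
      change g * a * g⁻¹ ∈ _
      rw [h2]
      exact mul_mem (mul_mem hl (mem_sup_left ha)) (inv_mem hl)
    refine eq_bot_iff.2 fun z hz => ?_
    refine inj b (h.pair A hA B hB hAB) (h1.ge (mem_top z)) (one_mem _) ?_
    rw [map_one]
    exact (QuotientGroup.eq_one_iff z).2 hz
  rintro (ht | ht)
  · obtain ⟨A, hA, B, hB, hAB⟩ := h.two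
    refine key A hA B hB hAB (eq_of_le_of_card_ge le_top ?_)
    rw [(b.la _ ht).card]
    rcases hpair A hA B hB hAB with e | e
    · rw [(b.la _ e).card]
    · rw [(b.ja _ e).card]
      norm_num
  · have hJ := b.ja _ ht
    obtain ⟨A₀, hA₀⟩ := hJ.pt
    obtain ⟨y, hy, y1, y2⟩ := hJ.inv A₀ hA₀
    obtain ⟨f, -, B₀, hB₀, -, -, -, -, hne, -, -, hn⟩ := b.jy _ A₀ y ht hA₀ hy y1 y2
    obtain ⟨A', hA', -⟩ := hC.two
    have m := (b.mb _ hC).pts ⊤ (Or.inr ht) A' hA' le_top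
    have hp := (hC.pair A₀ (m _ hA₀) B₀ (m _ hB₀) hne.symm).resolve_left hn
    obtain ⟨A, hA, rfl⟩ := m _ hA₀
    obtain ⟨B, hB, rfl⟩ := m _ hB₀
    refine key A hA B hB (fun e => hne (by rw [e])) (eq_of_le_of_card_ge le_top ?_)
    rw [Subgroup.map_sup, hJ.card]
    exact (b.ja _ hp).card.ge

end Cfsg.Agent.H14.ElR2
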