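import Mathlib
import Cfsg.Agent.H99.HNDefs

/-! Piece SC of project HN3, part A: computations with matrices and permutations. -/

set_option autoImplicit false

namespace Cfsg.Agent.H14.HN

open Cfsg Subgroup Equiv Cfsg.Agent.H99.HN
open Cfsg.Agent.H4.J2S (F4)

section Mat

theorem mul_a (X Y : M4) : (X * Y).a = X.a * Y.a + X.b * Y.c := rfl
theorem mul_b (X Y : M4) : (X * Y).b = X.a * Y.b + X.b * Y.d := rfl
theorem mul_c (X Y : M4) : (X * Y).c = X.c * Y.a + X.d * Y.c := rfl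
theorem mul_d (X Y : M4) : (X * Y).d = X.c * Y.b + X.d * Y.d := rfl

theorem massoc (X Y Z : M4) : X * Y * Z = X * (Y * Z) := by
  ext <;> simp only [mul_a, mul_b, mul_c, mul_d] <;> ring

theorem mone_mul : ∀ X : M4, 1 * X = X := by decide +kernel
theorem mmul_one : ∀ X : M4, X * 1 = X := by decide +kernel
theorem adj_mul : ∀ X : M4, X.det = 1 → X.adj * X = 1 := by decide +kernel
theorem mul_adj : ∀ X : M4, X.det = 1 → X * X.adj = 1 := by decide +kernel
theorem det_adj : ∀ X : M4, X.adj.det = X.det := by decide +kernel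
theorem adj_one : M4.adj 1 = 1 := by decide +kernel
theorem det_one : M4.det 1 = 1 := by decide +kernel
theorem tw_tw : ∀ X : M4, M4.tw true (M4.tw true X) = X := by decide +kernel
theorem det_tw : ∀ X : M4, X.det = 1 → (M4.tw true X).det = 1 := by decide +kernel
theorem tw_ne : ∀ X : M4, X ≠ 1 → M4.tw true X ≠ 1 := by decide +kernel
theorem add_self : ∀ X : M4, X + X = 0 := by decide +kernel
theorem q_det : ∀ X : M4, X.det = 0 → X.q = 0 := by decide +kernel
theorem q_det' : ∀ X : M4, X.q = 0 → X.det = 0 ∨ X.det = 1 := by decide +kernel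
theorem det_zero : M4.det 0 = 0 := by decide +kernel

theorem eq_of_add {X Y : M4} (h : X + Y = 0) : X = Y := by
  have k : ∀ x y : F4, x + y = 0 → x = y := by decide
  exact M4.ext (k _ _ (congrArg M4.a h)) (k _ _ (congrArg M4.b h)) (k _ _ (congrArg M4.c h))
    (k _ _ (congrArg M4.d h))

theorem det_mul (X Y : M4) : (X * Y).det = X.det * Y.det := by
  simp only [M4.det, mul_a, mul_b, mul_c, mul_d]
  have h1 := F4.two (X.a * X.c * Y.a * Y.b)
  have h2 := F4.two (X.b * X.d * Y.c * Y.d)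
  linear_combination h1 + h2

theorem tw_mul (X Y : M4) : M4.tw true (X * Y) = M4.tw true Y * M4.tw true X := by
  ext <;> simp only [M4.tw, mul_a, mul_b, mul_c, mul_d, F4.bar_add, F4.bar_mul] <;> ring

theorem mul_add' (A X Y B : M4) : A * (X + Y) * B = A * X * B + A * Y * B := by
  have ha : ∀ X Y : M4, (X + Y).a = X.a + Y.a := fun _ _ => rfl
  have hb : ∀ X Y : M4, (X + Y).b = X.b + Y.b := fun _ _ => rfl
  have hc : ∀ X Y : M4, (X + Y).c = X.c + Y.c := fun _ _ => rfl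
  have hd : ∀ X Y : M4, (X + Y).d = X.d + Y.d := fun _ _ => rfl
  ext <;> simp only [mul_a, mul_b, mul_c, mul_d, ha, hb, hc, hd] <;> ring

/-- Every matrix is a sum of two invertible ones. -/
theorem sum_inv : ∀ X : M4, ∃ Y : M4, Y.det ≠ 0 ∧ (X + Y).det ≠ 0 := by decide +kernel

/-- The matrices with `q ≠ 0` form one orbit. -/
theorem q_trans : ∀ X : M4, X.q ≠ 0 → ∃ A : M4, A.det = 1 ∧
    (A * X = ⟨.w, 0, 0, 1⟩ ∨ A * M4.tw true X = ⟨.w, 0, 0, 1⟩) := by decide +kernel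

/-- the involutions of `SL₂(4)` -/
def invs : List M4 := M4.all.filter fun A => A.det = 1 ∧ A * A = 1 ∧ A ≠ 1

theorem mem_invs {A : M4} (h1 : A.det = 1) (h2 : A * A = 1) (h3 : A ≠ 1) : A ∈ invs :=
  List.mem_filter.2 ⟨M4.mem_all A, by simp [h1, h2, h3]⟩

attribute [local instance 10000] List.decidableBAll

theorem fix_gen : ∀ A ∈ invs, ∀ B ∈ invs, ∃ Y : M4, Y.det ≠ 0 ∧ A * Y * B = Y ∧
    ∀ X : M4, X.det = 0 → A * X * B = X → (X + Y).det ≠ 0 := by decide +kernel

theorem step1 : ∀ A : M4, A.det = 1 → A ≠ 1 →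
    ∃ P : M4, P.det = 1 ∧ (P * A * P.adj * A.adj).tr = 1 := by decide +kernel

theorem step2 : ∀ A : M4, A.det = 1 → A.tr = 1 →
    ∃ P : M4, P.det = 1 ∧ P * A * P.adj * A.adj ∈ invs := by decide +kernel

theorem step3 : ∀ A ∈ invs, ∀ B ∈ invs, ∃ P : M4, P.det = 1 ∧ P * A * P.adj = B := by
  decide +kernel

theorem ex_ne : ∃ P : M4, P.det = 1 ∧ P ≠ 1 := by decide +kernel

end Mat

section Perm

/-- A fast equality test. -/
@[reducible] def decA (n : ℕ) : DecidableEq (alternatingGroup (Fin n)) := fun a b =>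
  decidable_of_iff ((List.finRange n).all (fun i => (a.1 i).1 == (b.1 i).1) = true)
    ⟨fun h => Subtype.ext (Equiv.ext fun i => Fin.ext
      (by simpa using List.all_eq_true.1 h i (List.mem_finRange i))), fun h => by simp [h]⟩

attribute [local instance 10000] decA

/-- an element of order four of `Ep0` -/
def e0 : A12 := dd 2 3 4 5 * x2

theorem e0_mem : e0 ∈ Ep0 :=
  mul_mem (subset_closure (by simp)) (subset_closure (by simp))

theorem e0_sq : e0 * e0 = u0 := by decide +kernel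
theorem c4_e0 : c4 * e0 = e0 * c4 := by decide +kernel
theorem u0_sq : u0 * u0 = 1 := by decide +kernel
theorem u0_ne : u0 ≠ 1 := by decide +kernel
theorem σ0_sq : σ0 * σ0 = 1 := by decide +kernel
theorem w0_sq : w0 * w0 = 1 := by decide +kernel
theorem c4_u : c4 * u0 = u0 * c4 := by decide +kernel
theorem am_u : c1 * c2 * u0 = u0 * (c1 * c2) := by decide +kernel
theorem σ0_u : σ0 * u0 = u0 * σ0 := by decide +kernel
theorem w0_u : w0 * u0 = u0 * w0 := by decide +kernel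
theorem c4_3 : c4 ^ 3 = 1 := by decide +kernel
theorem am_3 : (c1 * c2) ^ 3 = 1 := by decide +kernel
theorem am_c4 : c1 * c2 * c4 = c4 * (c1 * c2) := by decide +kernel
theorem c4_ne : c4 ≠ 1 := by decide +kernel
theorem am_ne : c1 * c2 ≠ 1 := by decide +kernel
theorem am_ne' : c1 * c2 ≠ c4 ∧ c1 * c2 ≠ c4⁻¹ := by decide +kernel
theorem z_ne : c1 * c2 * c4 ≠ 1 := by decide +kernel
theorem w0_z : w0 * (c1 * c2 * c4) * w0⁻¹ = (c1 * c2 * c4)⁻¹ := by decide +kernel
theorem σ0_z : σ0 * (c1 * c2 * c4) * σ0⁻¹ = (c1 * c2 * c4⁻¹)⁻¹ := by decide +kernel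
theorem ap_eq : c4 = (c1 * c2 * c4)⁻¹ * (c1 * c2 * c4⁻¹)⁻¹⁻¹ := by decide +kernel
theorem am_eq : c1 * c2 = (c1 * c2 * c4)⁻¹ * (c1 * c2 * c4⁻¹)⁻¹ := by decide +kernel

theorem σ_t : IsConj σ0 t0 :=
  isConj_iff.2 ⟨dd 0 8 2 9 * dd 1 10 3 11, by decide +kernel⟩
theorem σu_u : IsConj (σ0 * u0) u0 := isConj_iff.2 ⟨dd 1 3 4 5, by decide +kernel⟩
theorem w_u : IsConj w0 u0 := isConj_iff.2 ⟨dd 1 2 4 8 * dd 5 9 10 11, by decide +kernel⟩
theorem wu_u : IsConj (w0 * u0) u0 :=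
  isConj_iff.2 ⟨dd 1 3 6 8 * dd 7 9 10 11, by decide +kernel⟩

end Perm

end Cfsg.Agent.H14.HN
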