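import Mathlib
import Cfsg.Prelude.Def_Characters

/-! Definitions for the characterization of the Suzuki groups by three strongly
self-centralizing subgroups (row S3240). -/

set_option autoImplicit false

namespace Cfsg.Agent.H14.Ito

open Cfsg

variable {G : Type*} [Group G]

/-- `A` is strongly self-centralizing. -/
def CC (A : Subgroup G) : Prop :=
  ∀ a ∈ A, a ≠ 1 → Subgroup.centralizer ({a} : Set G) = A

/-- Local data of a strongly self-centralizing subgroup of order `e * m + 1` with automizer of even
order `e`. -/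
structure Loc (A : Subgroup G) (e m : ℕ) : Prop where
  cc : CC A
  rel : A.relIndex (Subgroup.normalizer (A : Set G)) = e
  card : Nat.card A = e * m + 1
  idx : (Subgroup.normalizer (A : Set G)).index ≡ 1 [MOD Nat.card A]
  inv : ∃ t : G, orderOf t = 2 ∧ t ∉ A ∧ ∀ a ∈ A, t * a * t⁻¹ = a⁻¹

/-- The induced generalized characters `θ i = (1 - λ_i)^G`, `λ_i` running through representatives of
the `m` orbits of the normalizer on the non-principal linear characters of `A`. -/
structure TH [Fintype G] (A : Subgroup G) (e : ℕ) {m : ℕ} (θ : Fin m → G → ℂ) : Prop where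
  gen : ∀ i, IsGeneralizedCharacter G (θ i)
  supp : ∀ i g, (∀ a ∈ A, a ≠ 1 → ¬ IsConj a g) → θ i g = 0
  gram : ∀ i j, classInner (θ i) (θ j) = e + if i = j then 1 else 0
  one : ∀ i, classInner (θ i) (fun _ => 1) = 1
  span : ∀ f : G → ℂ, IsClassFunction G f → (∀ i, classInner f (θ i) = 0) →
    ∀ a ∈ A, a ≠ 1 → f a = 0

end Cfsg.Agent.H14.Ito
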