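import Mathlib
import Cfsg.Agent.H14.ItoDefs
import Cfsg.Agent.H11.Kernel
import Cfsg.Agent.H12.Central

/-! S3240: coefficient vectors of the induced characters. -/

set_option autoImplicit false

namespace Cfsg.Agent.H14.Ito

open Cfsg Cfsg.Agent.H11 Finset
open scoped ComplexConjugate

section Comb
variable {ι : Type*} [Fintype ι] [DecidableEq ι]

theorem norm_two {v : ι → ℤ} (h : ∑ i, v i * v i = 2) :
    ∃ x y : ι, x ≠ y ∧ (v x = 1 ∨ v x = -1) ∧ (v y = 1 ∨ v y = -1) ∧
      ∀ i, i ≠ x → i ≠ y → v i = 0 := by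
  have h0 : ∃ x, v x ≠ 0 := by
    by_contra hh
    push Not at hh
    simp [hh] at h
  obtain ⟨x, hx⟩ := h0
  have e1 := Finset.add_sum_erase univ (fun i => v i * v i) (mem_univ x)
  have n1 : 0 ≤ ∑ i ∈ univ.erase x, v i * v i := sum_nonneg fun i _ => mul_self_nonneg _
  have hx1 : v x = 1 ∨ v x = -1 := by
    have : v x * v x ≤ 2 := by omega
    have h1 : v x ≤ 1 := by nlinarith
    have h2 : -1 ≤ v x := by nlinarith
    omega
  have hxx : v x * v x = 1 := by rcases hx1 with h | h <;> simp [h]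
  have h1 : ∑ i ∈ univ.erase x, v i * v i = 1 := by omega
  have h0 : ∃ y ∈ univ.erase x, v y ≠ 0 := by
    by_contra hh
    push Not at hh
    rw [sum_eq_zero fun i hi => by rw [hh i hi, mul_zero]] at h1
    exact zero_ne_one h1
  obtain ⟨y, hy, hy0⟩ := h0
  have e2 := Finset.add_sum_erase _ (fun i => v i * v i) hy
  have n2 : 0 ≤ ∑ i ∈ (univ.erase x).erase y, v i * v i := sum_nonneg fun i _ => mul_self_nonneg _
  have p2 : 0 < v y * v y := mul_self_pos.2 hy0
  have hy1 : v y * v y = 1 := by omega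
  have h2 : ∑ i ∈ (univ.erase x).erase y, v i * v i = 0 := by omega
  refine ⟨x, y, (ne_of_mem_erase hy).symm, hx1, mul_self_eq_one_iff.1 hy1, fun i hix hiy => ?_⟩
  exact mul_self_eq_zero.1 ((sum_eq_zero_iff_of_nonneg fun i _ => mul_self_nonneg _).1 h2 i
    (by simp [hix, hiy]))

theorem sum_single_mul (x : ι) (c : ℤ) (f : ι → ℤ) :
    ∑ i, (Pi.single x c : ι → ℤ) i * f i = c * f x := by
  rw [sum_eq_single x (fun b _ hb => by simp [hb]) (by simp)]; simp

/-- A vector of norm two and degree `-1`. -/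
theorem norm_two_deg {v d : ι → ℤ} (hd : ∀ i, 0 < d i) (h : ∑ i, v i * v i = 2)
    (h1 : ∑ i, v i * d i = -1) :
    ∃ x y : ι, x ≠ y ∧ v = Pi.single x 1 - Pi.single y 1 ∧ d y = d x + 1 := by
  obtain ⟨x, y, hxy, hx, hy, h0⟩ := norm_two h
  have e : v = Pi.single x (v x) + Pi.single y (v y) := by
    funext i
    by_cases hix : i = x
    · subst hix; simp [hxy]
    by_cases hiy : i = y
    · subst hiy; simp [hix]
    simp [hix, hiy, h0 i hix hiy]
  have h2 : v x * d x + v y * d y = -1 := by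
    rw [← h1]
    conv_rhs => rw [e]
    simp only [Pi.add_apply, add_mul, sum_add_distrib, sum_single_mul]
  have dx := hd x
  have dy := hd y
  rcases hx with hx | hx <;> rcases hy with hy | hy <;> rw [hx, hy] at h2 e
  · omega
  · exact ⟨x, y, hxy, by rw [e, sub_eq_add_neg, ← Pi.single_neg], by omega⟩
  · exact ⟨y, x, hxy.symm, by rw [e, sub_eq_add_neg, ← Pi.single_neg, add_comm], by omega⟩
  · omega

/-- The shape of the family with automizer of order two. -/
structure Sh1 {m : ℕ} (a : Fin m → ι → ℤ) (o ψ : ι) (Λ : Fin m → ι) (δ : ℤ) : Prop where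
  sgn : δ = 1 ∨ δ = -1
  inj : Function.Injective Λ
  ψo : ψ ≠ o
  Λo : ∀ i, Λ i ≠ o
  Λψ : ∀ i, Λ i ≠ ψ
  eq : ∀ i, a i = Pi.single o 1 + Pi.single ψ δ - Pi.single (Λ i) δ

theorem exists_sh1 {m : ℕ} (hm : 2 ≤ m) {a : Fin m → ι → ℤ} {o : ι} {d : ι → ℤ}
    (hd : ∀ i, 0 < d i) (hdo : d o = 1) (hg : ∀ i j, ∑ x, a i x * a j x = 2 + if i = j then 1 else 0)
    (ho : ∀ i, a i o = 1) (h1 : ∀ i, ∑ x, a i x * d x = 0) :
    ∃ (ψ : ι) (Λ : Fin m → ι) (δ : ℤ), Sh1 a o ψ Λ δ ∧ ∀ i, d (Λ i) = d ψ + δ := by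
  set b : Fin m → ι → ℤ := fun i => a i - Pi.single o 1 with hb
  have hbg : ∀ i j, ∑ x, b i x * b j x = 1 + if i = j then 1 else 0 := fun i j => by
    have e1 : ∑ x, a i x * (Pi.single o 1 : ι → ℤ) x = 1 * a i o := by
      simp only [mul_comm (a i _)]; exact sum_single_mul o 1 (a i)
    have e2 := sum_single_mul o 1 (a j)
    have e3 := sum_single_mul o 1 (Pi.single o (1 : ℤ))
    have e4 := hg i j
    simp only [hb, Pi.sub_apply, sub_mul, mul_sub, sum_sub_distrib]
    rw [e1, e2, e3, e4, ho, ho]; simp; ring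
  have hbd : ∀ i, ∑ x, b i x * d x = -1 := fun i => by
    simp only [hb, Pi.sub_apply, sub_mul, sum_sub_distrib, sum_single_mul, h1, hdo]; rfl
  choose P M hPM hv hdeg using fun i => norm_two_deg hd (by rw [hbg i i]; simp) (hbd i)
  have hbo : ∀ i, b i o = 0 := fun i => by simp [hb, ho]
  have hPo : ∀ i, P i ≠ o := fun i e => by
    have := hbo i
    rw [hv i, ← e] at this
    simp [hPM i] at this
  have hMo : ∀ i, M i ≠ o := fun i e => by
    have := hbo i
    rw [hv i, ← e] at this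
    simp [(hPM i).symm] at this
  have hx : ∀ i j, i ≠ j → (P i = P j ∧ M i ≠ M j) ∨ (P i ≠ P j ∧ M i = M j) := fun i j hij => by
    have := hbg i j
    rw [hv i, if_neg hij] at this
    simp only [Pi.sub_apply, sub_mul, sum_sub_distrib, sum_single_mul] at this
    simp only [hv j, Pi.sub_apply, Pi.single_apply] at this
    have := hPM i
    have := hPM j
    split_ifs at * <;> simp_all
  have ha : ∀ i, a i = Pi.single o 1 + (Pi.single (P i) 1 - Pi.single (M i) 1) := fun i => by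
    rw [← hv i, hb]; simp
  set i0 : Fin m := ⟨0, by omega⟩
  set i1 : Fin m := ⟨1, by omega⟩
  have h01 : i0 ≠ i1 := by simp [i0, i1]
  rcases hx i0 i1 h01 with ⟨hP, hM⟩ | ⟨hP, hM⟩
  · have hall : ∀ i, P i = P i0 := fun i => by
      by_contra hi
      have h0 : i ≠ i0 := fun e => hi (e ▸ rfl)
      have h1 : i ≠ i1 := fun e => hi (e ▸ hP.symm)
      have a0 := ((hx i i0 h0).resolve_left fun h => hi h.1).2
      have a1 := ((hx i i1 h1).resolve_left fun h => hi (h.1.trans hP.symm)).2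
      exact hM (a0.symm.trans a1)
    refine ⟨P i0, M, 1, ⟨Or.inl rfl, fun i j hij => ?_, hPo i0, hMo, fun i => hall i ▸ (hPM i).symm,
      fun i => by rw [ha i, hall i, add_sub_assoc]⟩, fun i => by rw [hdeg i, hall i]⟩
    by_contra hne
    rcases hx i j hne with h | h
    · exact h.2 hij
    · exact h.1 ((hall i).trans (hall j).symm)
  · have hall : ∀ i, M i = M i0 := fun i => by
      by_contra hi
      have h0 : i ≠ i0 := fun e => hi (e ▸ rfl)
      have h1 : i ≠ i1 := fun e => hi (e ▸ hM.symm)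
      have a0 := ((hx i i0 h0).resolve_right fun h => hi h.2).1
      have a1 := ((hx i i1 h1).resolve_right fun h => hi (h.2.trans hM.symm)).1
      exact hP (a0.symm.trans a1)
    refine ⟨M i0, P, -1, ⟨Or.inr rfl, fun i j hij => ?_, hMo i0, hPo, fun i => hall i ▸ hPM i,
      fun i => ?_⟩, fun i => by rw [← hall i, hdeg i]; ring⟩
    · by_contra hne
      rcases hx i j hne with h | h
      · exact h.2 ((hall i).trans (hall j).symm)
      · exact h.1 hij
    · rw [ha i, hall i, Pi.single_neg, Pi.single_neg]; abel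

namespace Sh1
variable {m : ℕ} {a : Fin m → ι → ℤ} {o ψ : ι} {Λ : Fin m → ι} {δ : ℤ} (S : Sh1 a o ψ Λ δ)
include S

theorem split (f : ι → ℤ) : ∑ x, f x = f o + f ψ + ∑ i, f (Λ i) +
    ∑ x ∈ (insert o (insert ψ (univ.image Λ)))ᶜ, f x := by
  rw [← sum_add_sum_compl (insert o (insert ψ (univ.image Λ))),
    sum_insert (by simp [S.Λo, S.ψo.symm]), sum_insert (by simp [S.Λψ]),
    sum_image fun i _ j _ h => S.inj h, ← add_assoc (f o)]

theorem sq : δ * δ = 1 := by rcases S.sgn with h | h <;> simp [h]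

theorem val {b : ι → ℤ} (ho : b o = 1) (h : ∀ i, ∑ x, a i x * b x = 0) (i : Fin m) :
    b (Λ i) = b ψ + δ := by
  have := h i
  simp only [S.eq i, Pi.sub_apply, Pi.add_apply, sub_mul, add_mul, sum_sub_distrib, sum_add_distrib,
    sum_single_mul, ho] at this
  have h2 := S.sq
  rcases S.sgn with h | h <;> rw [h] at this ⊢ <;> omega

/-- The dichotomy for a family with automizer of order four. -/
theorem dich (hm : 2 ≤ m) {k : ℕ} (hk : 2 ≤ k) {b : Fin k → ι → ℤ} (ho : ∀ j, b j o = 1)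
    (hg : ∀ i j, ∑ x, b i x * b j x = 4 + if i = j then 1 else 0)
    (h : ∀ j i, ∑ x, a i x * b j x = 0) :
    (∀ j, b j ψ = -δ) ∨ (m ≤ 3 ∧ ∀ j, b j ψ = 0) := by
  have hv := fun j => S.val (ho j) (h j)
  have hm' : (2 : ℤ) ≤ m := by exact_mod_cast hm
  set R := (insert o (insert ψ (univ.image Λ)))ᶜ
  have key : ∀ i j, 1 + b i ψ * b j ψ + m * ((b i ψ + δ) * (b j ψ + δ)) + ∑ x ∈ R, b i x * b j x =
      4 + if i = j then 1 else 0 := fun i j => by
    rw [← hg i j, S.split]
    simp [hv, ho, R]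
  have nn : ∀ i, 0 ≤ ∑ x ∈ R, b i x * b i x := fun i => sum_nonneg fun _ _ => mul_self_nonneg _
  have each : ∀ j, b j ψ = -δ ∨ b j ψ = 0 := fun j => by
    have k1 := key j j
    have k2 := nn j
    rw [if_pos rfl] at k1
    by_contra hh
    push Not at hh
    have h3 : 0 < (b j ψ + δ) * (b j ψ + δ) :=
      mul_self_pos.2 fun e => hh.1 (eq_neg_of_add_eq_zero_left e)
    have h4 : 2 * ((b j ψ + δ) * (b j ψ + δ)) ≤ m * ((b j ψ + δ) * (b j ψ + δ)) := by nlinarith
    have h5 : b j ψ * b j ψ ≤ 2 := by omega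
    have h6 : b j ψ ≤ 1 := by nlinarith
    have h7 : -1 ≤ b j ψ := by nlinarith
    have h8 : b j ψ = δ := by rcases S.sgn with e | e <;> omega
    rw [h8] at k1 h4
    have := S.sq
    nlinarith
  have cs : ∀ i j, 2 * ∑ x ∈ R, b i x * b j x ≤ ∑ x ∈ R, b i x * b i x + ∑ x ∈ R, b j x * b j x :=
    fun i j => by
      rw [mul_sum, ← sum_add_distrib]
      exact sum_le_sum fun x _ => by nlinarith [mul_self_nonneg (b i x - b j x)]
  have cs' : ∀ i j, -(2 * ∑ x ∈ R, b i x * b j x) ≤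
      ∑ x ∈ R, b i x * b i x + ∑ x ∈ R, b j x * b j x := fun i j => by
    rw [mul_sum, ← sum_add_distrib, ← sum_neg_distrib]
    exact sum_le_sum fun x _ => by nlinarith [mul_self_nonneg (b i x + b j x)]
  have hδ := S.sq
  have hδ0 : δ ≠ 0 := fun e => by simp [e] at hδ
  by_cases hall : ∀ j, b j ψ = -δ
  · exact Or.inl hall
  push Not at hall
  obtain ⟨j, hj⟩ := hall
  have hj0 := (each j).resolve_left hj
  have all0 : ∀ l, b l ψ = 0 := fun l => by
    by_contra hl
    have hl1 := (each l).resolve_right hl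
    have hjl : j ≠ l := fun e => hl (e ▸ hj0)
    have k1 := key j j
    have k2 := key l l
    have k3 := key j l
    have k4 := cs j l
    rw [if_pos rfl] at k1 k2
    rw [if_neg hjl] at k3
    simp only [hj0, hl1, zero_add, neg_add_cancel, mul_zero, zero_mul, neg_mul_neg, hδ, mul_one] at k1 k2 k3
    omega
  refine Or.inr ⟨?_, all0⟩
  set i0 : Fin k := ⟨0, by omega⟩
  set i1 : Fin k := ⟨1, by omega⟩
  have h01 : i0 ≠ i1 := by simp [i0, i1]
  have k1 := key i0 i0
  have k2 := key i1 i1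
  have k3 := key i0 i1
  have k4 := cs' i0 i1
  rw [if_pos rfl] at k1 k2
  rw [if_neg h01] at k3
  simp only [all0, zero_add, mul_zero, hδ, mul_one] at k1 k2 k3
  omega

end Sh1
end Comb

end Cfsg.Agent.H14.Ito
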