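import Mathlib
import Cfsg.Agent.H14.Ito1
import Cfsg.Agent.H20.InvSum

/-! S3240: the induced characters and the count of involutions. -/

set_option autoImplicit false

namespace Cfsg.Agent.H14.Ito

open Cfsg Cfsg.Agent.H11 Finset
open scoped ComplexConjugate

variable {G : Type*} [Group G]

/-- The principal character. -/
def triv (G : Type*) [Group G] : IrrCharacter G := ⟨fun _ => 1, isIrrCharacter_one⟩

/-- The degree. -/
noncomputable def dg (χ : IrrCharacter G) : ℕ := ⌊(χ.1 1).re⌋₊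

theorem dg_spec (χ : IrrCharacter G) : χ.1 1 = dg χ := by
  obtain ⟨n, -, h⟩ := exists_pos_degree χ.2
  simp [dg, h]

theorem dg_pos (χ : IrrCharacter G) : 0 < dg χ := by
  obtain ⟨n, h0, h⟩ := exists_pos_degree χ.2
  simpa [dg, h] using h0

theorem dg_triv : dg (triv G) = 1 := by simp [dg, triv]

/-- `g` is conjugate to a non-identity element of `A`. -/
def InS (A : Subgroup G) (g : G) : Prop := ∃ a ∈ A, a ≠ 1 ∧ IsConj a g

theorem InS.conj {A : Subgroup G} {g h : G} (H : InS A g) (e : IsConj g h) : InS A h :=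
  let ⟨a, ha, h1, h2⟩ := H; ⟨a, ha, h1, h2.trans e⟩

theorem orderOf_of_isConj {a b : G} (h : IsConj a b) : orderOf a = orderOf b := by
  obtain ⟨c, rfl⟩ := isConj_iff.1 h
  exact ((MulAut.conj c).orderOf_eq a).symm

theorem InS.dvd {A : Subgroup G} {g : G} (H : InS A g) :
    orderOf g ∣ Nat.card A ∧ g ≠ 1 := by
  obtain ⟨a, ha, h1, h2⟩ := H
  refine ⟨orderOf_of_isConj h2 ▸ A.orderOf_dvd_natCard ha, fun e => h1 ?_⟩
  exact isConj_one_left.1 (e ▸ h2)

theorem InS.disj {A B : Subgroup G} (c : (Nat.card A).Coprime (Nat.card B)) {g : G}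
    (H : InS A g) (H' : InS B g) : False :=
  H.dvd.2 (orderOf_eq_one_iff.1 (Nat.eq_one_of_dvd_coprimes c H.dvd.1 H'.dvd.1))

theorem dvd_of_const [Finite G] (A : Subgroup G) (χ : IrrCharacter G) {c : ℤ}
    (h : ∀ a ∈ A, a ≠ 1 → χ.1 a = c) : (Nat.card A : ℤ) ∣ dg χ - c := by
  classical
  haveI := Fintype.ofFinite A
  obtain ⟨k, hk⟩ := exists_nat_classInner (isCharacter_restrict (irr_isCharacter χ) A) isCharacter_one
  have e := card_mul_classInner (fun a : A => χ.1 a) fun _ => 1
  rw [hk, ← add_sum_erase _ _ (mem_univ 1), sum_congr rfl (g := fun _ => (c : ℂ)) fun a ha => by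
    simpa using h a a.2 fun e => ne_of_mem_erase ha (Subtype.ext e)] at e
  have hp : 1 ≤ Nat.card A := Nat.card_pos
  simp only [OneMemClass.coe_one, map_one, mul_one, sum_const, card_erase_of_mem (mem_univ _),
    card_univ, nsmul_eq_mul, dg_spec, ← Nat.card_eq_fintype_card] at e
  rw [Nat.cast_sub hp] at e
  refine ⟨k - c, ?_⟩
  have : ((dg χ - c : ℤ) : ℂ) = ((Nat.card A * (k - c) : ℤ) : ℂ) := by
    push_cast at e ⊢; linear_combination -e
  exact_mod_cast this

variable [Fintype G]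

/-- The multiplicity. -/
noncomputable def co (θ : G → ℂ) (χ : IrrCharacter G) : ℤ := ⌊(classInner θ χ.1).re⌋

theorem co_spec {θ : G → ℂ} (hθ : IsGeneralizedCharacter G θ) (χ : IrrCharacter G) :
    classInner θ χ.1 = co θ χ := by
  obtain ⟨n, h⟩ := exists_int_classInner hθ (isGen_of_irr χ.2)
  simp [co, h]

section
variable [Fintype (IrrCharacter G)]

theorem apply_co {θ : G → ℂ} (hθ : IsGeneralizedCharacter G θ) (g : G) :
    θ g = ∑ χ, (co θ χ : ℂ) * χ.1 g := by
  rw [classFun_apply_eq_sum (isClassFunction_of_isGen hθ)]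
  simp only [co_spec hθ]

theorem inner_co {θ η : G → ℂ} (hθ : IsGeneralizedCharacter G θ) (hη : IsGeneralizedCharacter G η) :
    classInner θ η = ((∑ χ, co θ χ * co η χ : ℤ) : ℂ) := by
  rw [classInner_eq_sum (isClassFunction_of_isGen hθ)]
  simp [co_spec hθ, co_spec hη]

end

namespace TH
variable {A : Subgroup G} {e m : ℕ} {θ : Fin m → G → ℂ} (T : TH A e θ)
include T

theorem zero (i : Fin m) {g : G} (h : ¬ InS A g) : θ i g = 0 :=
  T.supp i g fun a ha h1 h2 => h ⟨a, ha, h1, h2⟩

theorem co_triv (i : Fin m) : co (θ i) (triv G) = 1 := by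
  have := (co_spec (T.gen i) (triv G)).symm.trans (T.one i)
  exact_mod_cast this

theorem const (χ : IrrCharacter G) {c : ℤ} (h : ∀ i, co (θ i) χ = c) :
    ∀ a ∈ A, a ≠ 1 → χ.1 a = c := fun a ha h1 => by
  have := T.span (χ.1 - (c : ℂ) • fun _ => 1) (isClassFunction_sub (isClassFunction_of_irr χ.2)
    (isClassFunction_smul (isClassFunction_const 1) _)) (fun i => by
      rw [classInner_sub_left, classInner_smul_left, ← conj_classInner (θ i), ← conj_classInner (θ i),
        T.one, co_spec (T.gen i), h]; simp) a ha h1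
  simpa [sub_eq_zero] using this

theorem dvd (χ : IrrCharacter G) {c : ℤ} (h : ∀ i, co (θ i) χ = c) :
    (Nat.card A : ℤ) ∣ dg χ - c := dvd_of_const A χ (T.const χ h)

theorem sum_mul (i : Fin m) {β : G → ℂ} (hβ : IsClassFunction G β) {v : ℂ}
    (h : ∀ a ∈ A, a ≠ 1 → β a = v) : ∑ g, θ i g * β g = v * Nat.card G := by
  have e := card_mul_classInner (θ i) fun _ => 1
  rw [T.one] at e
  simp only [map_one, mul_one] at e
  rw [e, mul_sum]
  refine sum_congr rfl fun g _ => ?_
  by_cases hg : InS A g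
  · obtain ⟨a, ha, h1, h2⟩ := hg
    rw [← classFun_of_isConj hβ h2, h a ha h1, mul_comm]
  · simp [T.zero i hg]

open Classical in
theorem card_S (hn : Nat.card A = e * m + 1) :
    (univ.filter (InS A)).card * Nat.card A = Nat.card G * m := by
  have hc : IsClassFunction G (∑ j, θ j) :=
    isClassFunction_sum _ _ fun j _ => isClassFunction_of_isGen (T.gen j)
  have h1 : ∀ a ∈ A, a ≠ 1 → ∑ j, θ j a = Nat.card A := fun a ha h1 => by
    have := T.span (∑ j, θ j - (Nat.card A : ℂ) • fun _ => 1) (isClassFunction_sub hc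
      (isClassFunction_smul (isClassFunction_const 1) _)) (fun i => by
        rw [classInner_sub_left, classInner_smul_left, ← conj_classInner (θ i) fun _ => 1, T.one,
          classInner_sum_left, hn]
        simp [T.gram, sum_add_distrib]; ring) a ha h1
    simpa [sub_eq_zero] using this
  have h2 : ∑ g, ∑ j, θ j g = Nat.card G * m := by
    rw [sum_comm, sum_congr rfl (g := fun _ => (Nat.card G : ℂ)) fun j _ => by
      simpa using T.sum_mul j (isClassFunction_const 1) (v := 1) fun _ _ _ => rfl]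
    simp [mul_comm]
  have h3 : ∑ g, ∑ j, θ j g = ∑ g, if InS A g then (Nat.card A : ℂ) else 0 := by
    refine sum_congr rfl fun g _ => ?_
    split_ifs with hg
    · obtain ⟨a, ha, h0, h2⟩ := hg
      have := classFun_of_isConj hc h2
      simp only [Finset.sum_apply] at this
      rw [← this, h1 a ha h0]
    · exact sum_eq_zero fun j _ => T.zero j hg
  rw [h3, ← sum_filter, sum_const, nsmul_eq_mul] at h2
  exact_mod_cast h2

variable [Fintype (IrrCharacter G)]

theorem gramZ (i j : Fin m) :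
    ∑ χ, co (θ i) χ * co (θ j) χ = e + if i = j then 1 else 0 := by
  have := (inner_co (T.gen i) (T.gen j)).symm.trans (T.gram i j)
  split_ifs at this ⊢ <;> exact_mod_cast this

theorem deg0 (i : Fin m) : ∑ χ, co (θ i) χ * (dg χ : ℤ) = 0 := by
  have := (apply_co (T.gen i) 1).symm.trans (T.zero i fun h => h.dvd.2 rfl)
  simp only [dg_spec] at this
  exact_mod_cast this

theorem cross {B : Subgroup G} {e' m' : ℕ} {η : Fin m' → G → ℂ} (T' : TH B e' η)
    (c : (Nat.card A).Coprime (Nat.card B)) (i : Fin m) (j : Fin m') :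
    ∑ χ, co (θ i) χ * co (η j) χ = 0 := by
  have h : classInner (θ i) (η j) = 0 := by
    rw [classInner_def, sum_eq_zero fun g _ => ?_, mul_zero]
    by_cases hg : InS A g
    · rw [T'.zero j fun h => hg.disj c h]; simp
    · rw [T.zero i hg, zero_mul]
  have := (inner_co (T.gen i) (T'.gen j)).symm.trans h
  exact_mod_cast this

end TH

section Inv
open Classical

/-- The number of ways to write `h` as a product of two members of `K`. -/
noncomputable def bet (K : Finset G) (h : G) : ℕ := (K.filter fun a => a⁻¹ * h ∈ K).card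

theorem sum_bet (K : Finset G) (f : G → ℂ) :
    ∑ a ∈ K, ∑ b ∈ K, f (a * b) = ∑ h, f h * bet K h := by
  have : ∀ a, ∑ b ∈ K, f (a * b) = ∑ h, if a⁻¹ * h ∈ K then f h else 0 := fun a => by
    rw [← Equiv.sum_comp (Equiv.mulLeft a), ← sum_filter]
    simp
  simp only [this]
  rw [sum_comm]
  refine sum_congr rfl fun h _ => ?_
  rw [← sum_filter, sum_const, nsmul_eq_mul, mul_comm, bet]

theorem sum_bet_nat (K : Finset G) : ∑ h, bet K h = K.card ^ 2 := by
  have := sum_bet K fun _ => 1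
  simp only [sum_const, nsmul_eq_mul, mul_one, one_mul] at this
  rw [sq]
  exact_mod_cast this.symm

omit [Fintype G] in
theorem bet_conj {K : Finset G} (hK : ∀ a ∈ K, ∀ c, c * a * c⁻¹ ∈ K) (g c : G) :
    bet K (c * g * c⁻¹) = bet K g := by
  symm
  refine card_bij (fun a _ => c * a * c⁻¹) (fun a ha => ?_) (fun a _ b _ e => by simpa using e)
    fun b hb => ⟨c⁻¹ * b * c, ?_, by group⟩
  · rw [mem_filter] at ha ⊢
    exact ⟨hK _ ha.1 c, by convert hK _ ha.2 c using 1; group⟩
  · rw [mem_filter] at hb ⊢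
    exact ⟨by simpa using hK _ hb.1 c⁻¹, by convert hK _ hb.2 c⁻¹ using 1; group⟩

omit [Fintype G] in
theorem bet_cl {K : Finset G} (hK : ∀ a ∈ K, ∀ c, c * a * c⁻¹ ∈ K) :
    IsClassFunction G fun h => (bet K h : ℂ) := fun g c => by simp only [bet_conj hK]

theorem sum_conj_conj (u : G) (f : G → ℂ) :
    ∑ x : G, ∑ y : G, f (x * u * x⁻¹ * (y * u * y⁻¹)) =
      (Nat.card (Subgroup.centralizer ({u} : Set G)) : ℂ) ^ 2 *
        ∑ h, f h * bet (univ.filter (IsConj u)) h := by
  rw [← sum_bet, H20.sum_conj_eq u fun a => ∑ y : G, f (a * (y * u * y⁻¹))]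
  simp only [fun a => H20.sum_conj_eq u fun b => f (a * b)]
  rw [← mul_sum]; ring

theorem sum_conj_irr (χ : IrrCharacter G) (u : G) :
    ∑ x : G, ∑ y : G, χ.1 (x * u * x⁻¹ * (y * u * y⁻¹)) =
      (Nat.card G : ℂ) ^ 2 * (χ.1 u ^ 2 / dg χ) := by
  simp only [fun y : G => sum_irr_conj_mul χ.2 u (y * u * y⁻¹), sum_comm (s := univ) (t := univ)
    (f := fun x y : G => χ.1 (x * u * x⁻¹ * (y * u * y⁻¹))), isClassFunction_of_irr χ.2 u]
  simp [dg_spec, Nat.card_eq_fintype_card]; ring

end Inv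

namespace Loc
variable {A : Subgroup G} {e m : ℕ} (L : Loc A e m)
include L

omit [Fintype G] in
theorem mem_of_comm {a g : G} (ha : a ∈ A) (h1 : a ≠ 1) (h : g * a = a * g) : g ∈ A :=
  L.cc a ha h1 ▸ Subgroup.mem_centralizer_singleton_iff.2 h

omit [Fintype G] in
theorem comm {a b : G} (ha : a ∈ A) (hb : b ∈ A) : a * b = b * a := by
  by_cases h1 : b = 1
  · simp [h1]
  · exact Subgroup.mem_centralizer_singleton_iff.1 (L.cc b hb h1 ▸ ha)

omit [Fintype G] L in
theorem ord_mul {t a : G} (ht : orderOf t = 2) (hA : t ∉ A) (hi : ∀ a ∈ A, t * a * t⁻¹ = a⁻¹)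
    (ha : a ∈ A) : orderOf (a * t) = 2 := by
  have h2 : t * t = 1 := by rw [← sq, ← ht, pow_orderOf_eq_one]
  refine orderOf_eq_prime ?_ fun h => hA ?_
  · have := hi a ha
    calc (a * t) ^ 2 = a * (t * a * t⁻¹) * (t * t) := by rw [sq]; group
      _ = 1 := by rw [this, h2]; group
  · rw [eq_inv_of_mul_eq_one_right h]; exact A.inv_mem ha

open Classical in
theorem le_bet {h : G} (hh : InS A h) :
    Nat.card A ≤ bet (univ.filter fun g : G => orderOf g = 2) h := by
  obtain ⟨a, ha, h1, h2⟩ := hh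
  obtain ⟨c, rfl⟩ := isConj_iff.1 h2
  rw [bet_conj fun a ha c => by
    simpa using ((MulAut.conj c).orderOf_eq a).trans (mem_filter.1 ha).2]
  obtain ⟨t, ht, hA, hi⟩ := L.inv
  rw [Nat.card_eq_fintype_card, ← card_univ]
  refine card_le_card_of_injOn (fun b : A => b * t) (fun b _ => ?_) fun b _ b' _ e =>
    Subtype.ext (mul_right_cancel e)
  simp only [coe_filter, mem_filter, mem_univ, true_and, Set.mem_ofPred_eq]
  refine ⟨ord_mul ht hA hi b.2, ?_⟩
  have h2 : t⁻¹ = t := inv_eq_of_mul_eq_one_right (by rw [← sq, ← ht, pow_orderOf_eq_one])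
  have e : ((b : G) * t)⁻¹ * a = ((b : G)⁻¹ * a)⁻¹ * t := by
    rw [← hi _ (A.mul_mem (A.inv_mem b.2) ha), mul_inv_rev, h2]
    nth_rw 3 [← h2]; group
  rw [e]
  exact ord_mul ht hA hi (A.inv_mem (A.mul_mem (A.inv_mem b.2) ha))

end Loc

end Cfsg.Agent.H14.Ito
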