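import Mathlib
import Cfsg.Agent.H14.Ito2
import Cfsg.Agent.H19.FS

/-! S3240: Suzuki's order formula, the Frobenius–Schur count, four-dimensional columns. -/

set_option autoImplicit false

namespace Cfsg.Agent.H14.Ito

open Cfsg Cfsg.Agent.H11 Finset
open scoped ComplexConjugate

variable {G : Type*} [Group G]

theorem inv_eq_of_ord {t : G} (ht : orderOf t = 2) : t⁻¹ = t :=
  inv_eq_of_mul_eq_one_right (by rw [← sq, ← ht, pow_orderOf_eq_one])

namespace Loc
variable {A : Subgroup G} {e m : ℕ} (L : Loc A e m)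
include L

theorem isConj_mul (he : Even e) {t a : G} (hi : ∀ a ∈ A, t * a * t⁻¹ = a⁻¹) (ha : a ∈ A) :
    IsConj t (a * t) := by
  obtain ⟨k, hk⟩ := he
  have h1 : a ^ (e * m + 1) = 1 := by
    rw [← L.card]; exact orderOf_dvd_iff_pow_eq_one.1 (A.orderOf_dvd_natCard ha)
  have hr := A.pow_mem ha (k * m + 1)
  have h2 : a ^ (k * m + 1) * a ^ (k * m + 1) = a := by
    rw [← pow_add, show k * m + 1 + (k * m + 1) = e * m + 1 + 1 by rw [hk]; ring, pow_succ, h1,
      one_mul]
  refine isConj_iff.2 ⟨a ^ (k * m + 1), ?_⟩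
  have := hi _ (A.inv_mem hr)
  rw [inv_inv] at this
  calc _ = a ^ (k * m + 1) * (t * (a ^ (k * m + 1))⁻¹ * t⁻¹) * t := by group
    _ = _ := by rw [this, h2]

open Classical in
theorem bet_class [Fintype G] (he : Even e) {t : G} (ht : orderOf t = 2)
    (hi : ∀ a ∈ A, t * a * t⁻¹ = a⁻¹) {u : G} (hu : orderOf u = 2) {a : G} (ha : a ∈ A)
    (h1 : a ≠ 1) :
    bet (univ.filter (IsConj u)) a = if IsConj u t then Nat.card A else 0 := by
  have key : ∀ b, IsConj u b → IsConj u (b⁻¹ * a) → b * t⁻¹ ∈ A := fun b hb hb' => by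
    have o1 := inv_eq_of_ord (orderOf_of_isConj hb ▸ hu)
    have o2 := inv_eq_of_ord (orderOf_of_isConj hb' ▸ hu)
    refine L.mem_of_comm ha h1 ?_
    have e1 : t⁻¹ * a = a⁻¹ * t⁻¹ := by
      have := hi _ ha
      rw [inv_eq_of_ord ht] at this ⊢
      rw [← this, mul_assoc, mul_assoc]
      nth_rw 3 [← inv_eq_of_ord ht]; group
    have e2 : b * a⁻¹ = a * b := by
      rw [mul_inv_rev, inv_inv, o1] at o2
      calc b * a⁻¹ = a * (a⁻¹ * b) * a⁻¹ := by group
        _ = a * b := by rw [o2]; group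
    rw [mul_assoc, e1, ← mul_assoc, e2, mul_assoc]
  split_ifs with hc
  · rw [Nat.card_eq_fintype_card, ← card_univ]
    symm
    refine card_bij (fun (b : A) _ => b * t) (fun b _ => ?_)
      (fun b _ b' _ e => Subtype.ext (mul_right_cancel e)) fun b hb => ?_
    · simp only [mem_filter, mem_univ, true_and]
      refine ⟨hc.trans (L.isConj_mul he hi b.2), ?_⟩
      have e : ((b : G) * t)⁻¹ * a = ((b : G)⁻¹ * a)⁻¹ * t := by
        rw [← hi _ (A.mul_mem (A.inv_mem b.2) ha), mul_inv_rev, inv_eq_of_ord ht]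
        nth_rw 3 [← inv_eq_of_ord ht]; group
      rw [e]
      exact hc.trans (L.isConj_mul he hi (A.inv_mem (A.mul_mem (A.inv_mem b.2) ha)))
    · simp only [mem_filter, mem_univ, true_and] at hb
      exact ⟨⟨_, key b hb.1 hb.2⟩, mem_univ _, by simp⟩
  · refine card_eq_zero.2 (filter_eq_empty_iff.2 fun b hb hb' => hc ?_)
    simp only [mem_filter, mem_univ, true_and] at hb hb'
    have := L.isConj_mul he hi (key b hb hb')
    rw [inv_mul_cancel_right] at this
    exact hb.trans this.symm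

theorem not_inS (he : Even e) {g : G} (hg : Even (orderOf g)) : ¬ InS A g := fun h => by
  have := (even_iff_two_dvd.1 hg).trans h.dvd.1
  rw [L.card] at this
  obtain ⟨k, rfl⟩ := he
  rw [show (k + k) * m + 1 = 2 * (k * m) + 1 by ring] at this
  omega

theorem not_inS_of_comm (he : Even e) {g s : G} (hs : orderOf s = 2) (hc : s * g = g * s) :
    ¬ InS A g := by
  rintro ⟨a, ha, h1, h2⟩
  obtain ⟨c, rfl⟩ := isConj_iff.1 h2
  have hm : c⁻¹ * s * c ∈ A := L.mem_of_comm ha h1 (by
    calc c⁻¹ * s * c * a = c⁻¹ * (s * (c * a * c⁻¹)) * c := by group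
      _ = _ := by rw [hc]; group)
  have hs1 : s ≠ 1 := fun e => by simp [e] at hs
  exact L.not_inS he (g := s) (by simp [hs]) ⟨_, hm, fun e => hs1 (by
    calc s = c * (c⁻¹ * s * c) * c⁻¹ := by group
      _ = 1 := by rw [e]; group), isConj_iff.2 ⟨c, by group⟩⟩

end Loc

theorem y_le [Finite G] {A : Subgroup G} {m : ℕ} (L : Loc A 2 m) {t : G} (hA : t ∉ A)
    (hi : ∀ a ∈ A, t * a * t⁻¹ = a⁻¹) (ψ : IrrCharacter G) {δ y : ℤ}
    (hδ : ∀ a ∈ A, a ≠ 1 → ψ.1 a = δ) (hy : ψ.1 t = y) :
    (Nat.card A : ℤ) * y ≤ dg ψ + (Nat.card A - 1) * δ := by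
  classical
  set N := Subgroup.normalizer (A : Set G)
  haveI := Fintype.ofFinite N
  set B := A.subgroupOf N
  have hB : B.index = 2 := L.rel
  have htN : t ∈ N := Subgroup.mem_normalizer_fintype fun a ha => (hi a ha).symm ▸ A.inv_mem ha
  let lam : N →* ℂˣ := MonoidHom.mk' (fun x => if x ∈ B then 1 else -1) fun a b => by
    simp only [Subgroup.mul_mem_iff_of_index_two hB]
    by_cases ha : a ∈ B <;> by_cases hb : b ∈ B <;> simp [ha, hb]
  obtain ⟨k, hk⟩ := exists_nat_classInner (isCharacter_restrict (irr_isCharacter ψ) N)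
    (isCharacter_monoidHom lam)
  have e := card_mul_classInner (fun a : N => ψ.1 a) fun g => (lam g : ℂ)
  have hcB : (univ.filter (· ∈ B)).card = Nat.card A := by
    rw [← Nat.card_congr (Subgroup.subgroupOfEquivOfLe Subgroup.le_normalizer).toEquiv,
      Nat.card_eq_fintype_card, Fintype.card_subtype]
  have hcN : Nat.card N = 2 * Nat.card A := by
    rw [← B.index_mul_card, hB,
      Nat.card_congr (Subgroup.subgroupOfEquivOfLe Subgroup.le_normalizer).toEquiv]
  have hcB' : (univ.filter (¬ · ∈ B)).card = Nat.card A := by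
    have := card_filter_add_card_filter_not (s := (univ : Finset N)) (· ∈ B)
    rw [hcB, card_univ, ← Nat.card_eq_fintype_card, hcN] at this
    omega
  have h1 : (1 : N) ∈ univ.filter (· ∈ B) := by simp [B.one_mem]
  rw [hk, ← sum_filter_add_sum_filter_not univ (· ∈ B), ← add_sum_erase _ _ h1,
    sum_congr rfl (g := fun _ => (δ : ℂ)) fun a ha => by
      have h2 := (mem_filter.1 (mem_of_mem_erase ha)).2
      simpa [lam, h2] using hδ a h2 fun e => ne_of_mem_erase ha (Subtype.ext e),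
    sum_congr rfl (g := fun _ => (-y : ℂ)) (s₂ := univ.filter (¬ · ∈ B)) fun a ha => by
      have h2 := (mem_filter.1 ha).2
      have h3 : a * ⟨t, htN⟩⁻¹ ∈ B := by
        rw [Subgroup.mul_mem_iff_of_index_two hB, B.inv_mem_iff]
        exact iff_of_false h2 hA
      have h4 := L.isConj_mul even_two hi (a := a * t⁻¹) h3
      rw [inv_mul_cancel_right] at h4
      simp [lam, h2, ← classFun_of_isConj (isClassFunction_of_irr ψ.2) h4, hy]] at e
  have hp : 1 ≤ Nat.card A := Nat.card_pos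
  simp only [OneMemClass.coe_one, map_one, Units.val_one, mul_one, sum_const,
    card_erase_of_mem h1, hcB, hcB', nsmul_eq_mul, dg_spec] at e
  rw [Nat.cast_sub hp] at e
  have : ((dg ψ + (Nat.card A - 1) * δ - Nat.card A * y : ℤ) : ℂ) = ((Nat.card N * k : ℕ) : ℤ) := by
    push_cast at e ⊢; linear_combination -e
  have h5 : (dg ψ + (Nat.card A - 1) * δ - Nat.card A * y : ℤ) = ((Nat.card N * k : ℕ) : ℤ) := by
    exact_mod_cast this
  omega

variable [Fintype G] [Fintype (IrrCharacter G)] [DecidableEq (IrrCharacter G)]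

theorem sum_single_apply (χ : IrrCharacter G) (c : ℤ) (g : G) :
    ∑ ξ : IrrCharacter G, (((Pi.single χ c : IrrCharacter G → ℤ) ξ : ℤ) : ℂ) * ξ.1 g = c * χ.1 g := by
  rw [sum_eq_single χ (fun b _ hb => by simp [hb]) (by simp)]; simp

section One
variable {A : Subgroup G} {m : ℕ} {θ : Fin m → G → ℂ} {ψ : IrrCharacter G}
  {Λ : Fin m → IrrCharacter G} {δ : ℤ}

theorem th_apply (T : TH A 2 θ) (S : Sh1 (fun i => co (θ i)) (triv G) ψ Λ δ) (i : Fin m) (g : G) :
    θ i g = 1 + δ * ψ.1 g - δ * (Λ i).1 g := by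
  rw [apply_co (T.gen i), S.eq i]
  simp only [Pi.sub_apply, Pi.add_apply, Int.cast_sub, Int.cast_add, sub_mul, add_mul,
    sum_sub_distrib, sum_add_distrib, sum_single_apply]
  simp [triv]

theorem lam_apply (T : TH A 2 θ) (S : Sh1 (fun i => co (θ i)) (triv G) ψ Λ δ) (i : Fin m) {g : G}
    (hg : ¬ InS A g) : (Λ i).1 g = ψ.1 g + δ := by
  have h := (th_apply T S i g).symm.trans (T.zero i hg)
  have h2 : (δ : ℂ) * δ = 1 := by exact_mod_cast S.sq
  linear_combination -(δ : ℂ) * h - ((Λ i).1 g - ψ.1 g) * h2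

open Classical in
theorem order_eq (L : Loc A 2 m) (T : TH A 2 θ) (S : Sh1 (fun i => co (θ i)) (triv G) ψ Λ δ)
    (i : Fin m) {t : G} (ht : orderOf t = 2) (hi : ∀ a ∈ A, t * a * t⁻¹ = a⁻¹) {u : G}
    (hu : orderOf u = 2) :
    (Nat.card (Subgroup.centralizer ({u} : Set G)) : ℂ) ^ 2 *
      ((if IsConj u t then Nat.card A else 0 : ℕ) : ℂ) * (dg ψ * (dg ψ + δ)) =
      Nat.card G * (dg ψ - ψ.1 u) ^ 2 := by
  have e1 := sum_conj_conj u (θ i)
  rw [T.sum_mul i (bet_cl fun a ha c => by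
      simpa using (mem_filter.1 ha).2.trans (isConj_iff.2 ⟨c, rfl⟩))
    fun a ha h1 => by rw [L.bet_class even_two ht hi hu ha h1]] at e1
  simp only [th_apply T S i, sum_sub_distrib, sum_add_distrib, ← mul_sum, sum_conj_irr, sum_const,
    card_univ, nsmul_eq_mul, ← Nat.card_eq_fintype_card, mul_one] at e1
  have w := lam_apply T S i (L.not_inS even_two (g := u) (by simp [hu]))
  have z := lam_apply T S i (g := 1) fun h => h.dvd.2 rfl
  rw [dg_spec, dg_spec] at z
  have hx : (dg ψ : ℂ) ≠ 0 := by exact_mod_cast (dg_pos ψ).ne'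
  have hz : (dg ψ : ℂ) + δ ≠ 0 := by rw [← z]; exact_mod_cast (dg_pos _).ne'
  have hg := card_ne_zero G
  have h2 : (δ : ℂ) * δ = 1 := by exact_mod_cast S.sq
  rw [w, z] at e1
  field_simp at e1
  linear_combination -e1 + (Nat.card G : ℂ) * (ψ.1 u ^ 2 - 2 * ψ.1 u * dg ψ - dg ψ * δ) * h2

theorem one_class [IsSimpleGroup G] (L : Loc A 2 m) (T : TH A 2 θ)
    (S : Sh1 (fun i => co (θ i)) (triv G) ψ Λ δ) (i : Fin m) {t : G} (ht : orderOf t = 2)
    (hi : ∀ a ∈ A, t * a * t⁻¹ = a⁻¹) {u : G} (hu : orderOf u = 2) : IsConj u t := by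
  by_contra hc
  have e := order_eq L T S i ht hi hu
  rw [if_neg hc] at e
  have h1 : ψ.1 u = ψ.1 1 := by
    rw [dg_spec]
    have := (mul_eq_zero.1 (e.symm.trans (by simp))).resolve_left (card_ne_zero G)
    exact (sub_eq_zero.1 (pow_eq_zero_iff two_ne_zero |>.1 this)).symm
  have h2 := (mem_charKer_irr_iff ψ.2).2 h1
  rw [charKer_eq_bot_of_isSimpleGroup ψ.2 fun e => S.ψo (Subtype.ext e), Subgroup.mem_bot] at h2
  simp [h2] at hu

end One

omit [DecidableEq (IrrCharacter G)] in
open Classical in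
theorem fs_le : (univ.filter fun g : G => orderOf g = 2).card + 1 ≤ ∑ χ : IrrCharacter G, dg χ := by
  have e := H19.sqCount_eq_sum (1 : G)
  have h1 : Nat.card {x : G // x * x = 1} = (univ.filter fun g : G => orderOf g = 2).card + 1 := by
    rw [Nat.card_eq_fintype_card, Fintype.card_subtype, ← card_insert_of_notMem (a := 1) (by simp)]
    congr 1
    ext x
    simp only [mem_filter, mem_univ, true_and, mem_insert]
    refine ⟨fun h => ?_, ?_⟩
    · by_cases h1 : x = 1
      · exact Or.inl h1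
      · exact Or.inr (orderOf_eq_prime (by rwa [sq]) h1)
    · rintro (rfl | h)
      · simp
      · rw [← sq, ← h, pow_orderOf_eq_one]
  rw [H19.sqCount, h1] at e
  have h2 := congrArg Complex.re e
  rw [Complex.natCast_re, Complex.re_sum] at h2
  have h3 : ∑ χ : IrrCharacter G, (H19.fs χ.1 * χ.1 1).re ≤ ∑ χ : IrrCharacter G, (dg χ : ℝ) :=
    sum_le_sum fun χ _ => by
      rw [dg_spec]
      rcases H19.fs_cases χ.2 with h | h | h <;> simp [h]
  exact_mod_cast h2.le.trans h3

omit [Fintype G] [DecidableEq (IrrCharacter G)] in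
theorem not_five [Finite G] (w : G → Fin 4 → ℂ) (x : Fin 5 → G)
    (hx : ∀ i j, IsConj (x i) (x j) → i = j)
    (h : ∀ χ : IrrCharacter G, ∃ c : Fin 4 → ℂ, ∀ i, χ.1 (x i) = ∑ k, c k * w (x i) k) : False := by
  have hli : LinearIndependent ℂ fun i => w (x i) := by
    refine Fintype.linearIndependent_iff.2 fun l hl j => ?_
    have h1 : ∀ χ : IrrCharacter G, ∑ i, l i * χ.1 (x i) = 0 := fun χ => by
      obtain ⟨c, hc⟩ := h χ
      simp only [hc, mul_sum]
      rw [sum_comm]
      refine sum_eq_zero fun k _ => ?_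
      have := congrFun hl k
      simp only [Finset.sum_apply, Pi.smul_apply, smul_eq_mul, Pi.zero_apply] at this
      simp only [mul_left_comm (l _), ← mul_sum, this, mul_zero]
    have h2 : ∑ i, l i * ∑ χ : IrrCharacter G, χ.1 (x i) * conj (χ.1 (x j)) = 0 := by
      simp only [mul_sum, ← mul_assoc]
      rw [sum_comm]
      simp only [← sum_mul, h1, zero_mul, sum_const_zero]
    rw [sum_eq_single j (fun i _ hij => by
      rw [column_orthogonality_of_not_isConj fun e => hij (hx _ _ e), mul_zero]) (by simp),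
      column_orthogonality_of_isConj (IsConj.refl _)] at h2
    exact (mul_eq_zero.1 h2).resolve_right (card_ne_zero _)
  have := hli.fintype_card_le_finrank
  simp at this

end Cfsg.Agent.H14.Ito
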