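import Mathlib
import Cfsg.Agent.H89.L27Defs
import Cfsg.Agent.H50.E83Mu
import Cfsg.Agent.H50.E83Asm

/-! Project L27, piece C7: the elements of order seven of `E₈(3)`. -/

set_option autoImplicit false
set_option maxRecDepth 200000

namespace Cfsg.Agent.H14.L27C7

open Equiv Cfsg.Lie Cfsg.Agent.H37 Cfsg.Agent.H40 Cfsg.Agent.H34 Cfsg.Agent.H29 Module
open Cfsg.Agent.H50.E83 Cfsg.Agent.H89.L27

/-- The label of a point. -/
def lab (a : List ℕ) (r : Rt) : ℤ := ∑ j : Fin 8, gt rcE8 r j * (a.getD j 0 : ℕ)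

/-- The number of roots with the value `k`. -/
def cnt (f : Rt → ℤ) (k : ℤ) : ℕ := z0 7 fun r => f r - k

/-- The test on the points of the alcove. -/
def ok (a : List ℕ) : Bool :=
  decide (a = [0, 0, 0, 0, 0, 0, 0, 0] ∨ cnt (lab a) 0 = 72 ∨
    (a = [1, 0, 0, 0, 0, 1, 0, 0] ∧ cnt (lab a) 0 = 30) ∨
    cnt (lab a) 1 ≠ cnt (lab a) 3 ∨ cnt (lab a) 3 ≠ cnt (lab a) 9)

theorem alc7 : allAlc [2, 3, 4, 6, 5, 4, 3, 2] 7 ok = true := by
  decide +kernel

theorem cnt_congr {f g : Rt → ℤ} (w : Perm Rt) (h : ∀ r, (f (w r) : ZMod 7) = g r) (k : ℤ) :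
    cnt f k = cnt g k :=
  z0_congr (s := 7) (f := fun r => f r - k) (g := fun r => g r - k) w fun r => by simp [h]

theorem cnt_three {f : Rt → ℤ} (w : Perm Rt) (h : ∀ r, (f (w r) : ZMod 7) = (3 : ℕ) * f r)
    (k : ℤ) : cnt f (3 * k) = cnt f k := by
  refine z0_congr (s := 7) (f := fun r => f r - 3 * k) (g := fun r => f r - k) w fun r => ?_
  have : ∀ x : ZMod 7, 3 * x = 0 ↔ x = 0 := by decide
  rw [← this (((f r - k : ℤ)) : ZMod 7)]
  simp [h, mul_sub]

/-- **C7** -/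
theorem c7 : C7Stmt := by
  intro g ζ hζ h7 h1
  obtain ⟨h, f, hl, hc, w, -, e3⟩ := ss g 7 ζ (by decide) hζ h7
  obtain ⟨u, hu, a, ha, -, hr⟩ := hl.1.alc tabOKE8 (s := 7) (by decide) (by decide) _ thE8 alc7
  have e : ∀ r, (f (u r) : ZMod 7) = lab a r := fun r => by
    rw [← hr.vN_eq (hl.1.comp hu) r]
    simp only [vN, rc_eq C8 tabOKE8]
    rfl
  have hm : mu (ι g) 1 = 8 + cnt (lab a) 0 := by
    have h0 := mu_lab hζ hl 0
    rw [zpow_zero, Units.val_one, if_pos (by decide)] at h0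
    rw [← mu_conj 1 hc, h0, ← cnt_congr u e]
    rfl
  have t := of_decide_eq_true ha
  rw [← cnt_congr u e 1, ← cnt_congr u e 3, ← cnt_congr u e 9] at t
  rcases t with rfl | t | ⟨rfl, t⟩ | t | t
  · have : h = 1 := (hl.eq_one_iff hζ).2 fun r => by
      have := e (u.symm r)
      rw [Equiv.apply_symm_apply] at this
      rw [this, lab]
      simp [Fin.sum_univ_eight]
    rw [this, isConj_one_right] at hc
    exact absurd (ι_injective (hc.trans (map_one _).symm)) h1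
  · exact Or.inl (by rw [hm, t])
  · obtain ⟨n, hn, rfl⟩ := P8.exists_lift hu
    exact Or.inr ⟨by rw [hm, t], n⁻¹ * h * n, (isConj_iff.2 ⟨n, by group⟩).trans hc,
      (hl.conj hn).congr hζ (isAdd_vN C8 _) (hr.vN_eq (hl.conj hn).1)⟩
  · exact absurd (cnt_three w e3 1).symm t
  · exact absurd (cnt_three w e3 3).symm t

end Cfsg.Agent.H14.L27C7
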