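import Mathlib
import Cfsg.Agent.H71.P3Defs

/-! Project P3, piece RHO: groups supported on a degenerate plane. -/

set_option autoImplicit false

namespace Cfsg.Agent.H14.P3Rho

open Cfsg Module Cfsg.Agent.H27 Cfsg.Agent.H71.P3
open scoped MatrixGroups

variable {F V : Type} [Field F] [AddCommGroup V] [Module F V] (S : Sp F V)

theorem Bs (x : V) : S.B x x = 0 := S.alt.self_eq_zero x

theorem Bn (x y : V) : S.B x y = -S.B y x := (S.alt.neg_eq y x).symm

/-- an isometry supported on `T` moves vectors by elements of `T` -/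
theorem supp [Finite V] {T : Submodule F V} {g : V ≃ₗ[F] V} (hg : g ∈ S.G) (h : S.Supp T g)
    (v : V) : g v - v ∈ T := by
  have := Module.Finite.of_finite (R := F) (M := V)
  rw [← LinearMap.BilinForm.orthogonal_orthogonal S.nd S.alt.isRefl T,
    LinearMap.BilinForm.mem_orthogonal_iff]
  intro n hn
  have h1 : g n = n := h n fun s hs => S.alt.isRefl _ _ (hn s hs)
  have h2 := hg n v
  rw [h1] at h2
  show S.B n (g v - v) = 0
  rw [map_sub, h2, sub_self]

theorem supp_mem [Finite V] {T : Submodule F V} {g : V ≃ₗ[F] V} (hg : g ∈ S.G) (h : S.Supp T g)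
    {v : V} (hv : v ∈ T) : g v ∈ T := by
  simpa using add_mem (supp S hg h v) hv

variable {z u w : V} (huw : S.B u w = 1) (hzu : S.B z u = 0) (hzw : S.B z w = 0)
include huw hzu hzw

theorem dec {x : V} (hx : x ∈ Submodule.span F {z, u, w}) :
    ∃ c : F, x = S.B x w • u + S.B u x • w + c • z := by
  obtain ⟨c, a, b, rfl⟩ := Submodule.mem_span_triple.1 hx
  refine ⟨c, ?_⟩
  have h1 : S.B u z = 0 := by rw [Bn, hzu, neg_zero]
  simp only [map_add, map_smul, LinearMap.add_apply, LinearMap.smul_apply, huw, hzw, h1, Bs,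
    smul_eq_mul, mul_zero, mul_one, zero_add, add_zero]
  abel

omit huw in
theorem fix_of {g : V ≃ₗ[F] V} (h : S.Supp (Submodule.span F {z, u, w}) g) {v : V}
    (h1 : S.B v z = 0) (h2 : S.B v u = 0) (h3 : S.B v w = 0) : g v = v := h v fun s hs => by
  obtain ⟨c, a, b, rfl⟩ := Submodule.mem_span_triple.1 hs
  simp [h1, h2, h3]

omit huw in
theorem fix_z {g : V ≃ₗ[F] V} (h : S.Supp (Submodule.span F {z, u, w}) g) : g z = z :=
  fix_of S hzu hzw h (Bs S z) hzu hzw

omit huw hzu hzw in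
theorem u_mem : u ∈ Submodule.span F {z, u, w} := Submodule.subset_span (by simp)

omit huw hzu hzw in
theorem w_mem : w ∈ Submodule.span F {z, u, w} := Submodule.subset_span (by simp)

omit huw hzu hzw in
/-- the matrix of `g` -/
def mat (u w : V) (g : V ≃ₗ[F] V) : Matrix (Fin 2) (Fin 2) F :=
  !![S.B (g u) w, S.B (g w) w; S.B u (g u), S.B u (g w)]

theorem det_mat [Finite V] {g : V ≃ₗ[F] V} (hg : g ∈ S.G)
    (h : S.Supp (Submodule.span F {z, u, w}) g) : (mat S u w g).det = 1 := by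
  obtain ⟨c, hc⟩ := dec S huw hzu hzw (supp_mem S hg h u_mem)
  obtain ⟨d, hd⟩ := dec S huw hzu hzw (supp_mem S hg h w_mem)
  have h1 := hg u w
  rw [mat, Matrix.det_fin_two_of]
  generalize S.B (g u) w = a1 at hc ⊢
  rw [hc, hd] at h1
  have h2 : S.B u z = 0 := by rw [Bn, hzu, neg_zero]
  have h3 : S.B w z = 0 := by rw [Bn, hzw, neg_zero]
  have h4 : S.B w u = -1 := by rw [Bn, huw]
  simp only [map_add, map_smul, LinearMap.add_apply, LinearMap.smul_apply, huw, hzw, hzu, h2, h3,
    h4, Bs, smul_eq_mul, mul_zero, mul_one, zero_add, add_zero] at h1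
  linear_combination h1

theorem mat_mul [Finite V] {g k : V ≃ₗ[F] V} (hk : k ∈ S.G)
    (h : S.Supp (Submodule.span F {z, u, w}) g) (h' : S.Supp (Submodule.span F {z, u, w}) k) :
    mat S u w (g * k) = mat S u w g * mat S u w k := by
  obtain ⟨c, hc⟩ := dec S huw hzu hzw (supp_mem S hk h' u_mem)
  obtain ⟨d, hd⟩ := dec S huw hzu hzw (supp_mem S hk h' w_mem)
  have h1 := congrArg g hc
  have h2 := congrArg g hd
  have h3 : S.B u z = 0 := by rw [Bn, hzu, neg_zero]
  simp only [map_add, map_smul, fix_z S hzu hzw h] at h1 h2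
  rw [mat, mat, mat, Matrix.mul_fin_two, LinearEquiv.mul_apply, LinearEquiv.mul_apply, h1, h2]
  simp only [map_add, map_smul, LinearMap.add_apply, LinearMap.smul_apply, hzw, h3, smul_eq_mul,
    mul_zero, add_zero, mul_comm]

omit huw hzu hzw in
theorem rho : RhoStmt := by
  intro F V _ _ _ _ _ S H hH z u w huw hzu hzw hs
  refine ⟨MonoidHom.mk' (fun g => ⟨mat S u w g, det_mat S huw hzu hzw (hH g.2) (hs g g.2)⟩)
    fun g k => Subtype.ext (mat_mul S huw hzu hzw (hH k.2) (hs g g.2) (hs k k.2)), fun g a => ?_⟩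
  obtain ⟨c, hc⟩ := dec S huw hzu hzw (supp_mem S (hH g.2) (hs g g.2)
    (add_mem (Submodule.smul_mem _ (a 0) u_mem) (Submodule.smul_mem _ (a 1) w_mem)))
  refine Submodule.mem_span_singleton.2 ⟨c, ?_⟩
  change _ = _ - (((mat S u w g).mulVec a) 0 • u + ((mat S u w g).mulVec a) 1 • w)
  have e0 : (mat S u w g).mulVec a 0 = S.B ((g : V ≃ₗ[F] V) (a 0 • u + a 1 • w)) w := by
    simp [mat, Matrix.mulVec, dotProduct, Fin.sum_univ_two, mul_comm]
  have e1 : (mat S u w g).mulVec a 1 = S.B u ((g : V ≃ₗ[F] V) (a 0 • u + a 1 • w)) := by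
    simp [mat, Matrix.mulVec, dotProduct, Fin.sum_univ_two, mul_comm]
  rw [e0, e1, eq_sub_iff_add_eq, add_comm, ← hc]

theorem mem_Q {g : V ≃ₗ[F] V} (hg : g ∈ S.G) (h : S.Supp (Submodule.span F {z, u, w}) g)
    (h1 : g u - u ∈ F ∙ z) (h2 : g w - w ∈ F ∙ z) : g ∈ S.Q z := by
  refine ⟨hg, fix_z S hzu hzw h, fun v hv => ?_⟩
  have h3 : S.B u z = 0 := by rw [Bn, hzu, neg_zero]
  have h4 : S.B w z = 0 := by rw [Bn, hzw, neg_zero]
  have h5 : S.B w u = -1 := by rw [Bn, huw]
  have h6 := fix_of S hzu hzw h (v := v - S.B v w • u - S.B u v • w) (by simp [hv, h3, h4])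
    (by simp [h5, Bs, Bn S v u]) (by simp [huw, Bs])
  have h7 : g v - v = S.B v w • (g u - u) + S.B u v • (g w - w) := by
    simp only [map_sub, map_smul] at h6
    rw [smul_sub, smul_sub]
    linear_combination (norm := abel) h6
  rw [h7]
  exact add_mem (Submodule.smul_mem _ _ h1) (Submodule.smul_mem _ _ h2)

omit huw hzu hzw in
theorem mj : MjStmt := by
  intro F V _ _ _ _ _ S K hK nq z u w z0 huw hzu hzw g hg h
  refine ⟨fun h1 h2 => nq z z0 g hg (mem_Q S huw hzu hzw (hK hg) h h1 h2), fun h1 h2 => ?_⟩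
  have gz := fix_z S hzu hzw h
  obtain ⟨a, ha⟩ := Submodule.mem_span_singleton.1 h1
  obtain ⟨b, hb⟩ := Submodule.mem_span_singleton.1 h2
  have gu : g u = a • z - u := by rw [ha]; abel
  have gw : g w = b • z - w := by rw [hb]; abel
  have t2 := S.two_ne_zero
  have h3 : S.B u z = 0 := by rw [Bn, hzu, neg_zero]
  have h4 : S.B w z = 0 := by rw [Bn, hzw, neg_zero]
  have gg : g * g = 1 := nq z z0 _ (mul_mem hg hg) (mem_Q S huw hzu hzw (hK (mul_mem hg hg))
    (fun v hv => by rw [LinearEquiv.mul_apply, h v hv, h v hv])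
    (by simp [gu, gz]) (by simp [gw, gz]))
  have gv : ∀ v, g (g v) = v := fun v => DFunLike.congr_fun gg v
  have k : ∀ (x : V) (c : F), g x = c • z - x → g (x - (c / 2) • z) = -(x - (c / 2) • z) := by
    intro x c e
    rw [map_sub, map_smul, e, gz]
    have : c = c / 2 + c / 2 := by field_simp; ring
    conv_lhs => rw [this, add_smul]
    rw [← this]
    abel
  have k1 := k u a gu
  have k2 := k w b gw
  have huw' : S.B (u - (a / 2) • z) (w - (b / 2) • z) = 1 := by simp [huw, hzw, h3, Bs]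
  have hzu' : S.B z (u - (a / 2) • z) = 0 := by simp [hzu, Bs]
  have hzw' : S.B z (w - (b / 2) • z) = 0 := by simp [hzw, Bs]
  have hT : Submodule.span F {z, u, w} ≤
      Submodule.span F {z, u - (a / 2) • z, w - (b / 2) • z} := by
    refine Submodule.span_le.2 ?_
    have z1 : z ∈ Submodule.span F {z, u - (a / 2) • z, w - (b / 2) • z} :=
      Submodule.subset_span (by simp)
    rintro _ (rfl | rfl | rfl)
    · exact z1
    · simpa using add_mem u_mem (Submodule.smul_mem _ (a / 2) z1)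
    · simpa using add_mem w_mem (Submodule.smul_mem _ (b / 2) z1)
  generalize u - (a / 2) • z = u' at k1 huw' hzu' hT
  generalize w - (b / 2) • z = w' at k2 huw' hzw' hT
  refine ⟨Submodule.span F {u', w'}, ⟨u', w', huw', rfl⟩, fun v hv => ?_, fun v hv => ?_⟩
  · obtain ⟨c, hc⟩ := dec S huw' hzu' hzw' (hT (supp S (hK hg) h v))
    have k3 : ∀ x, g x = -x → S.B v x = 0 → S.B (g v - v) x = 0 := fun x e1 e2 => by
      have := hK hg v x
      rw [e1, map_neg, e2, neg_eq_zero] at this
      rw [map_sub, LinearMap.sub_apply, this, e2, sub_zero]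
    rw [k3 w' k2 (hv _ (Submodule.subset_span (by simp))), Bn S u',
      k3 u' k1 (hv _ (Submodule.subset_span (by simp))), neg_zero, zero_smul, zero_smul, zero_add,
      zero_add] at hc
    have h5 := congrArg g hc
    rw [map_sub, gv, map_smul, gz, ← hc] at h5
    have h6 : (2 : F) • (g v - v) = 0 := by
      rw [two_smul]
      nth_rewrite 1 [← h5]
      abel
    exact sub_eq_zero.1 ((smul_eq_zero.1 h6).resolve_left t2)
  · obtain ⟨c, d, rfl⟩ := Submodule.mem_span_pair.1 hv
    rw [map_add, map_smul, map_smul, k1, k2, smul_neg, smul_neg, neg_add]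

end Cfsg.Agent.H14.P3Rho
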