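import Mathlib
import Cfsg.Agent.H71.P3Defs
import Cfsg.Agent.H14.P3Rho

/-! Project P3, piece NJ: no reflections in hyperbolic lines. -/

set_option autoImplicit false

namespace Cfsg.Agent.H14.P3Nj

open Cfsg Module Cfsg.Agent.H27 Cfsg.Agent.H71.P3 Cfsg.Agent.H14.P3Rho
open scoped Pointwise

variable {F V : Type} [Field F] [AddCommGroup V] [Module F V] (S : Sp F V)

theorem span_eq {a b u w : V} (h1 : u ∈ Submodule.span F {a, b}) (h2 : w ∈ Submodule.span F {a, b})
    (h3 : a ∈ Submodule.span F {u, w}) (h4 : b ∈ Submodule.span F {u, w}) :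
    Submodule.span F {a, b} = Submodule.span F {u, w} :=
  le_antisymm (Submodule.span_le.2 (by rintro _ (rfl | rfl); exacts [h3, h4]))
    (Submodule.span_le.2 (by rintro _ (rfl | rfl); exacts [h1, h2]))

theorem hyp_ext {l : Submodule F V} (h : S.Hyp l) {u : V} (hu : u ∈ l) (u0 : u ≠ 0) :
    ∃ w, S.B u w = 1 ∧ l = Submodule.span F {u, w} := by
  obtain ⟨a, b, hab, rfl⟩ := h
  obtain ⟨c, d, rfl⟩ := Submodule.mem_span_pair.1 hu
  have hba : S.B b a = -1 := by rw [Bn, hab]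
  by_cases c0 : c = 0
  · subst c0
    have d0 : d ≠ 0 := fun e => u0 (by simp [e])
    refine ⟨-d⁻¹ • a, by simp [hba, d0], span_eq hu
      (Submodule.mem_span_pair.2 ⟨-d⁻¹, 0, by simp⟩)
      (Submodule.mem_span_pair.2 ⟨0, -d, by simp [smul_smul, d0]⟩)
      (Submodule.mem_span_pair.2 ⟨d⁻¹, 0, by simp [smul_smul, d0]⟩)⟩
  · refine ⟨c⁻¹ • b, by simp [hab, Bs, c0], span_eq hu
      (Submodule.mem_span_pair.2 ⟨0, c⁻¹, by simp⟩)
      (Submodule.mem_span_pair.2 ⟨c⁻¹, -d, by simp [smul_smul, c0, mul_comm]⟩)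
      (Submodule.mem_span_pair.2 ⟨0, c, by simp [smul_smul, c0]⟩)⟩

theorem meet : MeetStmt := by
  intro F V _ _ _ _ _ S l m hl hm ne hb
  obtain ⟨u, ⟨ul, um⟩, u0⟩ := Submodule.exists_mem_ne_zero_of_ne_bot hb
  obtain ⟨w, h1, rfl⟩ := hyp_ext S hl ul u0
  obtain ⟨w', h2, rfl⟩ := hyp_ext S hm um u0
  have h3 : S.B w u = -1 := by rw [Bn, h1]
  have h4 : S.B w' u = -1 := by rw [Bn, h2]
  have e : Submodule.span F {u, w'} =
      Submodule.span F {u, w + (w' - w - S.B w' w • u)} :=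
    span_eq um (Submodule.mem_span_pair.2 ⟨-S.B w' w, 1, by simp; abel⟩)
      (Submodule.subset_span (by simp)) (Submodule.mem_span_pair.2 ⟨S.B w' w, 1, by simp; abel⟩)
  refine ⟨w' - w - S.B w' w • u, u, w, fun z0 => ne ?_, h1, by simp [h3, h4, Bs],
    by simp [h1, Bs], rfl, e⟩
  rw [e, z0, add_zero]

theorem nj (mj : MjStmt) (meet : MeetStmt) (spr : SprStmt) : NjStmt := by
  intro F V _ _ _ _ _ S K hK pt nq l0 h0 g0 hg0 j0
  have t2 := S.two_ne_zero
  refine spr S K hK pt (fun l => S.Hyp l ∧ ∃ g ∈ K, S.IsJ l g) ⟨l0, h0, g0, hg0, j0⟩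
    (fun l h => h.1) ?_ ?_ ?_
  · rintro k hk l ⟨h1, g, hg, j1, j2⟩
    refine ⟨h1.smul (hK hk), k * g * k⁻¹, mul_mem (mul_mem hk hg) (inv_mem hk),
      j1.conj (hK hk), fun v hv => ?_⟩
    rw [LinearEquiv.mul_apply, LinearEquiv.mul_apply, j2 (k⁻¹ v) (mem_smul.1 hv), map_neg]
    exact congrArg _ (k.apply_symm_apply v)
  · rintro l m ⟨h1, g, hg, g1, g2⟩ ⟨h2, h, hh, j1, j2⟩ ne
    by_contra hb
    obtain ⟨z, u, w, z0, huw, hzu, hzw, rfl, rfl⟩ := meet S l m h1 h2 ne hb
    have zT : z ∈ Submodule.span F {z, u, w} := Submodule.subset_span (by simp)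
    have sp : S.Supp (Submodule.span F {z, u, w}) (g * h) := fun v hv => by
      rw [LinearEquiv.mul_apply, j1 v fun s hs => hv s ?_, g1 v fun s hs => hv s ?_]
      · exact Submodule.span_mono (by simp) hs
      · exact (Submodule.span_le.2 (by
          rintro _ (rfl | rfl)
          exacts [u_mem, add_mem w_mem zT]) : _ ≤ Submodule.span F {z, u, w}) hs
    have gz : g z = z := g1 z fun s hs => by
      obtain ⟨a, b, rfl⟩ := Submodule.mem_span_pair.1 hs
      simp [hzu, hzw]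
    have e1 : (g * h) (w + z) = w - z := by
      rw [LinearEquiv.mul_apply, j2 _ (Submodule.subset_span (by simp)), map_neg, map_add, gz,
        g2 _ (Submodule.subset_span (by simp))]
      abel
    have e2 : (g * h) u = u := by
      rw [LinearEquiv.mul_apply, j2 _ (Submodule.subset_span (by simp)), map_neg,
        g2 _ (Submodule.subset_span (by simp)), neg_neg]
    have e3 := (mj S K hK nq z u w z0 huw hzu hzw _ (mul_mem hg hh) sp).1
      (by rw [e2, sub_self]; exact zero_mem _) (by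
        rw [map_add, fix_z S hzu hzw sp, ← eq_sub_iff_add_eq] at e1
        rw [e1]
        exact Submodule.mem_span_singleton.2 ⟨-2, by rw [neg_smul, two_smul]; abel⟩)
    rw [e3, LinearEquiv.coe_one, id, sub_eq_add_neg, add_right_inj, ← add_eq_zero_iff_eq_neg,
      ← two_smul F] at e1
    exact z0 ((smul_eq_zero.1 e1).resolve_left t2)
  · rintro l ⟨-, g, hg, j1, j2⟩
    refine ⟨g, hg, j1, fun v hv e => ?_⟩
    rw [j2 v hv, neg_eq_iff_add_eq_zero, ← two_smul F] at e
    exact (smul_eq_zero.1 e).resolve_left t2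

end Cfsg.Agent.H14.P3Nj
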