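import Mathlib
import Cfsg.Prelude.Def_CaseTheorems
import Cfsg.Prelude.Def_Sz
import Cfsg.Prelude.Def_Transfer
import Cfsg.Agent.H92.ClassSize

/-! Statements of the pieces of the proof of S3193 and S3194 (simple groups of conjugate type
rank four and five).  The paper proofs are in `stubs/notes/h14_rank45.md`. -/

set_option autoImplicit false

namespace Cfsg.Agent.H14.Rk

open Subgroup Cfsg.Agent.H92

universe u

/-- The set of indices of centralizers of non-central elements. -/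
def sizes (G : Type u) [Group G] : Set ℕ := {m : ℕ | ∃ x : G, x ∉ center G ∧ m = cs[x]}

/-- All non-maximal centralizers of even order have order `β`. -/
def Star (G : Type u) [Group G] (β : ℕ) : Prop :=
  ∀ u v : G, v ≠ 1 → Ce[u] < Ce[v] → Even (Nat.card Ce[u]) → Nat.card Ce[u] = β

/-- A solvable group whose non-central primary elements have centralizers of one order. -/
def NilStmt : Prop := ∀ (K : Type u) [Group K] [Finite K] (β : ℕ), Group.IsSolvable K →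
  (∀ (r : ℕ) (g : K), r.Prime → (∃ k, orderOf g = r ^ k) → g ∉ center K →
    Nat.card Ce[g] = β) → Group.IsNilpotent K

def ExpStmt : Prop := ∀ (K : Type u) [Group K] [Finite K] (H : Subgroup K),
  IsMulCommutative H → Odd (Nat.card H) → (∃ k, H.index = 2 ^ k) →
  (∀ v : K, (∃ k, 2 ≤ k ∧ orderOf v = 2 ^ k) → ∃ j, cs[v] = 2 ^ j) →
  (∃ v : K, orderOf v = 4) → HasNormalPComplement 2 K

/-- Involution centralizers are solvable, and 2-nilpotent or without elements of order four. -/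
def InvC (G : Type u) [Group G] : Prop := ∀ t : G, orderOf t = 2 →
  Group.IsSolvable Ce[t] ∧ (HasNormalPComplement 2 Ce[t] ∨ ∀ v ∈ Ce[t], orderOf v ≠ 4)

def P1Stmt : Prop := ∀ (G : Type u) [Group G] [Finite G] (β : ℕ), Star G β → InvC G

def P2Stmt : Prop := ∀ (G : Type u) [Group G] [Finite G] (β : ℕ), Star G β → InvC G →
  (∀ t : G, orderOf t = 2 → HasNormalPComplement 2 Ce[t]) ∨
    ∃ S : Sylow 2 G, IsMulCommutative (S : Subgroup G)

/-- The list of S3214. -/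
def InList (G : Type u) [Group G] : Prop :=
  (∃ (F : Type) (_ : Field F) (_ : Fintype F), 3 < Fintype.card F ∧
      Nonempty (G ≃* Matrix.ProjectiveSpecialLinearGroup (Fin 2) F)) ∨
    Cfsg.Lie.IsoSuzuki G ∨ Nonempty (G ≃* ↥(alternatingGroup (Fin 7))) ∨
    (∃ (F : Type) (_ : Field F) (_ : Fintype F), Fintype.card F = 4 ∧
      Nonempty (G ≃* Matrix.ProjectiveSpecialLinearGroup (Fin 3) F))

def List4Stmt : Prop := ∀ (G : Type u) [Group G] [Finite G] [IsSimpleGroup G],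
  ¬ IsMulCommutative G → InList G → (sizes G).ncard = 4 →
  ∃ (F : Type) (_ : Field F) (_ : Fintype F), Odd (Fintype.card F) ∧ 7 ≤ Fintype.card F ∧
    Nonempty (G ≃* Matrix.ProjectiveSpecialLinearGroup (Fin 2) F)

def Conv4Stmt : Prop := ∀ (G : Type u) [Group G] [Finite G] (F : Type) [Field F] [Fintype F],
  Odd (Fintype.card F) → 7 ≤ Fintype.card F →
  Nonempty (G ≃* Matrix.ProjectiveSpecialLinearGroup (Fin 2) F) →
  IsSimpleGroup G ∧ ¬ IsMulCommutative G ∧ (sizes G).ncard = 4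

def List5Stmt : Prop := ∀ (G : Type u) [Group G] [Finite G] [IsSimpleGroup G],
  ¬ IsMulCommutative G → InList G → (sizes G).ncard = 5 →
  Cfsg.Lie.IsoSuzuki G ∨ ∃ (F : Type) (_ : Field F) (_ : Fintype F), Fintype.card F = 4 ∧
    Nonempty (G ≃* Matrix.ProjectiveSpecialLinearGroup (Fin 3) F)

/-- `B` contains the centralizer of each of its non-identity elements. -/
def CC {G : Type u} [Group G] (B : Subgroup G) : Prop := ∀ b ∈ B, b ≠ 1 → Ce[b] ≤ B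

/-- The centralizer of `x` is transitive on the other conjugates of `x`. -/
def TwoTr {G : Type u} [Group G] (x : G) : Prop :=
  ∀ y z : G, IsConj x y → IsConj x z → y ≠ x → z ≠ x → ∃ c ∈ Ce[x], c * y * c⁻¹ = z

def RegCharStmt : Prop := ∀ (G : Type u) [Group G] [Finite G] [IsSimpleGroup G],
  ¬ IsMulCommutative G → ∀ (B : Subgroup G) (x : G), Group.IsNilpotent B → B ≠ ⊥ → CC B →
  ¬ IsPrimePow (Nat.card B) → x ≠ 1 → cs[x] = Nat.card B → TwoTr x

def TwoTStmt : Prop := ∀ (G : Type u) [Group G] [Finite G] [IsSimpleGroup G],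
  ¬ IsMulCommutative G → ∀ x : G, x ≠ 1 → TwoTr x →
  (∀ (s : ℕ) (d : G), s.Prime → s ∣ cs[x] → d ≠ 1 → (∃ k, orderOf d = s ^ k) →
    (Nat.card Ce[d]).Coprime (Nat.card Ce[x])) → False

def RegStmt : Prop := ∀ (G : Type u) [Group G] [Finite G] [IsSimpleGroup G],
  ¬ IsMulCommutative G → ∀ (B : Subgroup G) (x : G), Group.IsNilpotent B → CC B →
  x ≠ 1 → cs[x] = Nat.card B → False

/-- Two heads `a` and `c`. -/
structure Two (G : Type u) [Group G] (a c : ℕ) : Prop where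
  cop : a.Coprime c
  ea : ∃ x : G, x ≠ 1 ∧ cs[x] = a
  ec : ∃ y : G, y ≠ 1 ∧ cs[y] = c
  cover : ∀ g : G, g ≠ 1 → a ∣ cs[g] ∨ c ∣ cs[g]

def FreeStmt : Prop := ∀ (G : Type u) [Group G] [Finite G] [IsSimpleGroup G],
  ¬ IsMulCommutative G → ∀ a c : ℕ, Two G a c →
  (∀ g : G, g ≠ 1 → ¬ a ∣ cs[g] → cs[g] = c) → False

def T210Stmt : Prop := ∀ (G : Type u) [Group G] [Finite G] [IsSimpleGroup G],
  ¬ IsMulCommutative G → ∀ a c c' : ℕ, Two G a c →
  (∀ g : G, g ≠ 1 → ¬ a * c ∣ cs[g]) →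
  (∀ g : G, g ≠ 1 → ¬ a ∣ cs[g] → cs[g] = c ∨ cs[g] = c') → Nat.card G = a * c

def T111Stmt : Prop := ∀ (G : Type u) [Group G] [Finite G] [IsSimpleGroup G],
  ¬ IsMulCommutative G → ∀ a c a' c' m : ℕ, Two G a c →
  ¬ c ∣ a' → ¬ a ∣ c' → a ∣ a' → c ∣ c' → a * c ∣ m → (∃ w : G, w ≠ 1 ∧ cs[w] = m) →
  (∀ g : G, g ≠ 1 → cs[g] = a ∨ cs[g] = a' ∨ cs[g] = c ∨ cs[g] = c' ∨ cs[g] = m) → False

/-- The last configuration: `G` has order `a * c` with `a` odd. -/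
structure OddH (G : Type u) [Group G] (a c β : ℕ) : Prop where
  card : Nat.card G = a * c
  cop : a.Coprime c
  odd : Odd a
  ex : ∃ x : G, x ≠ 1 ∧ cs[x] = a
  ey : ∃ y : G, y ≠ 1 ∧ Nat.card Ce[y] = a
  dvd : β ∣ a
  ne : β ≠ a
  tri : ∀ g : G, g ≠ 1 → Nat.card Ce[g] ∣ c ∨ Nat.card Ce[g] = a ∨ Nat.card Ce[g] = β

def OCCStmt : Prop := ∀ (G : Type u) [Group G] [Finite G] [IsSimpleGroup G],
  ¬ IsMulCommutative G → ∀ a c β : ℕ, OddH G a c β →
  ∀ y : G, y ≠ 1 → Nat.card Ce[y] = a → ¬ Group.IsNilpotent Ce[y]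

/-- The local structure in the last configuration. -/
structure OddS (G : Type u) [Group G] (p : ℕ) (P₁ H : Subgroup G) : Prop where
  pp : p.Prime
  p2 : p ≠ 2
  pg : IsPGroup p P₁
  P_ne : P₁ ≠ ⊥
  H_ne : H ≠ ⊥
  H_cop : ¬ p ∣ Nat.card H
  H_hall : (Nat.card H).Coprime H.index
  cent : ∀ h ∈ H, h ≠ 1 → Ce[h] = P₁ ⊔ H
  comm : ∀ a ∈ P₁ ⊔ H, ∀ b ∈ P₁ ⊔ H, a * b = b * a
  cover : ∀ g : G, (∃ k, orderOf g = p ^ k) → ∃ w : G, w * g * w⁻¹ ∈ P₁
  notSyl : p ∣ P₁.index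
  size : ∀ g : G, g ≠ 1 → (∃ k, orderOf g = p ^ k) →
    (∃ k, Nat.card Ce[g] = p ^ k * Nat.card H) ∧
      (Nat.card Ce[g] = Nat.card ↥(P₁ ⊔ H) ∨ ¬ p ∣ cs[g])
  odd : ∀ X : Subgroup G, X ≠ ⊥ → IsPGroup p X → Odd (Nat.card (normalizer (X : Set G)))

def OddBStmt : Prop := ∀ (G : Type u) [Group G] [Finite G] [IsSimpleGroup G],
  ¬ IsMulCommutative G → ∀ a c β : ℕ, OddH G a c β → ∃ (p : ℕ) (P₁ H : Subgroup G), OddS G p P₁ H

def MBStmt : Prop := ∀ (M : Type u) [Group M] [Finite M] (p : ℕ) (P₁ H : Subgroup M) (τ : M),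
  Group.IsSolvable M → p.Prime → pPrimeCore p M = ⊥ → IsPGroup p P₁ → H ≠ ⊥ →
  ¬ p ∣ Nat.card H → (Nat.card H).Coprime H.index → (∀ h ∈ H, h ≠ 1 → Ce[h] = P₁ ⊔ H) →
  (∀ g ∈ pCore p M, ∃ w : M, w * g * w⁻¹ ∈ P₁) →
  τ ∈ normalizer (H : Set M) → τ ∉ P₁ ⊔ H →
  (∀ (r : ℕ) (g : M), r.Prime → r ≠ p → ¬ r ∣ Nat.card H → g ≠ 1 → (∃ k, orderOf g = p ^ k) →
    ¬ r ∣ Nat.card Ce[g]) → False

def OddCStmt : Prop := ∀ (G : Type u) [Group G] [Finite G] [IsSimpleGroup G],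
  ¬ IsMulCommutative G → ∀ (p : ℕ) (P₁ H : Subgroup G), OddS G p P₁ H → False

end Cfsg.Agent.H14.Rk
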