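import Mathlib
import Cfsg.Agent.H14.RkDefs
import Cfsg.Agent.H15.TIFN
import Cfsg.Agent.H11.FrobKernel
import Cfsg.Agent.H11.PermChar
import Cfsg.Agent.S1528
import Cfsg.Agent.S0143

/-! The character-theoretic part of `RegStmt`. -/

set_option autoImplicit false

namespace Cfsg.Agent.H14.Rk

open Subgroup Cfsg Cfsg.Agent.H92 Cfsg.Agent.H11
open scoped ComplexConjugate

universe u

theorem exists_lin (K : Type*) [Group K] [Finite K] [Nontrivial K] (h : Group.IsNilpotent K) :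
    ∃ (lam : K →* ℂˣ) (g : K), lam g ≠ 1 := by
  have hs : Group.IsSolvable K := inferInstance
  have hlt : commutator K < ⊤ := Group.IsSolvable.commutator_lt_top_of_nontrivial K
  obtain ⟨g, -, hg⟩ := SetLike.exists_of_lt hlt
  obtain ⟨lam, -, h⟩ := exists_monoidHom_ne_one (commutator K) le_rfl hg
  exact ⟨lam, g, h⟩

variable {G : Type u} [Group G]

/-- A non-principal irreducible character constant on `B \ 1` has degree at least `|B| - 1`. -/
theorem deg_ge_of_const [Fintype G] [IsSimpleGroup G] {B : Subgroup G} (hB : B ≠ ⊥)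
    (hnil : Group.IsNilpotent B) {ψ : G → ℂ} (hψ : IsIrrCharacter G ψ) (h1 : ψ ≠ fun _ => 1)
    (hc : ∀ a ∈ B, ∀ b ∈ B, a ≠ 1 → b ≠ 1 → ψ a = ψ b) {n : ℕ} (hn : ψ 1 = n) :
    Nat.card B - 1 ≤ n := by
  classical
  have : Nontrivial B := (Subgroup.nontrivial_iff_ne_bot B).2 hB
  obtain ⟨lam, g, hg⟩ := exists_lin B hnil
  have hg1 : g ≠ 1 := by rintro rfl; simp at hg
  set c := ψ g with hcdef
  have hres := isCharacter_restrict (isCharacter_of_irr hψ) B
  obtain ⟨m, hm⟩ := exists_nat_classInner hres (isCharacter_one (G := B))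
  obtain ⟨k, hk⟩ := exists_nat_classInner hres (isCharacter_monoidHom lam)
  have hval : ∀ b : B, ψ b = c + if b = 1 then (n : ℂ) - c else 0 := by
    intro b
    split_ifs with hb
    · subst hb; simp [hn]
    · rw [add_zero]
      exact hc b b.2 g g.2 (fun h => hb (Subtype.ext h)) (fun h => hg1 (Subtype.ext h))
  have hlam0 : ∑ b : B, conj (lam b : ℂ) = 0 := by
    have h0 : classInner (fun _ : B => (1 : ℂ)) (fun b => (lam b : ℂ)) = 0 :=
      classInner_irr_of_ne isIrrCharacter_one (isIrrCharacter_monoidHom lam) fun h => hg (by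
        have := congrFun h g
        exact Units.ext this.symm)
    have := card_mul_classInner (fun _ : B => (1 : ℂ)) (fun b => (lam b : ℂ))
    rw [h0, mul_zero] at this
    simpa using this.symm
  have e1 : (Nat.card B : ℂ) * m = Nat.card B * c + (n - c) := by
    rw [← hm, card_mul_classInner]
    simp only [hval, map_one, mul_one, Finset.sum_add_distrib, Finset.sum_ite_eq', Finset.mem_univ,
      if_true, Finset.sum_const, Finset.card_univ, nsmul_eq_mul, Nat.card_eq_fintype_card]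
  have e2 : (Nat.card B : ℂ) * k = n - c := by
    rw [← hk, card_mul_classInner]
    simp only [hval, add_mul, Finset.sum_add_distrib, ← Finset.mul_sum, hlam0, ite_mul, zero_mul,
      Finset.sum_ite_eq', Finset.mem_univ, if_true, map_one, Units.val_one, mul_one, mul_zero,
      zero_add]
  have hB0 : (Nat.card B : ℂ) ≠ 0 := card_ne_zero B
  have e3 : c = m - k := by
    apply mul_left_cancel₀ hB0
    rw [mul_sub, e1, e2]; ring
  have e4 : (n : ℂ) + k = m + Nat.card B * k := by rw [e2, e3]; ring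
  have e5 : n + k = m + Nat.card B * k := by exact_mod_cast e4
  have hk0 : k ≠ 0 := by
    rintro rfl
    have : ψ g = ψ 1 := by
      rw [hn]
      have : (n : ℂ) - c = 0 := by rw [← e2]; simp
      exact (sub_eq_zero.1 this).symm
    have hm := (mem_charKer_irr_iff hψ).2 this
    rw [charKer_eq_bot_of_isSimpleGroup hψ h1, mem_bot] at hm
    exact hg1 (Subtype.ext hm)
  obtain ⟨k, rfl⟩ := Nat.exists_eq_succ_of_ne_zero hk0
  have hpos : 0 < Nat.card B := Nat.card_pos
  obtain ⟨a, ha⟩ := Nat.exists_eq_succ_of_ne_zero hpos.ne'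
  rw [ha] at e5 ⊢
  simp only [Nat.succ_eq_add_one] at e5 ⊢
  have : 0 ≤ a * k := Nat.zero_le _
  simp only [Nat.add_sub_cancel]
  nlinarith

theorem CC.ti [Finite G] {B : Subgroup G} (hB : B ≠ ⊥) (hnil : Group.IsNilpotent B) (hC : CC B) :
    ∀ g : G, g ∉ normalizer (B : Set G) → ∀ k ∈ B, g * k * g⁻¹ ∈ B → k = 1 := by
  intro g hg k hk hgk
  by_contra hk1
  have : Nontrivial B := (Subgroup.nontrivial_iff_ne_bot B).2 hB
  obtain ⟨z, hz, hz1⟩ := (Subgroup.bot_or_exists_ne_one _).resolve_left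
    (Group.IsNilpotent.center_ne_bot B)
  have hzc : ∀ b ∈ B, Commute b (z : G) := fun b hb =>
    congrArg Subtype.val (mem_center_iff.1 hz ⟨b, hb⟩)
  have h1 : g⁻¹ * z * g ∈ B := by
    refine hC k hk hk1 (mem_C.2 ?_)
    have := (hzc _ hgk).symm
    have h2 : g⁻¹ * z * g * k = k * (g⁻¹ * z * g) := by
      calc g⁻¹ * z * g * k = g⁻¹ * (z * (g * k * g⁻¹)) * g := by group
        _ = g⁻¹ * ((g * k * g⁻¹) * z) * g := by rw [this.eq]
        _ = _ := by group
    exact h2
  have h2 : ∀ b ∈ B, g⁻¹ * b * g ∈ B := by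
    intro b hb
    refine hC _ h1 (fun h => hz1 (Subtype.ext ?_)) (mem_C.2 ?_)
    · have : (z : G) = g * (g⁻¹ * z * g) * g⁻¹ := by group
      rw [this, h]; simp
    · have := hzc b hb
      calc g⁻¹ * b * g * (g⁻¹ * z * g) = g⁻¹ * (b * z) * g := by group
        _ = g⁻¹ * (z * b) * g := by rw [this.eq]
        _ = _ := by group
  refine hg ((normalizer (B : Set G)).inv_mem_iff.1 ?_)
  exact mem_normalizer_fintype (fun b hb => by simpa using h2 b hb)

/-- Each Sylow subgroup of `B` is larger than the index of `B` in its normalizer. -/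
theorem CC.index_lt [Finite G] {B : Subgroup G} (hnil : Group.IsNilpotent B) (hC : CC B)
    {p : ℕ} (hp : p.Prime) (hd : p ∣ Nat.card B) :
    (B.subgroupOf (normalizer (B : Set G))).index + 1 ≤ p ^ (Nat.card B).factorization p := by
  classical
  have : Fact p.Prime := ⟨hp⟩
  set N := normalizer (B : Set G)
  obtain ⟨y, hy⟩ := exists_prime_orderOf_dvd_card' p hd
  obtain ⟨P⟩ : Nonempty (Sylow p B) := inferInstance
  have hPn : (P : Subgroup B).Normal := Sylow.normal_of_normalizerCondition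
    Group.normalizerCondition_of_isNilpotent P
  have hy1 : (y : G) ≠ 1 := by
    intro h
    have : y = 1 := Subtype.ext h
    rw [this, orderOf_one] at hy
    exact hp.one_lt.ne hy
  have h1 := card_conjSet_mul N (y : G)
  have h2 : Nat.card ↥(N ⊓ Ce[(y : G)]) ≤ Nat.card B :=
    card_le_of_le (inf_le_right.trans (hC y y.2 hy1))
  have h3 : (B.subgroupOf N).index * Nat.card B = Nat.card N := by
    rw [← card_subgroupOf_of_le (le_normalizer : B ≤ N)]
    exact index_mul_card _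
  have h4 : (B.subgroupOf N).index ≤ Nat.card (conjSet N (y : G)) := by
    have hpos : 0 < Nat.card B := Nat.card_pos
    refine Nat.le_of_mul_le_mul_right ?_ hpos
    rw [h3, ← h1]
    exact Nat.mul_le_mul_left _ h2
  have h5 : insert (1 : G) (conjSet N (y : G)) ⊆ ((P : Subgroup B).map B.subtype : Set G) := by
    rintro w (rfl | ⟨n, hn, rfl⟩)
    · exact one_mem _
    · have hw : n * y * n⁻¹ ∈ B := (mem_normalizer_iff.1 hn y).1 y.2
      refine ⟨⟨_, hw⟩, mem_sylow_of_normal P ⟨1, ?_⟩, rfl⟩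
      rw [pow_one, ← hy, ← Subgroup.orderOf_coe, ← Subgroup.orderOf_coe]
      exact orderOf_conj _ _
  have h6 : (1 : G) ∉ conjSet N (y : G) := by
    rintro ⟨n, -, hn⟩
    apply hy1
    have : (y : G) = n⁻¹ * (n * y * n⁻¹) * n := by group
    rw [this, hn]; simp
  have h7 := Set.ncard_le_ncard h5 (Set.toFinite _)
  rw [Set.ncard_insert_of_notMem h6 (Set.toFinite _)] at h7
  rw [← P.card_eq_multiplicity, ← card_map_of_injective B.subtype_injective]
  have h8 : Nat.card (conjSet N (y : G)) = (conjSet N (y : G)).ncard := Nat.card_coe_set_eq _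
  have h9 : Nat.card ((P : Subgroup B).map B.subtype) =
      ((P : Subgroup B).map B.subtype : Set G).ncard := Nat.card_coe_set_eq _
  omega

theorem CC.index_sq_lt [Finite G] {B : Subgroup G} (hB : B ≠ ⊥) (hnil : Group.IsNilpotent B)
    (hC : CC B) (hpp : ¬ IsPrimePow (Nat.card B)) :
    (B.subgroupOf (normalizer (B : Set G))).index ^ 2 < Nat.card B - 1 := by
  have h1 : 1 < Nat.card B := (one_lt_card_iff_ne_bot B).2 hB
  obtain ⟨p, hp, hd⟩ := Nat.exists_prime_and_dvd h1.ne'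
  have : ∃ q : ℕ, q.Prime ∧ q ∣ Nat.card B ∧ q ≠ p := by
    by_contra hq
    push Not at hq
    obtain ⟨k, hk⟩ := (eq_pow_iff_forall hp (by omega)).2 hq
    refine hpp ⟨p, k, hp.prime, ?_, hk.symm⟩
    rcases k with _ | k
    · rw [pow_zero] at hk; omega
    · omega
  obtain ⟨q, hq, hqd, hqp⟩ := this
  have a1 := hC.index_lt hnil hp hd
  have a2 := hC.index_lt hnil hq hqd
  have a3 : p ^ (Nat.card B).factorization p * q ^ (Nat.card B).factorization q ∣ Nat.card B :=
    Nat.Coprime.mul_dvd_of_dvd_of_dvd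
      (Nat.Coprime.pow _ _ ((Nat.coprime_primes hp hq).2 hqp.symm))
      (Nat.ordProj_dvd _ _) (Nat.ordProj_dvd _ _)
  have a4 := Nat.le_of_dvd (by omega) a3
  have a5 := Nat.mul_le_mul a1 a2
  have a6 : 0 < (B.subgroupOf (normalizer (B : Set G))).index :=
    Nat.pos_of_ne_zero index_ne_zero_of_finite
  generalize (B.subgroupOf (normalizer (B : Set G))).index = e at *
  have : (e + 1) * (e + 1) ≤ Nat.card B := a5.trans a4
  have : e ^ 2 + 1 < Nat.card B := by nlinarith
  omega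

section Coh

variable [Fintype G] [IsSimpleGroup G] {B N : Subgroup G} [Fintype N] [(B.subgroupOf N).Normal]

/-- The data of a coherent extension. -/
structure CohD (B N : Subgroup G) [Fintype N] (S : Set (N → ℂ))
    (star : (N → ℂ) → (G → ℂ)) : Prop where
  ne : B ≠ ⊥
  nil : Group.IsNilpotent B
  cc : CC B
  le : B ≤ N
  hS : S = {χ : N → ℂ | IsIrrCharacter N χ ∧ ∃ k : N, (k : G) ∈ B ∧ χ k ≠ χ 1}
  two : ∃ χ ∈ S, ∃ ξ ∈ S, χ ≠ ξ
  iso : IsLinearIsometryOn (zspan S) star
  ext : ∀ α ∈ zspanOn S ({1}ᶜ : Set N), star α = indFun N α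

namespace CohD

variable {S : Set (N → ℂ)} {star : (N → ℂ) → (G → ℂ)} (D : CohD B N S star)
include D

theorem irr {χ : N → ℂ} (h : χ ∈ S) : IsIrrCharacter N χ := by
  rw [D.hS] at h; exact h.1

theorem deg {χ : N → ℂ} (h : χ ∈ S) : ∃ f : ℕ, χ 1 = (B.subgroupOf N).index * f := by
  classical
  have h' := h
  rw [D.hS] at h'
  obtain ⟨h1, k, hk, h2⟩ := h'
  obtain ⟨φ, hφ, rfl⟩ := S1528.result (B.subgroupOf N) (H15.hC_subgroupOf N B D.cc) χ h1
    ⟨k, hk, h2⟩
  obtain ⟨f, -, hf⟩ := exists_pos_degree hφ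
  exact ⟨f, by rw [H14.indFun_one, hf]⟩

theorem exists_xi : ∃ ξ ∈ S, ξ 1 = (B.subgroupOf N).index := by
  classical
  have e := subgroupOfEquivOfLe D.le
  have : Nontrivial B := (Subgroup.nontrivial_iff_ne_bot B).2 D.ne
  have : Nontrivial (B.subgroupOf N) := e.symm.injective.nontrivial
  have := D.nil
  obtain ⟨lam, g, hg⟩ := exists_lin (B.subgroupOf N)
    (Group.nilpotent_of_surjective e.symm.toMonoidHom e.symm.surjective)
  have hch := H14.IsCharacter.indFun (B.subgroupOf N) (isCharacter_monoidHom lam)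
  have h1 : indFun (B.subgroupOf N) (fun g => (lam g : ℂ)) 1 = (B.subgroupOf N).index := by
    rw [H14.indFun_one]; simp
  have hpos : 0 < (B.subgroupOf N).index := Nat.pos_of_ne_zero index_ne_zero_of_finite
  obtain ⟨ξ, hξ, h2⟩ := exists_irr_constituent hch (fun h => by
    rw [h, Pi.zero_apply] at h1
    exact hpos.ne (by exact_mod_cast h1))
  have hS : ξ ∈ S := by
    rw [D.hS]
    refine ⟨hξ, ?_⟩
    by_contra hk
    push Not at hk
    apply h2
    rw [H14.classInner_indFun_left _ _ (isClassFunction_of_irr hξ)]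
    have : (fun h : B.subgroupOf N => ξ h) = ξ 1 • fun _ => (1 : ℂ) := by
      ext h
      simp [hk h h.2]
    rw [this, classInner_smul_right, classInner_irr_of_ne (isIrrCharacter_monoidHom lam)
      isIrrCharacter_one (fun h => hg (Units.ext (congrFun h g))), mul_zero]
  obtain ⟨f, hf⟩ := D.deg hS
  obtain ⟨d, hd0, hd⟩ := exists_pos_degree hξ
  have h3 := degree_le_of_classInner_ne_zero hch hξ h2 hd h1
  have h4 : d = (B.subgroupOf N).index * f := by
    rw [hd] at hf; exact_mod_cast hf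
  refine ⟨ξ, hS, ?_⟩
  have hf0 : f ≠ 0 := by rintro rfl; simp at h4; omega
  have : (B.subgroupOf N).index ≤ d := h4 ▸ Nat.le_mul_of_pos_right _ (Nat.pos_of_ne_zero hf0)
  rw [hd, le_antisymm h3 this]

theorem star_one {χ ξ : N → ℂ} (hχ : χ ∈ S) (hξ : ξ ∈ S) :
    ξ 1 * star χ 1 = χ 1 * star ξ 1 := by
  obtain ⟨d, -, hd⟩ := exists_pos_degree (D.irr hχ)
  obtain ⟨e, -, he⟩ := exists_pos_degree (D.irr hξ)
  have := congrFun (H15.inner_res_rel N D.iso D.ext hχ hξ hd he) 1
  rw [H14.indFun_one] at this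
  simp only [Pi.sub_apply, Pi.smul_apply, hd, he] at this
  simp only [zsmul_eq_mul, Int.cast_natCast] at this
  rw [hd, he]
  linear_combination -this

theorem pm {χ : N → ℂ} (hχ : χ ∈ S) :
    ∃ (ε : ℂ) (X : G → ℂ), (ε = 1 ∨ ε = -1) ∧ IsIrrCharacter G X ∧ star χ = ε • X ∧
      (X = star χ ∨ X = -star χ) := by
  rcases H15.star_irr_or_neg N (fun _ h => D.irr h) D.iso hχ with h | h
  · exact ⟨1, _, Or.inl rfl, h, by simp, Or.inl rfl⟩
  · exact ⟨-1, _, Or.inr rfl, h, by simp, Or.inr rfl⟩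

theorem exc_iff {ψ : G → ℂ} (hψ : IsIrrCharacter G ψ) :
    (∃ χ ∈ S, ψ = star χ ∨ ψ = -star χ) ↔ ∃ a ∈ B, ∃ b ∈ B, a ≠ 1 ∧ b ≠ 1 ∧ ψ a ≠ ψ b :=
  H15.exceptional_iff N B D.cc D.le D.hS D.two D.iso D.ext hψ

theorem one_not_exc : ¬ ∃ χ ∈ S, (fun _ : G => (1 : ℂ)) = star χ ∨ (fun _ => 1) = -star χ := by
  rw [D.exc_iff isIrrCharacter_one]
  simp

theorem deg_nonexc {ψ : G → ℂ} (hψ : IsIrrCharacter G ψ) (h1 : ψ ≠ fun _ => 1)
    (h : ¬ ∃ χ ∈ S, ψ = star χ ∨ ψ = -star χ) {n : ℕ} (hn : ψ 1 = n) : Nat.card B - 1 ≤ n := by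
  rw [D.exc_iff hψ] at h
  push Not at h
  exact deg_ge_of_const D.ne D.nil hψ h1 (fun a ha b hb => h a ha b hb) hn

theorem inner_nonexc {ψ : G → ℂ} (hψ : IsIrrCharacter G ψ)
    (h : ¬ ∃ χ ∈ S, ψ = star χ ∨ ψ = -star χ) {χ : N → ℂ} (hχ : χ ∈ S) :
    classInner (star χ) ψ = 0 := by
  obtain ⟨ε, X, -, hX, h1, h2⟩ := D.pm hχ
  rw [h1, classInner_smul_left, classInner_irr_of_ne hX hψ (fun e => h ⟨χ, hχ, e ▸ h2⟩), mul_zero]

/-- An exceptional character attached to degree `e` has degree more than `e`. -/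
theorem lt_deg (hG : ¬ IsMulCommutative G)
    (hlt : (B.subgroupOf N).index ^ 2 < Nat.card B - 1) {ξ : N → ℂ} (hξ : ξ ∈ S)
    (h1 : ξ 1 = (B.subgroupOf N).index) {X : G → ℂ} (hX : IsIrrCharacter G X)
    (h2 : X = star ξ ∨ X = -star ξ) {d : ℕ} (hd : X 1 = d) : (B.subgroupOf N).index < d := by
  classical
  by_contra hle
  push Not at hle
  have : Fintype (IrrCharacter G) := Fintype.ofFinite _
  have hXc := isCharacter_of_irr hX
  have hch := isCharacter_mul hXc (isCharacter_conj hXc)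
  obtain ⟨m, hm, hsum⟩ := exists_eq_sum_nat hch
  choose deg hdeg0 hdeg using fun ψ : IrrCharacter G => exists_pos_degree ψ.2
  have hval : (X * fun g => conj (X g)) 1 = (d ^ 2 : ℕ) := by
    simp [hd, pow_two]
  have e1 : d ^ 2 = ∑ ψ, m ψ * deg ψ := by
    have := congrFun hsum 1
    rw [hval] at this
    simp only [Finset.sum_apply, Pi.smul_apply, smul_eq_mul, hdeg] at this
    exact_mod_cast this
  let o : IrrCharacter G := ⟨fun _ => 1, isIrrCharacter_one⟩
  have hmo : m o = 1 := by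
    have := hm o
    rw [show ((o : G → ℂ)) = fun _ => 1 from rfl, ← classInner_eq_mul_conj_one,
      classInner_irr_self hX] at this
    exact_mod_cast this.symm
  have hdo : deg o = 1 := by
    have : (1 : ℂ) = deg o := hdeg o
    exact_mod_cast this.symm
  have he0 : ((B.subgroupOf N).index : ℂ) ≠ 0 := by exact_mod_cast index_ne_zero_of_finite
  have hdvd : ∀ ψ, ψ ≠ o → d ∣ m ψ * deg ψ := by
    intro ψ hψ
    by_cases hex : ∃ χ ∈ S, (ψ : G → ℂ) = star χ ∨ (ψ : G → ℂ) = -star χ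
    · obtain ⟨χ, hχ, h3⟩ := hex
      obtain ⟨f, hf⟩ := D.deg hχ
      have h4 := D.star_one hχ hξ
      rw [h1, hf, mul_assoc] at h4
      have h5 := mul_left_cancel₀ he0 h4
      refine Dvd.dvd.mul_left ?_ _
      have h6 : (deg ψ : ℂ) ^ 2 = (d * f) ^ 2 := by
        rw [← hdeg, ← hd]
        rcases h3 with h3 | h3 <;> rcases h2 with h2 | h2 <;> rw [h3, h2] <;>
          simp only [Pi.neg_apply, h5] <;> ring
      have h7 : deg ψ ^ 2 = (d * f) ^ 2 := by exact_mod_cast h6
      exact ⟨f, Nat.pow_left_injective two_ne_zero h7⟩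
    · have h3 := D.deg_nonexc ψ.2 (fun h => hψ (Subtype.ext h)) hex (hdeg ψ)
      have h4 := mult_mul_degree_le hch ψ.2 (hm ψ) (hdeg ψ) hval
      have h5 : d ^ 2 ≤ (B.subgroupOf N).index ^ 2 := Nat.pow_le_pow_left hle 2
      have : m ψ = 0 := by
        by_contra h0
        have : deg ψ ≤ m ψ * deg ψ := Nat.le_mul_of_pos_left _ (Nat.pos_of_ne_zero h0)
        omega
      simp [this]
  rw [← Finset.add_sum_erase _ _ (Finset.mem_univ o), hmo, hdo] at e1
  have h8 : d ∣ ∑ ψ ∈ Finset.univ.erase o, m ψ * deg ψ :=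
    Finset.dvd_sum fun ψ h => hdvd ψ (Finset.ne_of_mem_erase h)
  have h9 : d ∣ 1 * 1 := (Nat.dvd_add_left h8).1 (e1 ▸ dvd_pow_self d two_ne_zero)
  have hd1 : d = 1 := by simpa using h9
  have hne : X ≠ fun _ => 1 := fun h => D.one_not_exc ⟨ξ, hξ, h ▸ h2⟩
  have h10 := commutator_le_charKer hXc (by rw [hd, hd1]; simp)
  rw [charKer_eq_bot_of_isSimpleGroup hX hne, le_bot_iff, commutator_eq_bot_iff_center_eq_top]
    at h10
  exact hG ⟨⟨fun a b => (mem_center_iff.1 (h10 ▸ mem_top b) a)⟩⟩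

/-- A character of degree `|B|` vanishing on `B \ 1` has no exceptional constituent. -/
theorem inner_eq_zero (hG : ¬ IsMulCommutative G)
    (hlt : (B.subgroupOf N).index ^ 2 < Nat.card B - 1) {π : G → ℂ} (hπ : IsCharacter G π)
    (hπ' : IsCharacter G (π - fun _ => 1)) (h1 : π 1 = Nat.card B)
    (h0 : ∀ b ∈ B, b ≠ 1 → π b = 0) {χ : N → ℂ} (hχ : χ ∈ S) : classInner π (star χ) = 0 := by
  classical
  have : Fintype (IrrCharacter N) := Fintype.ofFinite _
  obtain ⟨ξ, hξ, hξ1⟩ := D.exists_xi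
  have he0 : ((B.subgroupOf N).index : ℂ) ≠ 0 := by exact_mod_cast index_ne_zero_of_finite
  have hrel : ∀ χ ∈ S, ((B.subgroupOf N).index : ℂ) * classInner π (star χ) =
      χ 1 * classInner π (star ξ) := fun χ hχ => by
    rw [← hξ1]
    exact H15.inner_star_of_const N B D.cc D.hS D.iso D.ext (isClassFunction_of_isCharacter hπ) 0
      h0 hχ hξ
  suffices h : classInner π (star ξ) = 0 by
    have := hrel χ hχ
    rw [h, mul_zero] at this
    exact (mul_eq_zero.1 this).resolve_left he0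
  by_contra hν
  set ν := classInner π (star ξ) with hνdef
  let T : Finset (IrrCharacter N) :=
    Finset.univ.filter fun χ => ¬ B.subgroupOf N ≤ charKer χ.1
  have hT : ∀ χ : IrrCharacter N, χ ∈ T ↔ χ.1 ∈ S := by
    intro χ
    simp only [T, Finset.mem_filter, Finset.mem_univ, true_and, D.hS, Set.mem_ofPred_eq,
      H15.not_le_charKer_iff _ χ.2, χ.2, mem_subgroupOf]
  let Φ : G → ℂ := ∑ χ ∈ T, χ.1 1 • star χ.1
  have hgen : ∀ χ ∈ S, IsGeneralizedCharacter G (star χ) := fun χ h =>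
    D.iso.2.2.2 χ (H15.mem_zspan_of_mem h)
  have hΦ : ∀ χ ∈ S, classInner Φ (star χ) = χ 1 := by
    intro χ hχ
    rw [classInner_sum_left, Finset.sum_eq_single ⟨χ, D.irr hχ⟩]
    · rw [classInner_smul_left, D.iso.2.2.1 _ (H15.mem_zspan_of_mem hχ) _
        (H15.mem_zspan_of_mem hχ), classInner_irr_self (D.irr hχ), mul_one]
    · intro ψ hψ hne
      rw [classInner_smul_left, D.iso.2.2.1 _ (H15.mem_zspan_of_mem ((hT ψ).1 hψ)) _
        (H15.mem_zspan_of_mem hχ), classInner_irr_of_ne ψ.2 (D.irr hχ)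
        (fun h => hne (Subtype.ext h)), mul_zero]
    · intro h
      exact (h ((hT _).2 hχ)).elim
  have hone : ∀ χ ∈ S, classInner (fun _ : G => (1 : ℂ)) (star χ) = 0 := fun χ hχ =>
    (classInner_eq_zero_comm _ _).1 (D.inner_nonexc isIrrCharacter_one D.one_not_exc hχ)
  let θ : G → ℂ := (π - fun _ => 1) - (ν / (B.subgroupOf N).index) • Φ
  have hθ : IsCharacter G θ := by
    refine isCharacter_of_classInner_nat ?_ fun ψ hψ => ?_
    · exact isClassFunction_sub (isClassFunction_of_isCharacter hπ')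
        (isClassFunction_smul (isClassFunction_sum _ _ fun χ h =>
          isClassFunction_smul (isClassFunction_of_isGen (hgen _ ((hT χ).1 h))) _) _)
    · by_cases hex : ∃ χ ∈ S, ψ = star χ ∨ ψ = -star χ
      · obtain ⟨χ, hχ, h⟩ := hex
        have h3 : classInner θ (star χ) = 0 := by
          rw [classInner_sub_left, classInner_sub_left, classInner_smul_left, hΦ χ hχ, hone χ hχ]
          apply mul_left_cancel₀ he0
          rw [mul_sub, sub_zero, hrel χ hχ]
          field_simp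
          ring
        refine ⟨0, ?_⟩
        rcases h with h | h
        · rw [h, h3]; simp
        · rw [h, classInner_neg_right, h3]; simp
      · obtain ⟨n, hn⟩ := exists_nat_classInner hπ' (isCharacter_of_irr hψ)
        refine ⟨n, ?_⟩
        rw [classInner_sub_left, classInner_smul_left, classInner_sum_left,
          Finset.sum_eq_zero, mul_zero, sub_zero, hn]
        intro χ h
        rw [classInner_smul_left, D.inner_nonexc hψ hex ((hT χ).1 h), mul_zero]
  obtain ⟨t, ht⟩ := exists_nat_degree hθ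
  have hsq : ∑ χ ∈ T, χ.1 1 * χ.1 1 = (B.subgroupOf N).index * (Nat.card B - 1 : ℂ) := by
    have := H15.sum_rel_degree_mul (B.subgroupOf N) 1
    rw [regChar_one, if_pos (one_mem _), ← (B.subgroupOf N).index_mul_card,
      card_subgroupOf_of_le D.le] at this
    rw [show (∑ χ ∈ T, χ.1 1 * χ.1 1) = _ from this]
    push_cast
    ring
  have hΦ1 : Φ 1 = star ξ 1 * (Nat.card B - 1 : ℂ) := by
    apply mul_left_cancel₀ he0
    rw [show Φ 1 = ∑ χ ∈ T, (χ.1 1 • star χ.1) 1 from Finset.sum_apply _ _ _, Finset.mul_sum]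
    have : ∀ χ ∈ T, ((B.subgroupOf N).index : ℂ) * (χ.1 1 • star χ.1) 1 =
        star ξ 1 * (χ.1 1 * χ.1 1) := by
      intro χ h
      have := D.star_one ((hT χ).1 h) hξ
      rw [hξ1] at this
      simp only [Pi.smul_apply, smul_eq_mul]
      linear_combination χ.1 1 * this
    rw [Finset.sum_congr rfl this, ← Finset.mul_sum, hsq]
    ring
  obtain ⟨ε, X, hε, hX, h2, h3⟩ := D.pm hξ
  obtain ⟨d, -, hd⟩ := exists_pos_degree hX
  obtain ⟨m, hm⟩ := exists_nat_classInner hπ (isCharacter_of_irr hX)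
  have hνσ : ν * star ξ 1 = m * d := by
    rw [hνdef, h2, classInner_smul_right, hm, Pi.smul_apply, hd]
    rcases hε with rfl | rfl <;> simp
  have hm0 : m ≠ 0 := by
    rintro rfl
    apply hν
    rw [hνdef, h2, classInner_smul_right, hm]
    simp
  have h4 := D.lt_deg hG hlt hξ hξ1 hX h3 hd
  have hB1 : 1 ≤ Nat.card B := Nat.card_pos
  obtain ⟨a, ha⟩ := Nat.exists_eq_add_of_le' hB1
  have h5 : ((B.subgroupOf N).index : ℂ) * t + m * d * a = (B.subgroupOf N).index * a := by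
    rw [← ht, ← hνσ]
    simp only [θ, Pi.sub_apply, Pi.smul_apply, smul_eq_mul, h1, hΦ1, ha]
    push_cast
    field_simp
    ring
  have h6 : (B.subgroupOf N).index * t + m * d * a = (B.subgroupOf N).index * a := by
    exact_mod_cast h5
  have ha0 : 0 < a := by omega
  have h7 : d ≤ m * d := Nat.le_mul_of_pos_left _ (Nat.pos_of_ne_zero hm0)
  have h8 : m * d * a ≤ (B.subgroupOf N).index * a := by omega
  have := Nat.le_of_mul_le_mul_right h8 ha0
  omega

end CohD

end Coh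

theorem perm_vanish [Finite G] {B : Subgroup G} (hB : B ≠ ⊤) (hC : CC B) {x : G} (hx : x ≠ 1)
    (hcs : cs[x] = Nat.card B) (hcop : (Nat.card B).Coprime B.index) {b : G} (hb : b ∈ B)
    (hb1 : b ≠ 1) (g : G) : g⁻¹ * b * g ∉ Ce[x] := by
  intro h
  have h1 : g * x * g⁻¹ ∈ B := hC b hb hb1 (mem_C_comm.1 (mem_C_conj.2 h))
  have h2 : g * x * g⁻¹ ≠ 1 := by
    intro h
    apply hx
    have : x = g⁻¹ * (g * x * g⁻¹) * g := by group
    rw [this, h]; simp
  have h3 := card_dvd_of_le (hC _ h1 h2)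
  rw [card_C_eq_of_cs_eq (cs_conj g x)] at h3
  have h4 : Nat.card Ce[x] = B.index := by
    have e1 := cs_mul_card x
    rw [hcs, ← B.card_mul_index] at e1
    exact Nat.eq_of_mul_eq_mul_left Nat.card_pos e1
  rw [h4] at h3
  exact hB (index_eq_one.1 (hcop.symm.eq_one_of_dvd h3))

theorem CC.coprime [Finite G] {B : Subgroup G} (hC : CC B) : (Nat.card B).Coprime B.index := by
  refine Nat.Coprime.symm (Nat.coprime_of_dvd fun p hp h1 h2 => ?_)
  have : Fact p.Prime := ⟨hp⟩
  obtain ⟨y, hy⟩ := exists_prime_orderOf_dvd_card' p h2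
  have hy' : orderOf (y : G) = p := by rw [Subgroup.orderOf_coe, hy]
  have hy1 : (y : G) ≠ 1 := by
    intro h
    rw [h, orderOf_one] at hy'
    exact hp.one_lt.ne hy'
  obtain ⟨Q, hQ⟩ := exists_sylow_mem (p := p) (g := (y : G)) ⟨1, by rw [hy', pow_one]⟩
  have : Nontrivial (Q : Subgroup G) := ⟨⟨⟨y, hQ⟩, 1, fun h => hy1 (congrArg Subtype.val h)⟩⟩
  obtain ⟨z, hz, hz1⟩ := (Subgroup.bot_or_exists_ne_one _).resolve_left
    (Q.isPGroup'.center_nontrivial |> (Subgroup.nontrivial_iff_ne_bot _).1)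
  have hzc : ∀ b ∈ (Q : Subgroup G), Commute b (z : G) := fun b hb =>
    congrArg Subtype.val (mem_center_iff.1 hz ⟨b, hb⟩)
  have hzB : (z : G) ∈ B := hC y y.2 hy1 (mem_C.2 (hzc _ hQ).symm)
  have hQB : (Q : Subgroup G) ≤ B := fun b hb =>
    hC z hzB (fun h => hz1 (Subtype.ext h)) (mem_C.2 (hzc b hb))
  exact not_dvd_index_of_sylow_le Q hQB h1

theorem regChar : RegCharStmt.{u} := by
  intro G _ _ _ hG B x hnil hB hC hpp hx hcs
  classical
  have : Fintype G := Fintype.ofFinite G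
  let N := normalizer (B : Set G)
  have hlt := hC.index_sq_lt hB hnil hpp
  have hBt : B ≠ ⊤ := by
    rintro rfl
    have := Group.nilpotent_of_surjective (topEquiv (G := G)).toMonoidHom topEquiv.surjective
    have hs : Group.IsSolvable G := inferInstance
    exact hG ⟨⟨IsSimpleGroup.comm_iff_isSolvable.2 hs⟩⟩
  have hpg : ∀ p : ℕ, p.Prime → ¬ IsPGroup p B := by
    intro p hp h
    have : Fact p.Prime := ⟨hp⟩
    obtain ⟨k, hk⟩ := IsPGroup.iff_card.1 h
    refine hpp ⟨p, k, hp.prime, ?_, hk.symm⟩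
    rcases k with _ | k
    · rw [pow_zero] at hk; omega
    · omega
  rcases tifn_trichotomy B N le_normalizer hB hnil (hC.ti hB hnil) (centralizer_le_subgroupOf N hC)
    with ⟨-, -, p, hp, h⟩ | ⟨⟨α, hα, hα0⟩, star, hiso, hext⟩ | ⟨p, hp, h, -⟩
  · exact (hpg p hp fun g => ⟨1, Subtype.ext (by simpa using h.2 g g.2)⟩).elim
  swap
  · exact (hpg p hp h).elim
  set S := {χ : N → ℂ | IsIrrCharacter N χ ∧ ∃ k : N, (k : G) ∈ B ∧ χ k ≠ χ 1} with hS
  have htwo : ∃ χ ∈ S, ∃ ξ ∈ S, χ ≠ ξ := by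
    by_contra h
    push Not at h
    rcases S.eq_empty_or_nonempty with h0 | ⟨χ, hχ⟩
    · have := hα.1
      rw [h0, zspan, Submodule.span_empty] at this
      exact hα0 this
    · have h1 : S = {χ} := Set.eq_singleton_iff_unique_mem.2 ⟨hχ, fun ξ hξ => h ξ hξ χ hχ⟩
      have := hα.1
      rw [h1, zspan] at this
      obtain ⟨n, rfl⟩ := Submodule.mem_span_singleton.1 this
      have h2 := hα.2 1 (by simp)
      rw [Pi.smul_apply, zsmul_eq_mul, mul_eq_zero] at h2
      rcases h2 with h2 | h2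
      · apply hα0
        rw [Int.cast_eq_zero.1 h2, zero_smul]
      · exact irr_apply_one_ne_zero hχ.1 h2
  have D : CohD B N S star := ⟨hB, hnil, hC, le_normalizer, rfl, htwo, hiso, hext⟩
  have h1B : 1 < Nat.card B := (one_lt_card_iff_ne_bot B).2 hB
  have hcard : Nat.card (G ⧸ Ce[x]) = Nat.card B := hcs
  have : Nontrivial (G ⧸ Ce[x]) := Finite.one_lt_card_iff_nontrivial.1 (hcard ▸ h1B)
  have hπ := isCharacter_permChar (G := G) (G ⧸ Ce[x])
  have hπ' := isCharacter_permChar_sub_one (G := G) (G ⧸ Ce[x])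
  have hπ1 : permChar G (G ⧸ Ce[x]) 1 = Nat.card B := by rw [permChar_one, hcard]
  have hπ0 : ∀ b ∈ B, b ≠ 1 → permChar G (G ⧸ Ce[x]) b = 0 := by
    intro b hb hb1
    rw [permChar_apply, Nat.cast_eq_zero, Nat.card_eq_zero]
    refine Or.inl ⟨fun ⟨q, hq⟩ => ?_⟩
    obtain ⟨g, rfl⟩ := QuotientGroup.mk_surjective q
    have : ((b * g : G) : G ⧸ Ce[x]) = g := hq
    have h2 := QuotientGroup.eq.1 this.symm
    exact perm_vanish hBt hC hx hcs hC.coprime hb hb1 g (by simpa [mul_assoc] using h2)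
  have hdeg : (permChar G (G ⧸ Ce[x]) - fun _ => 1 : G → ℂ) 1 = ((Nat.card B - 1 : ℕ) : ℂ) := by
    rw [Pi.sub_apply, hπ1, Nat.cast_sub h1B.le, Nat.cast_one]
  obtain ⟨ψ, hψ, h2⟩ := exists_irr_constituent hπ' (fun h => by
    rw [h, Pi.zero_apply] at hdeg
    have : 0 = Nat.card B - 1 := by exact_mod_cast hdeg
    omega)
  have hψ1 : ψ ≠ fun _ => 1 := by
    rintro rfl
    apply h2
    rw [classInner_sub_left, classInner_permChar_one_of_isPretransitive, classInner_one_one,
      sub_self]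
  have hex : ¬ ∃ χ ∈ S, ψ = star χ ∨ ψ = -star χ := by
    rintro ⟨χ, hχ, h⟩
    apply h2
    have h3 := D.inner_eq_zero hG hlt hπ hπ' hπ1 hπ0 hχ
    rw [classInner_sub_left, classInner_irr_of_ne isIrrCharacter_one hψ hψ1.symm, sub_zero]
    rcases h with h | h
    · rw [h, h3]
    · rw [h, classInner_neg_right, h3, neg_zero]
  obtain ⟨n, -, hn⟩ := exists_pos_degree hψ
  have h3 := D.deg_nonexc hψ hψ1 hex hn
  have h4 := degree_le_of_classInner_ne_zero hπ' hψ h2 hn hdeg
  have h5 := eq_of_classInner_ne_zero_of_degree_eq hπ' hψ h2 (by rw [hdeg, hn, le_antisymm h4 h3])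
  have h6 := (isIrrCharacter_permChar_sub_one_iff (G := G) (G ⧸ Ce[x])).1 (h5 ▸ hψ)
  intro y z hy hz hyx hzx
  obtain ⟨g, rfl⟩ := isConj_iff.1 hy
  obtain ⟨h, rfl⟩ := isConj_iff.1 hz
  have hne : ∀ g : G, g * x * g⁻¹ ≠ x → ((1 : G) : G ⧸ Ce[x]) ≠ g := by
    intro g hg h
    have := QuotientGroup.eq.1 h
    rw [inv_one, one_mul, mem_C] at this
    exact hg (by rw [this.eq]; simp)
  obtain ⟨c, hc1, hc2⟩ := MulAction.is_two_pretransitive_iff.1 h6 (hne g hyx) (hne h hzx)
  have hc3 : ((c * 1 : G) : G ⧸ Ce[x]) = (1 : G) := hc1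
  have hc4 : ((c * g : G) : G ⧸ Ce[x]) = h := hc2
  refine ⟨c, by simpa using QuotientGroup.eq.1 hc3.symm, ?_⟩
  have h7 := (mem_C.1 (QuotientGroup.eq.1 hc4)).eq
  calc c * (g * x * g⁻¹) * c⁻¹ = (c * g) * (x * ((c * g)⁻¹ * h)) * h⁻¹ := by group
    _ = (c * g) * (((c * g)⁻¹ * h) * x) * h⁻¹ := by rw [h7]
    _ = _ := by group

theorem reg (h2 : TwoTStmt.{u}) : RegStmt.{u} := by
  intro G _ _ _ hG B x hnil hC hx hcs
  have hpp : ¬ IsPrimePow (Nat.card B) := by
    rintro ⟨p, k, hp, -, hk⟩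
    have h := S0143.result p k hp.nat_prime x hx (hcs.trans hk.symm)
    have : Fact (Nat.card G).Prime := ⟨h⟩
    have := isCyclic_of_prime_card (α := G) rfl
    exact hG inferInstance
  have hB : B ≠ ⊥ := by
    rintro rfl
    rw [card_bot, cs_eq_one_iff] at hcs
    rcases (inferInstance : (center G).Normal).eq_bot_or_eq_top with h | h
    · exact hx (by simpa [h] using hcs)
    · exact hG ⟨⟨fun a b => (mem_center_iff.1 (h ▸ mem_top b) a)⟩⟩
  refine h2 G hG x hx (regChar G hG B x hnil hB hC hpp hx hcs) ?_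
  intro s d hs hsd hd1 hd
  have : Fact s.Prime := ⟨hs⟩
  have hidx : ¬ s ∣ B.index := fun h =>
    hs.one_lt.ne' (Nat.eq_one_of_dvd_coprimes hC.coprime (hcs ▸ hsd) h)
  obtain ⟨P, hP⟩ := exists_sylow_le_of_not_dvd_index hidx
  obtain ⟨g, hg⟩ := exists_conj_mem_sylow P hd
  have h1 : g * d * g⁻¹ ≠ 1 := by
    intro h
    apply hd1
    have : d = g⁻¹ * (g * d * g⁻¹) * g := by group
    rw [this, h]; simp
  have h3 := card_dvd_of_le (hC _ (hP hg) h1)
  rw [card_C_eq_of_cs_eq (cs_conj g d)] at h3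
  have h4 : Nat.card Ce[x] = B.index := by
    have e1 := cs_mul_card x
    rw [hcs, ← B.card_mul_index] at e1
    exact Nat.eq_of_mul_eq_mul_left Nat.card_pos e1
  rw [h4]
  exact Nat.Coprime.coprime_dvd_left h3 hC.coprime

end Cfsg.Agent.H14.Rk
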