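import Mathlib
import Cfsg.Agent.H53.TCDefs
import Cfsg.Agent.H12.Burnside

/-! Pieces IDX and CEN of project TC (the 3-closure of a solvable group). -/

set_option autoImplicit false

namespace Cfsg.Agent.H14.TC

open MulAction Cfsg.Agent.H12.RO Cfsg.Agent.H53.MW Cfsg.Agent.H53.TC

universe u

theorem solvable_perm_four (X : Type*) [Finite X] (h : Nat.card X ≤ 4) :
    Group.IsSolvable (Equiv.Perm X) :=
  H12.isSolvable_of_card_dvd_pow_mul_pow (a := 3) (b := 1) Nat.prime_two Nat.prime_three (by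
    rw [Nat.card_perm]
    exact Nat.factorial_dvd_factorial h)

theorem exists_der_eq_bot {L : Type*} [Group L] (G : Subgroup L) (h : Group.IsSolvable G) :
    ∃ b, der G b = ⊥ := by
  obtain ⟨b, hb⟩ := h.solvable
  exact ⟨b, by rw [← map_derivedSeries_subtype, hb, Subgroup.map_bot]⟩

/-- Piece IDX. -/
theorem idx : IdxStmt.{u} := by
  intro L V W _ _ _ _ G hG hcl ⟨x, y, φ, hφ⟩
  let ρ := toPermHom L W
  let G' : Subgroup L := G ⊔ ρ.ker
  choose g hg hgx hgy using fun f : L => hcl f⁻¹ x y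
  have hx : ∀ f, ((g f)⁻¹ * f⁻¹) • x = x := fun f => by rw [mul_smul, ← hgx, inv_smul_smul]
  have hy : ∀ f, ((g f)⁻¹ * f⁻¹) • y = y := fun f => by rw [mul_smul, ← hgy, inv_smul_smul]
  have hcard : Nat.card (L ⧸ G') ≤ 4 := by
    have := Nat.card_le_card_of_injective (fun q : L ⧸ G' => φ ((g q.out)⁻¹ * q.out⁻¹))
      (fun q q' h => by
        have h1 := hφ _ _ (hx q.out) (hy q.out) (hx q'.out) (hy q'.out) h
        have h2 : (g q.out)⁻¹ * q.out⁻¹ * ((g q'.out)⁻¹ * q'.out⁻¹)⁻¹ ∈ ρ.ker := by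
          rw [MonoidHom.mem_ker, Equiv.ext_iff]
          intro w
          change ((g q.out)⁻¹ * q.out⁻¹ * ((g q'.out)⁻¹ * q'.out⁻¹)⁻¹) • w = w
          rw [mul_smul, h1, smul_inv_smul]
        rw [← QuotientGroup.out_eq' q, ← QuotientGroup.out_eq' q', QuotientGroup.eq]
        have h3 : q.out⁻¹ * q'.out = g q.out *
            ((g q.out)⁻¹ * q.out⁻¹ * ((g q'.out)⁻¹ * q'.out⁻¹)⁻¹) * (g q'.out)⁻¹ := by group
        rw [h3]
        exact G'.mul_mem (G'.mul_mem (Subgroup.mem_sup_left (hg _)) (Subgroup.mem_sup_right h2))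
          (G'.inv_mem (Subgroup.mem_sup_left (hg _))))
    simpa using this
  obtain ⟨a, ha⟩ := (solvable_perm_four _ hcard).solvable
  obtain ⟨b, hb⟩ := exists_der_eq_bot G hG
  have h1 : der (⊤ : Subgroup L) a ≤ G' := fun f hf => by
    have h2 := mem_der_map (toPermHom L (L ⧸ G')) hf
    have h3 := der_mono (le_top (a := (⊤ : Subgroup L).map (toPermHom L (L ⧸ G')))) a h2
    rw [der_top, ha, Subgroup.mem_bot] at h3
    have h4 : f • ((1 : L) : L ⧸ G') = (1 : L) :=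
      congrArg (fun p : Equiv.Perm (L ⧸ G') => p ((1 : L) : L ⧸ G')) h3
    rw [MulAction.Quotient.smul_coe, smul_eq_mul, mul_one, eq_comm, QuotientGroup.eq] at h4
    simpa using h4
  refine ⟨a + b, ?_⟩
  rw [der_add]
  refine Triv.mono ?_ (der_mono h1 b)
  rw [triv_iff, ← Subgroup.map_eq_bot_iff, map_der, Subgroup.map_sup, Subgroup.map_ker_self,
    sup_bot_eq, ← map_der, hb, Subgroup.map_bot]

/-- Piece CEN. -/
theorem cen : CenStmt.{u} := by
  intro n hLC L V _ _ _ _ _ G T hG hn hirr hcl hTn ⟨s, hs, t, ht, v₁, hst⟩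
  let ρ := DistribMulAction.toAddMonoidEnd L V
  have ρa : ∀ (f : L) (v : V), ρ f v = f • v := fun _ _ => rfl
  let A : Subring (AddMonoid.End V) := Subring.closure (ρ '' T)
  let C := Subgroup.centralizer (T : Set L)
  have hconj : ∀ g ∈ G, ∀ a ∈ A, ρ g⁻¹ * a * ρ g ∈ A := fun g hg a ha => by
    have h1 : ρ g * ρ g⁻¹ = 1 := by rw [← map_mul, mul_inv_cancel, map_one]
    have h2 : ρ g⁻¹ * ρ g = 1 := by rw [← map_mul, inv_mul_cancel, map_one]
    induction ha using Subring.closure_induction with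
    | mem a ha =>
      obtain ⟨t, ht, rfl⟩ := ha
      rw [← map_mul, ← map_mul]
      exact Subring.subset_closure ⟨_, by simpa using hTn g⁻¹ (G.inv_mem hg) t ht, rfl⟩
    | zero => simp
    | one => rw [mul_one, h2]; exact A.one_mem
    | add a b _ _ ha hb => rw [mul_add, add_mul]; exact A.add_mem ha hb
    | neg a _ ha => rw [mul_neg, neg_mul]; exact A.neg_mem ha
    | mul a b _ _ ha hb =>
      have : ρ g⁻¹ * (a * b) * ρ g = ρ g⁻¹ * a * ρ g * (ρ g⁻¹ * b * ρ g) := by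
        calc ρ g⁻¹ * (a * b) * ρ g = ρ g⁻¹ * a * (ρ g * ρ g⁻¹) * b * ρ g := by
              rw [h1]; simp only [mul_one, mul_assoc]
          _ = _ := by simp only [mul_assoc]
      rw [this]
      exact A.mul_mem ha hb
  have hcent : ∀ c ∈ C, ∀ a ∈ A, a * ρ c = ρ c * a := fun c hc a ha => by
    have : A ≤ Subring.centralizer {ρ c} := Subring.closure_le.2 (by
      rintro _ ⟨t, ht, rfl⟩ _ rfl
      rw [← map_mul, ← map_mul, hc t ht])
    exact (this ha _ rfl).symm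
  have hfin : Finite (AddMonoid.End V) :=
    Finite.of_injective (fun a : AddMonoid.End V => (a : V → V)) DFunLike.coe_injective
  let Ann : V → Set (AddMonoid.End V) := fun v => {a | a ∈ A ∧ a v = 0}
  have hv₁ : v₁ ≠ 0 := by
    rintro rfl
    simp at hst
  obtain ⟨v₀, hv₀, hmax⟩ := Set.exists_max_image {v : V | v ≠ 0} (fun v => (Ann v).ncard)
    (Set.toFinite _) ⟨v₁, hv₁⟩
  let Y : AddSubgroup V :=
    { carrier := {v | Ann v₀ ⊆ Ann v}
      add_mem' := fun h1 h2 a ha => ⟨ha.1, by rw [map_add, (h1 ha).2, (h2 ha).2, add_zero]⟩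
      zero_mem' := fun a ha => ⟨ha.1, map_zero a⟩
      neg_mem' := fun h1 a ha => ⟨ha.1, by rw [map_neg, (h1 ha).2, neg_zero]⟩ }
  have hY₀ : v₀ ∈ Y := fun _ h => h
  have hAnn : ∀ v ∈ Y, v ≠ 0 → Ann v₀ = Ann v := fun v hv h0 =>
    Set.eq_of_subset_of_ncard_le hv (hmax v h0) (Set.toFinite _)
  have hYt : Y ≠ ⊤ := by
    intro hY
    have h0 : ∀ a ∈ A, ∀ v, v ≠ 0 → a v = 0 → a = 0 := fun a ha v hv hav => by
      have h1 : a ∈ Ann v₀ := by
        rw [hAnn v (hY ▸ AddSubgroup.mem_top v) hv]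
        exact ⟨ha, hav⟩
      refine DFunLike.ext _ _ fun w => ?_
      have h2 : w ∈ Y := hY ▸ AddSubgroup.mem_top w
      exact (h2 h1).2
    have : Nontrivial A := ⟨⟨0, 1, fun h => hv₁ (by
      have h1 := congrArg (fun a : A => a.1 v₁) h
      exact h1.symm)⟩⟩
    have : NoZeroDivisors A := ⟨fun {a b} h => by
      by_contra hc
      push Not at hc
      refine hc.2 (Subtype.ext (DFunLike.ext _ _ fun w => ?_))
      by_contra hw
      exact hc.1 (Subtype.ext (h0 a a.2 _ hw (congrArg (fun a : A => a.1 w) h)))⟩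
    have : IsDomain A := NoZeroDivisors.to_isDomain A
    have h1 := (Finite.isDomain_to_isField A).mul_comm ⟨ρ s, Subring.subset_closure ⟨s, hs, rfl⟩⟩
      ⟨ρ t, Subring.subset_closure ⟨t, ht, rfl⟩⟩
    exact hst (congrArg (fun a : A => a.1 v₁) h1)
  have hCY : Inv C Y := fun c v hv a ha => ⟨ha.1, by
    have h1 : a (ρ c v) = ρ c (a v) := congrArg (fun a : AddMonoid.End V => a v) (hcent c c.2 a ha.1)
    change a (ρ c v) = 0
    rw [h1, (hv ha).2, map_zero]⟩
  have hGY : ∀ g ∈ G, ∀ v ∈ Y, v ≠ 0 → g • v ∈ Y → ∀ w ∈ Y, g • w ∈ Y :=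
    fun g hg v hv h0 hgv w hw a ha => ⟨ha.1, by
      have h1 : ρ g⁻¹ * a * ρ g ∈ Ann v₀ := by
        rw [hAnn v hv h0]
        refine ⟨hconj g hg a ha.1, ?_⟩
        change g⁻¹ • a (g • v) = 0
        rw [(hgv ha).2, smul_zero]
      have h2 : g⁻¹ • a (g • w) = 0 := (hw h1).2
      rwa [smul_eq_zero_iff_eq] at h2⟩
  let GY : Subgroup L :=
    { carrier := {g | g ∈ G ∧ ∀ w ∈ Y, g • w ∈ Y}
      mul_mem' := fun h1 h2 => ⟨G.mul_mem h1.1 h2.1, fun w hw => by
        rw [mul_smul]; exact h1.2 _ (h2.2 w hw)⟩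
      one_mem' := ⟨G.one_mem, fun w hw => by rwa [one_smul]⟩
      inv_mem' := fun {g} h => ⟨G.inv_mem h.1, hGY _ (G.inv_mem h.1) (g • v₀) (h.2 _ hY₀)
        (fun h0 => hv₀ ((smul_eq_zero_iff_eq g).1 h0)) (by rwa [inv_smul_smul])⟩ }
  have hGYi : Inv GY Y := fun g w hw => g.2.2 w hw
  have hle : GY ≤ G := fun g hg => hg.1
  have : Group.IsSolvable GY :=
    Group.isSolvable_of_isSolvable_injective (Subgroup.inclusion_injective hle)
  obtain ⟨k, hk⟩ : letI := subAct hCY; SolvOn C Y := by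
    letI := subAct hCY
    letI := subAct hGYi
    refine hLC GY C Y ((card_lt_of_ne_top hYt).trans_le hn) fun h x y => ?_
    by_cases h0 : x = 0 ∧ y = 0
    · exact ⟨1, by rw [h0.1, smul_zero, smul_zero], by rw [h0.2, smul_zero, smul_zero]⟩
    obtain ⟨g, hg, hx, hy⟩ := hcl h x y
    refine ⟨⟨g, hg, ?_⟩, Subtype.ext hx, Subtype.ext hy⟩
    rcases not_and_or.1 h0 with h1 | h1
    · exact hGY g hg x x.2 (fun h2 => h1 (Subtype.ext h2)) (hx ▸ hCY h x x.2)
    · exact hGY g hg y y.2 (fun h2 => h1 (Subtype.ext h2)) (hy ▸ hCY h y y.2)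
  refine ⟨k, ?_⟩
  have hX : ∀ g ∈ G, ∀ x ∈ der C k, g⁻¹ * x * g ∈ der C k := fun g hg x hx => by
    have h1 := mem_der_map (MulAut.conj g⁻¹).toMonoidHom hx
    have h3 : (MulAut.conj g⁻¹).toMonoidHom x = g⁻¹ * x * g := by simp
    rw [h3] at h1
    refine der_mono ?_ k h1
    rintro _ ⟨c, hc, rfl⟩ t ht
    have h2 := hc _ (hTn g hg t ht)
    change t * (g⁻¹ * c * g⁻¹⁻¹) = g⁻¹ * c * g⁻¹⁻¹ * t
    calc t * (g⁻¹ * c * g⁻¹⁻¹) = g⁻¹ * (g * t * g⁻¹ * c) * g := by group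
      _ = g⁻¹ * (c * (g * t * g⁻¹)) * g := by rw [h2]
      _ = _ := by group
  let F : AddSubgroup V :=
    { carrier := {v | ∀ x ∈ der C k, x • v = v}
      add_mem' := fun h1 h2 x hx => by rw [smul_add, h1 x hx, h2 x hx]
      zero_mem' := fun x _ => smul_zero x
      neg_mem' := fun h1 x hx => by rw [smul_neg, h1 x hx] }
  have hF₀ : v₀ ∈ F := fun x hx => by
    obtain ⟨hx', h1⟩ := exists_of_mem_der le_rfl hx
    rw [Subgroup.subgroupOf_self] at h1
    exact congrArg Subtype.val (hk _ h1 ⟨v₀, hY₀⟩)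
  rcases hirr F (fun g v hv x hx => by
    have h1 := hv _ (hX g g.2 x hx)
    rw [mul_smul, mul_smul, inv_smul_eq_iff] at h1
    exact h1) with h | h
  · rw [h, AddSubgroup.mem_bot] at hF₀
    exact absurd hF₀ hv₀
  · intro x hx v
    have : v ∈ F := h ▸ AddSubgroup.mem_top v
    exact this x hx

end Cfsg.Agent.H14.TC
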